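import Mathlib

set_option autoImplicit false

namespace Cfsg.Agent.Helper97.S1906P

variable {F : Type*} [Field F] {V : Type*} [AddCommGroup V] [Module F V] {P : Type*} [Group P]

/-- COMPL (Maschke). An invariant subspace of a finite `2`-group in characteristic `≠ 2` has an
invariant complement. -/
theorem s1906_compl [Finite P] (hP : IsPGroup 2 P) (h2 : (2 : F) ≠ 0)
    (ρ : Representation F P V) (L : Submodule F V) (hL : ∀ x : P, ∀ v ∈ L, ρ x v ∈ L) :
    ∃ W : Submodule F V, IsCompl L W ∧ ∀ x : P, ∀ v ∈ W, ρ x v ∈ W := by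
  haveI : Fact (Nat.Prime 2) := ⟨Nat.prime_two⟩
  obtain ⟨k, hk⟩ := IsPGroup.iff_card.mp hP
  haveI : NeZero (Nat.card P : F) := ⟨by rw [hk]; push_cast; exact pow_ne_zero _ h2⟩
  let L' : Subrepresentation ρ := ⟨L, fun g v hv => hL g v hv⟩
  obtain ⟨W', hW'⟩ := exists_isCompl L'
  refine ⟨W'.toSubmodule, ?_, fun x v hv => W'.apply_mem_toSubmodule x hv⟩
  have h1 := congrArg Subrepresentation.toSubmodule hW'.inf_eq_bot
  have h3 := congrArg Subrepresentation.toSubmodule hW'.sup_eq_top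
  exact IsCompl.of_eq h1 h3

end Cfsg.Agent.Helper97.S1906P
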