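import Mathlib

/-!
# Helper97: the wreath-type 2-subgroup `S ≀ T` of `GL_{2m}(F)` (CALL S4627, rows S4627 / S4628)

Index type of `GL_{2m}` is `Fin 2 × Fin m` (Mathlib's `Matrix.blockDiagonal`).

* `gPhi F m : (Fin m → GL (Fin 2) F) →* GL (Fin 2 × Fin m) F` : block diagonal embedding.
* `gPsi F m : Equiv.Perm (Fin m) →* GL (Fin 2 × Fin m) F` : permutation of the blocks.
* `gW S T` : the subgroup generated by `gPhi (S^m)` and `gPsi T`.
* `gW1 S T` : its determinant-one part, as a subgroup of `SL (Fin 2 × Fin m) F`.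
* `gWk S T` : its determinant-one part, as a subgroup of `GL (Fin 2 × Fin m) F`.
* `gQ S` : the determinant-one part of `S ≤ GL_2(F)`.
-/

set_option autoImplicit false

namespace Cfsg.Agent.Helper97.GSyl

open Matrix

variable {F : Type*} [Field F] {m : ℕ}

/-- the block diagonal embedding of `GL_2(F)^m` in `GL_{2m}(F)` -/
noncomputable def gPhi (F : Type*) [Field F] (m : ℕ) :
    (Fin m → GL (Fin 2) F) →* GL (Fin 2 × Fin m) F :=
  (Units.map (Matrix.blockDiagonalRingHom (Fin 2) (Fin m) F).toMonoidHom).comp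
    (MulEquiv.piUnits (M := fun _ : Fin m => Matrix (Fin 2) (Fin 2) F)).symm.toMonoidHom

theorem gPhi_val (g : Fin m → GL (Fin 2) F) :
    ((gPhi F m g : GL (Fin 2 × Fin m) F) : Matrix (Fin 2 × Fin m) (Fin 2 × Fin m) F)
      = Matrix.blockDiagonal (fun k => ((g k : GL (Fin 2) F) : Matrix (Fin 2) (Fin 2) F)) := rfl

theorem gPhi_apply (g : Fin m → GL (Fin 2) F) (i j : Fin 2) (k l : Fin m) :
    ((gPhi F m g : GL (Fin 2 × Fin m) F) : Matrix (Fin 2 × Fin m) (Fin 2 × Fin m) F) (i, k) (j, l)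
      = if k = l then ((g k : GL (Fin 2) F) : Matrix (Fin 2) (Fin 2) F) i j else 0 := rfl

theorem gPhi_injective : Function.Injective (gPhi F m) := by
  intro g h hgh
  have h1 := congrArg (fun x : GL (Fin 2 × Fin m) F => (x : Matrix (Fin 2 × Fin m) (Fin 2 × Fin m) F)) hgh
  simp only [gPhi_val] at h1
  have h2 := Matrix.blockDiagonal_injective h1
  funext k
  apply Units.ext
  exact congrFun h2 k

theorem det_gPhi (g : Fin m → GL (Fin 2) F) :
    ((gPhi F m g : GL (Fin 2 × Fin m) F) : Matrix (Fin 2 × Fin m) (Fin 2 × Fin m) F).det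
      = ∏ k, ((g k : GL (Fin 2) F) : Matrix (Fin 2) (Fin 2) F).det := by
  rw [gPhi_val, Matrix.det_blockDiagonal]

/-- a permutation of the blocks, as a permutation of `Fin 2 × Fin m` -/
def gPerm (m : ℕ) : Equiv.Perm (Fin m) →* Equiv.Perm (Fin 2 × Fin m) where
  toFun σ := Equiv.prodCongr (Equiv.refl (Fin 2)) σ
  map_one' := by
    ext x <;> rfl
  map_mul' σ τ := by
    ext x <;> rfl

theorem gPerm_apply (σ : Equiv.Perm (Fin m)) (i : Fin 2) (k : Fin m) :
    gPerm m σ (i, k) = (i, σ k) := rfl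

/-- the block permutation matrices -/
noncomputable def gPsi (F : Type*) [Field F] (m : ℕ) :
    Equiv.Perm (Fin m) →* GL (Fin 2 × Fin m) F :=
  ((Matrix.permMatrixHom (R := F) (n := Fin 2 × Fin m)).comp (gPerm m)).toHomUnits

theorem gPsi_val (σ : Equiv.Perm (Fin m)) :
    ((gPsi F m σ : GL (Fin 2 × Fin m) F) : Matrix (Fin 2 × Fin m) (Fin 2 × Fin m) F)
      = Equiv.Perm.permMatrix F (gPerm m σ)⁻¹ := rfl

theorem gPsi_apply (σ : Equiv.Perm (Fin m)) (i j : Fin 2) (k l : Fin m) :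
    ((gPsi F m σ : GL (Fin 2 × Fin m) F) : Matrix (Fin 2 × Fin m) (Fin 2 × Fin m) F) (i, k) (j, l)
      = if i = j ∧ k = σ l then 1 else 0 := by
  have e : (gPerm m σ)⁻¹ (i, k) = (i, σ⁻¹ k) := by
    rw [← map_inv]; rfl
  show (Equiv.toPEquiv ((gPerm m σ)⁻¹)).toMatrix (i, k) (j, l) = _
  rw [PEquiv.toMatrix_apply, Equiv.toPEquiv_apply, e]
  have h : (σ⁻¹ k = l) ↔ (k = σ l) := by
    constructor
    · intro h; rw [← h]; simp
    · intro h; rw [h]; simp
  have hiff : ((j, l) ∈ (some (i, σ⁻¹ k) : Option (Fin 2 × Fin m))) ↔ (i = j ∧ k = σ l) := by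
    rw [Option.mem_def, Option.some.injEq, Prod.mk.injEq, h]
  exact if_congr hiff rfl rfl

theorem gPsi_conj (σ : Equiv.Perm (Fin m)) (g : Fin m → GL (Fin 2) F) :
    gPsi F m σ * gPhi F m g * (gPsi F m σ)⁻¹ = gPhi F m (g ∘ ⇑σ⁻¹) := by
  rw [mul_inv_eq_iff_eq_mul]
  apply Units.ext
  rw [Units.val_mul, Units.val_mul]
  ext ⟨i, k⟩ ⟨j, l⟩
  rw [Matrix.mul_apply, Matrix.mul_apply]
  have hL : (∑ x : Fin 2 × Fin m,
      ((gPsi F m σ : GL (Fin 2 × Fin m) F) : Matrix (Fin 2 × Fin m) (Fin 2 × Fin m) F) (i, k) x *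
        ((gPhi F m g : GL (Fin 2 × Fin m) F) : Matrix (Fin 2 × Fin m) (Fin 2 × Fin m) F) x (j, l))
      = if k = σ l then ((g l : GL (Fin 2) F) : Matrix (Fin 2) (Fin 2) F) i j else 0 := by
    rw [Finset.sum_eq_single (i, σ⁻¹ k)]
    · have e1 : ((gPsi F m σ : GL (Fin 2 × Fin m) F) : Matrix (Fin 2 × Fin m) (Fin 2 × Fin m) F)
          (i, k) (i, σ⁻¹ k) = 1 := by
        rw [gPsi_apply, if_pos ⟨rfl, by simp⟩]
      rw [e1, one_mul, gPhi_apply]
      by_cases h : k = σ l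
      · have : σ⁻¹ k = l := by rw [h]; simp
        rw [if_pos this, if_pos h, this]
      · have : ¬ σ⁻¹ k = l := fun e => h (by rw [← e]; simp)
        rw [if_neg this, if_neg h]
    · rintro ⟨x, y⟩ _ hxy
      rw [gPsi_apply]
      have : ¬ (i = x ∧ k = σ y) := by
        rintro ⟨h1, h2⟩
        apply hxy
        rw [h1, h2]
        simp
      rw [if_neg this, zero_mul]
    · intro h; exact absurd (Finset.mem_univ _) h
  have hR : (∑ x : Fin 2 × Fin m,
      ((gPhi F m (g ∘ ⇑σ⁻¹) : GL (Fin 2 × Fin m) F) : Matrix (Fin 2 × Fin m) (Fin 2 × Fin m) F) (i, k) x *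
        ((gPsi F m σ : GL (Fin 2 × Fin m) F) : Matrix (Fin 2 × Fin m) (Fin 2 × Fin m) F) x (j, l))
      = if k = σ l then ((g l : GL (Fin 2) F) : Matrix (Fin 2) (Fin 2) F) i j else 0 := by
    rw [Finset.sum_eq_single (j, σ l)]
    · have e1 : ((gPsi F m σ : GL (Fin 2 × Fin m) F) : Matrix (Fin 2 × Fin m) (Fin 2 × Fin m) F)
          (j, σ l) (j, l) = 1 := by
        rw [gPsi_apply, if_pos ⟨rfl, rfl⟩]
      rw [e1, mul_one, gPhi_apply]
      by_cases h : k = σ l
      · rw [if_pos h, if_pos h, Function.comp_apply, h]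
        simp
      · rw [if_neg h, if_neg h]
    · rintro ⟨x, y⟩ _ hxy
      rw [gPsi_apply]
      have : ¬ (x = j ∧ y = σ l) := by
        rintro ⟨h1, h2⟩
        apply hxy
        rw [h1, h2]
      rw [if_neg this, mul_zero]
    · intro h; exact absurd (Finset.mem_univ _) h
  rw [hL, hR]

theorem det_gPsi (σ : Equiv.Perm (Fin m)) :
    ((gPsi F m σ : GL (Fin 2 × Fin m) F) : Matrix (Fin 2 × Fin m) (Fin 2 × Fin m) F).det = 1 := by
  rw [gPsi_val, Matrix.det_permutation]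
  have e : (gPerm m σ)⁻¹ = Equiv.prodCongrRight (fun _ : Fin 2 => σ⁻¹) := by
    rw [← map_inv]
    ext x <;> rfl
  rw [e, Equiv.Perm.sign_prodCongrRight]
  simp only [Fin.prod_univ_two]
  rw [Int.units_mul_self]
  simp

/-- a block diagonal matrix which is a block permutation matrix is trivial -/
theorem gPhi_eq_gPsi (g : Fin m → GL (Fin 2) F) (σ : Equiv.Perm (Fin m))
    (h : gPhi F m g = gPsi F m σ) : σ = 1 := by
  ext l
  by_contra hne
  have h1 : ((gPhi F m g : GL (Fin 2 × Fin m) F) : Matrix (Fin 2 × Fin m) (Fin 2 × Fin m) F) (0, σ l) (0, l)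
      = ((gPsi F m σ : GL (Fin 2 × Fin m) F) : Matrix (Fin 2 × Fin m) (Fin 2 × Fin m) F) (0, σ l) (0, l) := by
    rw [h]
  rw [gPhi_apply, gPsi_apply, if_neg (fun e => hne (by rw [e]; rfl)), if_pos ⟨rfl, rfl⟩] at h1
  exact zero_ne_one h1

/-- the wreath-type subgroup of `GL_{2m}(F)` -/
noncomputable def gW (S : Subgroup (GL (Fin 2) F)) (T : Subgroup (Equiv.Perm (Fin m))) :
    Subgroup (GL (Fin 2 × Fin m) F) :=
  (Subgroup.pi Set.univ (fun _ : Fin m => S)).map (gPhi F m) ⊔ T.map (gPsi F m)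

/-- the determinant-one part of `gW S T`, inside `SL_{2m}(F)` -/
noncomputable def gW1 (S : Subgroup (GL (Fin 2) F)) (T : Subgroup (Equiv.Perm (Fin m))) :
    Subgroup (Matrix.SpecialLinearGroup (Fin 2 × Fin m) F) :=
  (gW S T).comap Matrix.SpecialLinearGroup.toGL

/-- the determinant-one part of `gW S T`, inside `GL_{2m}(F)` -/
noncomputable def gWk (S : Subgroup (GL (Fin 2) F)) (T : Subgroup (Equiv.Perm (Fin m))) :
    Subgroup (GL (Fin 2 × Fin m) F) :=
  gW S T ⊓ (Matrix.GeneralLinearGroup.det : GL (Fin 2 × Fin m) F →* Fˣ).ker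

/-- the determinant-one part of a subgroup of `GL_2(F)` -/
def gQ (S : Subgroup (GL (Fin 2) F)) : Subgroup (GL (Fin 2) F) :=
  S ⊓ (Matrix.GeneralLinearGroup.det : GL (Fin 2) F →* Fˣ).ker

theorem mem_gQ (S : Subgroup (GL (Fin 2) F)) (s : GL (Fin 2) F) :
    s ∈ gQ S ↔ s ∈ S ∧ (s : Matrix (Fin 2) (Fin 2) F).det = 1 := by
  unfold gQ
  rw [Subgroup.mem_inf, MonoidHom.mem_ker]
  constructor
  · rintro ⟨h1, h2⟩
    refine ⟨h1, ?_⟩
    have := congrArg Units.val h2
    simpa using this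
  · rintro ⟨h1, h2⟩
    refine ⟨h1, ?_⟩
    apply Units.ext
    simpa using h2

end Cfsg.Agent.Helper97.GSyl
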