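import Mathlib
import Cfsg.Agent.Helper97.GSylDefs

/-!
# Helper97: pieces WN (normal form of `gW S T`) and K (Sylow transfer) of CALL S4627
-/

set_option autoImplicit false

namespace Cfsg.Agent.Helper97.GSylWN

open Matrix Cfsg.Agent.Helper97.GSyl

variable {F : Type*} [Field F] {m : ℕ}

/-- the subgroup of all `gPhi g * gPsi σ` -/
noncomputable def gwSet (S : Subgroup (GL (Fin 2) F)) (T : Subgroup (Equiv.Perm (Fin m))) :
    Subgroup (GL (Fin 2 × Fin m) F) where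
  carrier := {x | ∃ g : Fin m → GL (Fin 2) F, (∀ k, g k ∈ S) ∧ ∃ σ ∈ T,
      x = gPhi F m g * gPsi F m σ}
  one_mem' := ⟨1, fun _ => S.one_mem, 1, T.one_mem, by simp⟩
  mul_mem' := by
    rintro x y ⟨g, hg, σ, hσ, rfl⟩ ⟨g', hg', σ', hσ', rfl⟩
    refine ⟨g * (g' ∘ ⇑σ⁻¹), fun k => S.mul_mem (hg k) (hg' _), σ * σ', T.mul_mem hσ hσ', ?_⟩
    rw [map_mul, map_mul, ← gPsi_conj]
    group
  inv_mem' := by
    rintro x ⟨g, hg, σ, hσ, rfl⟩
    refine ⟨g⁻¹ ∘ ⇑σ, fun k => S.inv_mem (hg _), σ⁻¹, T.inv_mem hσ, ?_⟩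
    have h := gPsi_conj (F := F) σ⁻¹ g⁻¹
    rw [inv_inv] at h
    rw [← h, map_inv, map_inv]
    group

/-- PIECE WN (normal form) -/
theorem gW_mem_iff (S : Subgroup (GL (Fin 2) F)) (T : Subgroup (Equiv.Perm (Fin m)))
    (x : GL (Fin 2 × Fin m) F) :
    x ∈ gW S T ↔ ∃ g : Fin m → GL (Fin 2) F, (∀ k, g k ∈ S) ∧ ∃ σ ∈ T,
      x = gPhi F m g * gPsi F m σ := by
  constructor
  · intro hx
    have hle : gW S T ≤ gwSet S T := by
      unfold gW
      refine sup_le ?_ ?_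
      · rintro y ⟨g, hg, rfl⟩
        exact ⟨g, fun k => hg k (Set.mem_univ k), 1, T.one_mem, by simp⟩
      · rintro y ⟨σ, hσ, rfl⟩
        exact ⟨1, fun _ => S.one_mem, σ, hσ, by simp⟩
    exact hle hx
  · rintro ⟨g, hg, σ, hσ, rfl⟩
    unfold gW
    exact mul_mem (Subgroup.mem_sup_left (Subgroup.mem_map_of_mem _ (fun k _ => hg k)))
      (Subgroup.mem_sup_right (Subgroup.mem_map_of_mem _ hσ))

/-- PIECE K (transfer) -/
theorem sylow_transfer {A G : Type*} [Group A] [Group G] [Finite G] (f : A →* G)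
    (hf : Function.Injective f) (W : Subgroup A) (hW : IsPGroup 2 W)
    (hc : 2 ^ (Nat.card G).factorization 2 ≤ Nat.card W)
    (hsq : ∀ x ∈ W, x ^ 2 ∈ ⁅W, W⁆) :
    ∀ (P : Sylow 2 G) (x : (P : Subgroup G)), x ^ 2 ∈ commutator (P : Subgroup G) := by
  have : Fact (Nat.Prime 2) := ⟨Nat.prime_two⟩
  intro P
  -- the image of `W`
  have hU : IsPGroup 2 (W.map f) := hW.map f
  have hcard : Nat.card (W.map f) = Nat.card W :=
    Nat.card_congr (W.equivMapOfInjective f hf).symm.toEquiv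
  obtain ⟨k, hk⟩ := hU.exists_card_eq
  have h1 : 2 ^ k ∣ Nat.card G := hk ▸ Subgroup.card_subgroup_dvd_card (W.map f)
  have h2 : k ≤ (Nat.card G).factorization 2 :=
    (Nat.Prime.pow_dvd_iff_le_factorization Nat.prime_two Nat.card_pos.ne').mp h1
  have h3 : (Nat.card G).factorization 2 ≤ k := by
    rw [← hcard, hk] at hc
    exact (Nat.pow_le_pow_iff_right (by norm_num)).mp hc
  have h4 : Nat.card (W.map f) = 2 ^ (Nat.card G).factorization 2 := by
    rw [hk, le_antisymm h2 h3]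
  let S₀ : Sylow 2 G := Sylow.ofCard (W.map f) h4
  have hS₀ : (S₀ : Subgroup G) = W.map f := rfl
  -- squares in the image
  have hsq' : ∀ y ∈ (S₀ : Subgroup G), y ^ 2 ∈ ⁅(S₀ : Subgroup G), (S₀ : Subgroup G)⁆ := by
    rw [hS₀]
    rintro y ⟨x, hx, rfl⟩
    rw [← map_pow, ← Subgroup.map_commutator]
    exact Subgroup.mem_map_of_mem f (hsq x hx)
  -- transfer along the Sylow conjugation isomorphism
  have hmap : ∀ H : Subgroup G, (commutator H).map H.subtype = ⁅H, H⁆ := by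
    intro H
    rw [commutator_def, Subgroup.map_commutator, ← MonoidHom.range_eq_map, Subgroup.range_subtype]
  have hEP0 : ∀ y : (S₀ : Subgroup G), y ^ 2 ∈ commutator (S₀ : Subgroup G) := by
    intro y
    have h5 := hsq' y.1 y.2
    rw [← hmap] at h5
    obtain ⟨w, hw, e⟩ := h5
    have : w = y ^ 2 := Subtype.ext e
    rw [← this]
    exact hw
  let e : (S₀ : Subgroup G) ≃* (P : Subgroup G) := Sylow.equiv S₀ P
  intro x
  obtain ⟨y, rfl⟩ := e.surjective x
  have h6 := hEP0 y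
  have h7 : e (y ^ 2) ∈ (commutator (S₀ : Subgroup G)).map e.toMonoidHom :=
    Subgroup.mem_map_of_mem _ h6
  rw [commutator_def, Subgroup.map_commutator] at h7
  rw [← map_pow]
  exact Subgroup.commutator_mono le_top le_top h7

end Cfsg.Agent.Helper97.GSylWN
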