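-- helper97 library (general index type): basic facts on GL(κ, F), scalars, special linear group.
import Mathlib
import Cfsg.Prelude.Def_GeometricClasses

set_option autoImplicit false
open Cfsg Cfsg.Geo Matrix

namespace Cfsg.Agent.Helper97.Gen

variable {κ : Type} [Fintype κ] [DecidableEq κ] {F : Type*} [Field F] {n : ℕ}

/-- If `H` is maximal in `SL` and `H ≤ M` with `SL ⊄ M` then `H = M ⊓ SL`. -/
theorem eq_inf_of_isMaximalIn {H M : Subgroup (GL κ F)}
    (hH : IsMaximalIn (specialLinear κ F) H) (hHM : H ≤ M)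
    (hM : ¬ specialLinear κ F ≤ M) :
    H = M ⊓ specialLinear κ F := by
  rcases hH.2 (M ⊓ specialLinear κ F) (le_inf hHM hH.1.le) inf_le_right with h | h
  · exact h.symm
  · exact absurd (h ▸ inf_le_left) hM

theorem mem_specialLinear_iff (g : GL κ F) :
    g ∈ specialLinear κ F ↔ (g : Matrix κ κ F).det = 1 := by
  rw [specialLinear, MonoidHom.mem_ker, Units.ext_iff]
  rfl

/-- An invertible matrix built from a matrix of determinant one. -/
noncomputable def glOfDetOne (M : Matrix κ κ F) (h : M.det = 1) : GL κ F :=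
  Matrix.GeneralLinearGroup.mkOfDetNeZero M (by rw [h]; exact one_ne_zero)

theorem glOfDetOne_val (M : Matrix κ κ F) (h : M.det = 1) :
    ((glOfDetOne M h : GL κ F) : Matrix κ κ F) = M := rfl

theorem glOfDetOne_mem (M : Matrix κ κ F) (h : M.det = 1) :
    glOfDetOne M h ∈ specialLinear κ F := by
  rw [mem_specialLinear_iff, glOfDetOne_val, h]

theorem mem_subspaceStabilizer_iff (W : Submodule F (κ → F)) (g : GL κ F) :
    g ∈ subspaceStabilizer W ↔ ∀ v, v ∈ W ↔ (g : Matrix κ κ F) *ᵥ v ∈ W := Iff.rfl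

theorem mem_similarityGroup_iff (f : (κ → F) → (κ → F) → F) (g : GL κ F) :
    g ∈ similarityGroup f ↔ ∃ c : Fˣ, ∀ u v,
      f ((g : Matrix κ κ F) *ᵥ u) ((g : Matrix κ κ F) *ᵥ v) = (c : F) * f u v :=
  Iff.rfl

theorem mem_quadSimilarityGroup_iff (Q : (κ → F) → F) (g : GL κ F) :
    g ∈ quadSimilarityGroup Q ↔ ∃ c : Fˣ, ∀ v,
      Q ((g : Matrix κ κ F) *ᵥ v) = (c : F) * Q v :=
  Iff.rfl

theorem mem_decompositionStabilizer_iff {t : ℕ} (D : Fin t → Submodule F (κ → F))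
    (g : GL κ F) :
    g ∈ decompositionStabilizer D ↔ ∃ σ : Equiv.Perm (Fin t),
      ∀ i, (D i).map (Matrix.toLin' (g : Matrix κ κ F)) = D (σ i) := Iff.rfl

theorem mem_subalgebraNormalizer_iff (K : Subalgebra F (Matrix κ κ F))
    (g : GL κ F) :
    g ∈ subalgebraNormalizer K ↔ ∀ k : Matrix κ κ F,
      k ∈ K ↔ (g : Matrix κ κ F) * k * ((g⁻¹ : GL κ F) : Matrix κ κ F) ∈ K :=
  Iff.rfl

theorem mem_matrixSet_iff (R : Subgroup (GL κ F)) (s : Matrix κ κ F) :
    s ∈ matrixSet R ↔ ∃ g ∈ R, (g : Matrix κ κ F) = s := Iff.rfl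

theorem coe_mem_matrixSet {R : Subgroup (GL κ F)} {g : GL κ F} (hg : g ∈ R) :
    (g : Matrix κ κ F) ∈ matrixSet R := ⟨g, hg, rfl⟩

/-- A scalar matrix as an element of `GL`. -/
theorem scalar_mem_scalars_iff (g : GL κ F) :
    g ∈ scalars κ F ↔ ∃ c : F, (g : Matrix κ κ F) = c • (1 : Matrix κ κ F) := by
  rw [mem_scalars_iff]
  constructor
  · rintro ⟨c, hc⟩
    exact ⟨c, hc⟩
  · rintro ⟨c, hc⟩
    by_cases hn : IsEmpty κ
    · exact ⟨1, Subsingleton.elim _ _⟩
    obtain ⟨i0⟩ := not_isEmpty_iff.mp hn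
    have hc0 : c ≠ 0 := by
      rintro rfl
      have h1 : (g : Matrix κ κ F) * ((g⁻¹ : GL κ F) : Matrix κ κ F) = 1 := by
        rw [← Units.val_mul, mul_inv_cancel, Units.val_one]
      rw [hc, zero_smul, zero_mul] at h1
      have h2 := congrFun (congrFun h1 i0) i0
      simp at h2
    exact ⟨Units.mk0 c hc0, hc⟩

/-- Scalars commute with everything. -/
theorem scalars_comm {z : GL κ F} (hz : z ∈ scalars κ F) (g : GL κ F) :
    z * g = g * z := by
  obtain ⟨c, hc⟩ := (mem_scalars_iff z).mp hz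
  apply Units.ext
  rw [Units.val_mul, Units.val_mul, hc, Matrix.smul_mul, Matrix.mul_smul, Matrix.one_mul, Matrix.mul_one]

theorem mulVec_inv_cancel (g : GL κ F) (v : κ → F) :
    ((g⁻¹ : GL κ F) : Matrix κ κ F) *ᵥ ((g : Matrix κ κ F) *ᵥ v) = v := by
  rw [Matrix.mulVec_mulVec, ← Units.val_mul, inv_mul_cancel, Units.val_one, Matrix.one_mulVec]

theorem mulVec_cancel_inv (g : GL κ F) (v : κ → F) :
    (g : Matrix κ κ F) *ᵥ (((g⁻¹ : GL κ F) : Matrix κ κ F) *ᵥ v) = v := by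
  rw [Matrix.mulVec_mulVec, ← Units.val_mul, mul_inv_cancel, Units.val_one, Matrix.one_mulVec]

theorem mulVec_injective (g : GL κ F) :
    Function.Injective (fun v : κ → F => (g : Matrix κ κ F) *ᵥ v) := by
  intro v w h
  have := congrArg (fun x => ((g⁻¹ : GL κ F) : Matrix κ κ F) *ᵥ x) h
  simpa [mulVec_inv_cancel] using this

end Cfsg.Agent.Helper97.Gen
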