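-- helper97 library (general index type): subfields of finite fields, realisability over subfields and normalisers.
import Cfsg.Agent.Helper97.GBasic

set_option autoImplicit false
open Cfsg Cfsg.Geo Matrix

namespace Cfsg.Agent.Helper97.Gen

variable {κ : Type} [Fintype κ] [DecidableEq κ] {F : Type*} [Field F] {n : ℕ}

/-- A proper subfield of a finite field lies in a subfield of prime index. -/
theorem exists_prime_index_subfield [Fintype F] (F₀ : Subfield F) (hF₀ : F₀ ≠ ⊤) :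
    ∃ (F₁ : Subfield F) (r : ℕ), F₀ ≤ F₁ ∧ r.Prime ∧ Fintype.card F = Nat.card F₁ ^ r := by
  classical
  have hcard : Nat.card (F ≃ₐ[F₀] F) = Module.finrank F₀ F := IsGalois.card_aut_eq_finrank F₀ F
  have hfr0 : 0 < Module.finrank F₀ F := Module.finrank_pos
  have hfr1 : Module.finrank F₀ F ≠ 1 := by
    intro h1
    apply hF₀
    have h2 : (⊥ : Subalgebra F₀ F) = ⊤ := Subalgebra.bot_eq_top_of_finrank_eq_one h1
    rw [eq_top_iff]
    intro x _
    have hx : x ∈ (⊥ : Subalgebra F₀ F) := by rw [h2]; exact Algebra.mem_top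
    obtain ⟨y, hy⟩ := Algebra.mem_bot.mp hx
    rw [← hy]
    exact y.2
  obtain ⟨r, hr, hrd⟩ := Nat.exists_prime_and_dvd hfr1
  have : Fact r.Prime := ⟨hr⟩
  haveI : Fintype (F ≃ₐ[F₀] F) := Fintype.ofFinite _
  have hrd' : r ∣ Fintype.card (F ≃ₐ[F₀] F) := by
    rw [← Nat.card_eq_fintype_card, hcard]; exact hrd
  obtain ⟨σ, hσ⟩ := exists_prime_orderOf_dvd_card r hrd'
  set H : Subgroup (F ≃ₐ[F₀] F) := Subgroup.zpowers σ with hH
  have hHcard : Nat.card H = r := by rw [hH, Nat.card_zpowers, hσ]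
  set E : IntermediateField F₀ F := IntermediateField.fixedField H with hE
  have hfin : Module.finrank E F = r := by
    rw [hE, IntermediateField.finrank_fixedField_eq_card, hHcard]
  refine ⟨E.toSubfield, r, ?_, hr, ?_⟩
  · intro x hx
    have : algebraMap F₀ F ⟨x, hx⟩ ∈ E := E.algebraMap_mem ⟨x, hx⟩
    exact this
  · haveI : Fintype E := Fintype.ofFinite _
    have h1 : Fintype.card F = Fintype.card E ^ Module.finrank E F := Module.card_eq_pow_finrank
    rw [h1, hfin, ← Nat.card_eq_fintype_card]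
    rfl

theorem subfield_ne_top_of_card [Fintype F] (F₁ : Subfield F) (r : ℕ) (hr : r.Prime)
    (hc : Fintype.card F = Nat.card F₁ ^ r) : F₁ ≠ ⊤ := by
  rintro rfl
  have h1 : Nat.card (⊤ : Subfield F) = Fintype.card F := by
    rw [← Nat.card_eq_fintype_card]
    exact Nat.card_congr (Subfield.topEquiv (K := F)).toEquiv
  rw [h1] at hc
  have h2 : 1 < Fintype.card F := Fintype.one_lt_card
  have h3 : Fintype.card F ^ 1 < Fintype.card F ^ r := Nat.pow_lt_pow_right h2 hr.one_lt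
  rw [pow_one] at h3
  omega

/-- A linear system with coefficients in a subfield: a non-zero solution over the big field which is
unique up to scalars is a scalar multiple of a solution over the subfield. -/
theorem exists_subfield_multiple (F₁ : Subfield F) (S : Set (Matrix κ κ F))
    (hS : ∀ M : Matrix κ κ F, (∀ s ∈ S, M * s = s * M) →
      ∃ c : F, M = c • (1 : Matrix κ κ F))
    (X Xi : Matrix κ κ F) (hX1 : X * Xi = 1) (hX2 : Xi * X = 1) (hX0 : X ≠ 0)
    (hXS : ∀ s ∈ S, (∀ i j, s i j ∈ F₁) ∧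
      ∃ s' : Matrix κ κ F, (∀ i j, s' i j ∈ F₁) ∧ X * s = s' * X) :
    ∃ (c : F) (X₁ : Matrix κ κ F₁), c ≠ 0 ∧ X = c • X₁.map F₁.subtype := by
  classical
  set b := Module.Basis.ofVectorSpace F₁ F with hb
  obtain ⟨i0, j0, hij0⟩ : ∃ i j, X i j ≠ 0 := by
    by_contra hcon
    apply hX0
    ext i j
    by_contra h
    exact hcon ⟨i, j, h⟩
  obtain ⟨k, hk⟩ : ∃ k, b.repr (X i0 j0) k ≠ 0 := by
    by_contra hcon
    apply hij0
    have : b.repr (X i0 j0) = 0 := Finsupp.ext fun k => by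
      by_contra h
      exact hcon ⟨k, h⟩
    exact b.repr.map_eq_zero_iff.mp this
  set φ : F →ₗ[F₁] F₁ := b.coord k with hφ
  set X₁ : Matrix κ κ F₁ := Matrix.of (fun i j => φ (X i j)) with hX₁
  set Y : Matrix κ κ F := X₁.map F₁.subtype with hY
  have hφmul : ∀ (x : F) (c : F) (hc : c ∈ F₁), (φ (x * c) : F) = (φ x : F) * c := by
    intro x c hc
    have h1 : x * c = (⟨c, hc⟩ : F₁) • x := by
      rw [Subfield.smul_def, smul_eq_mul, mul_comm]
    rw [h1, map_smul, smul_eq_mul, mul_comm]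
    rfl
  have hφmul' : ∀ (x : F) (c : F) (hc : c ∈ F₁), (φ (c * x) : F) = c * (φ x : F) := by
    intro x c hc
    rw [mul_comm, hφmul x c hc, mul_comm]
  have hYS : ∀ s ∈ S, ∀ s' : Matrix κ κ F, (∀ i j, s i j ∈ F₁) → (∀ i j, s' i j ∈ F₁) →
      X * s = s' * X → Y * s = s' * Y := by
    intro s _ s' hs hs' hXs
    ext i j
    have h1 := congrFun (congrFun hXs i) j
    simp only [Matrix.mul_apply] at h1
    have h2 := congrArg (fun x => (φ x : F)) h1
    simp only [map_sum] at h2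
    simp only [Matrix.mul_apply, hY, hX₁, Matrix.map_apply, Matrix.of_apply]
    rw [AddSubmonoidClass.coe_finset_sum, AddSubmonoidClass.coe_finset_sum] at h2
    convert h2 using 2 with l _ l _
    · exact (hφmul _ _ (hs l j)).symm
    · exact (hφmul' _ _ (hs' i l)).symm
  have hY0 : Y ≠ 0 := by
    intro h
    have := congrFun (congrFun h i0) j0
    simp only [hY, hX₁, Matrix.map_apply, Matrix.of_apply, Matrix.zero_apply] at this
    apply hk
    have h2 : φ (X i0 j0) = 0 := (map_eq_zero F₁.subtype).mp this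
    simpa [hφ] using h2
  have hcomm : ∀ s ∈ S, (Xi * Y) * s = s * (Xi * Y) := by
    intro s hs
    obtain ⟨hs1, s', hs', hXs⟩ := hXS s hs
    have h1 := hYS s hs s' hs1 hs' hXs
    have h2 : Xi * s' = s * Xi := by
      calc Xi * s' = Xi * s' * (X * Xi) := by rw [hX1, mul_one]
        _ = Xi * (s' * X) * Xi := by simp only [mul_assoc]
        _ = Xi * (X * s) * Xi := by rw [hXs]
        _ = (Xi * X) * s * Xi := by simp only [mul_assoc]
        _ = s * Xi := by rw [hX2, one_mul]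
    rw [mul_assoc, h1, ← mul_assoc, h2, mul_assoc]
  obtain ⟨c, hc⟩ := hS _ hcomm
  have hYc : Y = c • X := by
    calc Y = X * (Xi * Y) := by rw [← mul_assoc, hX1, one_mul]
      _ = c • X := by rw [hc, Matrix.mul_smul, mul_one]
  have hc0 : c ≠ 0 := by
    rintro rfl
    rw [zero_smul] at hYc
    exact hY0 hYc
  refine ⟨c⁻¹, X₁, inv_ne_zero hc0, ?_⟩
  rw [← hY, hYc, smul_smul, inv_mul_cancel₀ hc0, one_smul]

/-- The normaliser of an absolutely irreducible group realisable over a subfield lies in the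
corresponding subfield group. -/
theorem normalizer_mem_subfieldSubgroup (F₁ : Subfield F) (P : Subgroup (GL κ F))
    (habs : ActsAbsolutelyIrreducibly (matrixSet P)) (B : GL κ F)
    (hB : ∀ s ∈ matrixSet P, ∀ i j,
      ((B : Matrix κ κ F) * s * ((B⁻¹ : GL κ F) : Matrix κ κ F)) i j ∈ F₁)
    (h : GL κ F) (hh : ∀ x ∈ P, h * x * h⁻¹ ∈ P) :
    h ∈ subfieldSubgroup F₁ B⁻¹ := by
  by_cases hn : IsEmpty κ
  · have : h = 1 := Subsingleton.elim _ _
    rw [this]
    exact Subgroup.one_mem _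
  obtain ⟨i0⟩ := not_isEmpty_iff.mp hn
  set S : Set (Matrix κ κ F) :=
    {s | ∃ p ∈ P, s = ((B * p * B⁻¹ : GL κ F) : Matrix κ κ F)} with hS
  have hScomm : ∀ M : Matrix κ κ F, (∀ s ∈ S, M * s = s * M) →
      ∃ c : F, M = c • (1 : Matrix κ κ F) := by
    intro M hM
    have h1 : ∀ s ∈ matrixSet P,
        (((B⁻¹ : GL κ F) : Matrix κ κ F) * M * (B : Matrix κ κ F)) * s
        = s * (((B⁻¹ : GL κ F) : Matrix κ κ F) * M * (B : Matrix κ κ F)) := by
      rintro s ⟨p, hp, rfl⟩
      have h2 := hM _ ⟨p, hp, rfl⟩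
      simp only [Units.val_mul] at h2
      have e1 : ((B⁻¹ : GL κ F) : Matrix κ κ F) * (B : Matrix κ κ F) = 1 := by
        rw [← Units.val_mul, inv_mul_cancel, Units.val_one]
      have e2 : (B : Matrix κ κ F) * ((B⁻¹ : GL κ F) : Matrix κ κ F) = 1 := by
        rw [← Units.val_mul, mul_inv_cancel, Units.val_one]
      calc ((B⁻¹ : GL κ F) : Matrix κ κ F) * M * (B : Matrix κ κ F)
            * (p : Matrix κ κ F)
          = ((B⁻¹ : GL κ F) : Matrix κ κ F) * (M * ((B : Matrix κ κ F)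
            * (p : Matrix κ κ F) * ((B⁻¹ : GL κ F) : Matrix κ κ F)))
            * (B : Matrix κ κ F) := by
            simp only [mul_assoc, e1, mul_one]
        _ = ((B⁻¹ : GL κ F) : Matrix κ κ F) * (((B : Matrix κ κ F)
            * (p : Matrix κ κ F) * ((B⁻¹ : GL κ F) : Matrix κ κ F)) * M)
            * (B : Matrix κ κ F) := by rw [h2]
        _ = (((B⁻¹ : GL κ F) : Matrix κ κ F) * (B : Matrix κ κ F))
            * (p : Matrix κ κ F) * (((B⁻¹ : GL κ F) : Matrix κ κ F) * M
            * (B : Matrix κ κ F)) := by simp only [mul_assoc]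
        _ = _ := by rw [e1, one_mul]
    obtain ⟨c, hc⟩ := habs.2 _ h1
    refine ⟨c, ?_⟩
    have e2 : (B : Matrix κ κ F) * ((B⁻¹ : GL κ F) : Matrix κ κ F) = 1 := by
      rw [← Units.val_mul, mul_inv_cancel, Units.val_one]
    calc M = ((B : Matrix κ κ F) * ((B⁻¹ : GL κ F) : Matrix κ κ F)) * M
          * ((B : Matrix κ κ F) * ((B⁻¹ : GL κ F) : Matrix κ κ F)) := by
          rw [e2, one_mul, mul_one]
      _ = (B : Matrix κ κ F) * (((B⁻¹ : GL κ F) : Matrix κ κ F) * M
          * (B : Matrix κ κ F)) * ((B⁻¹ : GL κ F) : Matrix κ κ F) := by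
          simp only [mul_assoc]
      _ = c • (1 : Matrix κ κ F) := by
          rw [hc, Matrix.mul_smul, Matrix.smul_mul, mul_one, e2]
  set X : Matrix κ κ F := ((B * h * B⁻¹ : GL κ F) : Matrix κ κ F) with hX
  set Xi : Matrix κ κ F := ((B * h⁻¹ * B⁻¹ : GL κ F) : Matrix κ κ F) with hXi
  have hX1 : X * Xi = 1 := by
    rw [hX, hXi, ← Units.val_mul]
    have : B * h * B⁻¹ * (B * h⁻¹ * B⁻¹) = 1 := by group
    rw [this, Units.val_one]
  have hX2 : Xi * X = 1 := by
    rw [hX, hXi, ← Units.val_mul]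
    have : B * h⁻¹ * B⁻¹ * (B * h * B⁻¹) = 1 := by group
    rw [this, Units.val_one]
  have hX0 : X ≠ 0 := by
    intro h0
    rw [h0, zero_mul] at hX1
    have := congrFun (congrFun hX1 i0) i0
    simp at this
  have hXS : ∀ s ∈ S, (∀ i j, s i j ∈ F₁) ∧
      ∃ s' : Matrix κ κ F, (∀ i j, s' i j ∈ F₁) ∧ X * s = s' * X := by
    rintro s ⟨p, hp, rfl⟩
    refine ⟨?_, ((B * (h * p * h⁻¹) * B⁻¹ : GL κ F) : Matrix κ κ F), ?_, ?_⟩
    · have := hB _ (coe_mem_matrixSet hp)
      simpa only [Units.val_mul] using this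
    · have := hB _ (coe_mem_matrixSet (hh p hp))
      simpa only [Units.val_mul] using this
    · rw [hX, ← Units.val_mul, ← Units.val_mul]
      congr 1
      group
  obtain ⟨c, X₁, hc0, hXc⟩ := exists_subfield_multiple F₁ S hScomm X Xi hX1 hX2 hX0 hXS
  have hdetX : X.det ≠ 0 := by
    intro h0
    have := congrArg Matrix.det hX1
    rw [Matrix.det_mul, h0, zero_mul, Matrix.det_one] at this
    exact zero_ne_one this
  have hdet1 : X₁.det ≠ 0 := by
    intro h0
    apply hdetX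
    rw [hXc, Matrix.det_smul]
    have : (X₁.map F₁.subtype).det = F₁.subtype X₁.det := (RingHom.map_det F₁.subtype X₁).symm
    rw [this, h0, map_zero, mul_zero]
  set g₀ : GL κ F₁ := Matrix.GeneralLinearGroup.mkOfDetNeZero X₁ hdet1 with hg₀
  have hzdet : (c • (1 : Matrix κ κ F)).det ≠ 0 := by
    rw [Matrix.det_smul, Matrix.det_one, mul_one]
    exact pow_ne_zero _ hc0
  set z : GL κ F := Matrix.GeneralLinearGroup.mkOfDetNeZero (c • (1 : Matrix κ κ F)) hzdet
    with hz
  have hzmem : z ∈ scalars κ F := (mem_scalars_iff z).mpr ⟨Units.mk0 c hc0, rfl⟩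
  have hprod : B * h * B⁻¹ = Matrix.GeneralLinearGroup.map (F₁.subtype : F₁ →+* F) g₀ * z := by
    apply Units.ext
    rw [Units.val_mul]
    change X = X₁.map F₁.subtype * (c • (1 : Matrix κ κ F))
    rw [Matrix.mul_smul, mul_one, hXc]
  rw [subfieldSubgroup, Subgroup.mem_map]
  refine ⟨B * h * B⁻¹, ?_, ?_⟩
  · rw [hprod]
    exact Subgroup.mul_mem _ (Subgroup.mem_sup_left ⟨g₀, rfl⟩) (Subgroup.mem_sup_right hzmem)
  · simp only [MulEquiv.coe_toMonoidHom, MulAut.conj_apply]
    group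

theorem normalizer_le_subfield_of_realisable [Fintype F] (P : Subgroup (GL κ F))
    (habs : ActsAbsolutelyIrreducibly (matrixSet P)) (F₀ : Subfield F) (hF₀ : F₀ ≠ ⊤)
    (hreal : RealisableOver F₀ (matrixSet P)) :
    ∃ (F₁ : Subfield F) (r : ℕ) (B' : GL κ F), r.Prime ∧ Fintype.card F = Nat.card F₁ ^ r ∧
      ∀ h : GL κ F, (∀ x ∈ P, h * x * h⁻¹ ∈ P) → h ∈ subfieldSubgroup F₁ B' := by
  obtain ⟨F₁, r, hle, hr, hcard⟩ := exists_prime_index_subfield F₀ hF₀
  obtain ⟨B, hB⟩ := hreal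
  exact ⟨F₁, r, B⁻¹, hr, hcard, fun h hh =>
    normalizer_mem_subfieldSubgroup F₁ P habs B (fun s hs i j => hle (hB s hs i j)) h hh⟩

end Cfsg.Agent.Helper97.Gen
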