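-- helper97 library: subfield subgroups of SL_n are maximal: rational matrices, root element lemmas.
import Cfsg.Agent.Helper97.NotSL
import Cfsg.Agent.Helper97.Subfield

set_option autoImplicit false
set_option linter.unusedSimpArgs false
set_option linter.unusedVariables false
open Cfsg Cfsg.Geo Matrix

namespace Cfsg.Agent.Helper97.SF

variable {F : Type*} [Field F] {n : ℕ}

theorem sf_gl_ext {g h : GL (Fin n) F}
    (hgh : ∀ v, (g : Matrix (Fin n) (Fin n) F) *ᵥ v = (h : Matrix (Fin n) (Fin n) F) *ᵥ v) :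
    g = h := by
  apply Units.ext
  ext i j
  have h1 := congrFun (hgh (Pi.single j 1)) i
  simpa [Matrix.mulVec_single_one] using h1

theorem sf_exists_ne2 (hn : 3 ≤ n) (i j : Fin n) : ∃ k : Fin n, k ≠ i ∧ k ≠ j := by
  have h : ({i, j} : Finset (Fin n)).card < (Finset.univ : Finset (Fin n)).card := by
    rw [Finset.card_univ, Fintype.card_fin]
    exact lt_of_le_of_lt Finset.card_le_two (by omega)
  obtain ⟨k, -, hk⟩ := Finset.exists_mem_notMem_of_card_lt_card h
  simp only [Finset.mem_insert, Finset.mem_singleton, not_or] at hk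
  exact ⟨k, hk.1, hk.2⟩

theorem sf_exists_ne3 (hn : 4 ≤ n) (i j l : Fin n) : ∃ k : Fin n, k ≠ i ∧ k ≠ j ∧ k ≠ l := by
  have h : ({i, j, l} : Finset (Fin n)).card < (Finset.univ : Finset (Fin n)).card := by
    rw [Finset.card_univ, Fintype.card_fin]
    exact lt_of_le_of_lt Finset.card_le_three (by omega)
  obtain ⟨k, -, hk⟩ := Finset.exists_mem_notMem_of_card_lt_card h
  simp only [Finset.mem_insert, Finset.mem_singleton, not_or] at hk
  exact ⟨k, hk.1, hk.2.1, hk.2.2⟩

/-- The matrices with all entries in the subfield `F₀`. -/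
def ratMat (F₀ : Subfield F) (n : ℕ) : Subring (Matrix (Fin n) (Fin n) F) where
  carrier := {X | ∀ i j, X i j ∈ F₀}
  mul_mem' := by
    intro X Y hX hY i j
    rw [Matrix.mul_apply]
    exact sum_mem fun k _ => mul_mem (hX i k) (hY k j)
  one_mem' := by
    intro i j
    rw [Matrix.one_apply]
    split_ifs
    · exact one_mem _
    · exact zero_mem _
  add_mem' := fun hX hY i j => add_mem (hX i j) (hY i j)
  zero_mem' := fun i j => zero_mem _
  neg_mem' := fun hX i j => neg_mem (hX i j)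

theorem mem_ratMat {F₀ : Subfield F} {X : Matrix (Fin n) (Fin n) F} :
    X ∈ ratMat F₀ n ↔ ∀ i j, X i j ∈ F₀ := Iff.rfl

theorem smul_mem_ratMat {F₀ : Subfield F} {X : Matrix (Fin n) (Fin n) F} (hX : X ∈ ratMat F₀ n)
    {c : F} (hc : c ∈ F₀) : c • X ∈ ratMat F₀ n := fun i j => mul_mem hc (hX i j)

theorem mem_subfieldSubgroup_one (F₀ : Subfield F) (g : GL (Fin n) F) :
    g ∈ subfieldSubgroup F₀ (1 : GL (Fin n) F) ↔
      ∃ c : F, c ≠ 0 ∧ c • (g : Matrix (Fin n) (Fin n) F) ∈ ratMat F₀ n := by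
  constructor
  · intro hmem
    rw [subfieldSubgroup, Subgroup.mem_map] at hmem
    obtain ⟨y, hy, hyg⟩ := hmem
    have hyg' : y = g := by simpa using hyg
    rw [hyg'] at hy
    obtain ⟨a, ha, b, hb, hab⟩ := Subgroup.mem_sup_of_normal_right.mp hy
    obtain ⟨a', rfl⟩ := ha
    obtain ⟨d, hd⟩ := (mem_scalars_iff b).mp hb
    have hval : (g : Matrix (Fin n) (Fin n) F)
        = (d : F) • ((a' : Matrix (Fin n) (Fin n) F₀).map (F₀.subtype)) := by
      rw [← hab, Units.val_mul, hd, Matrix.mul_smul, Matrix.mul_one]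
      rfl
    refine ⟨(d : F)⁻¹, inv_ne_zero d.ne_zero, ?_⟩
    rw [hval, smul_smul, inv_mul_cancel₀ d.ne_zero, one_smul]
    intro i j
    exact SetLike.coe_mem _
  · rintro ⟨c, hc0, hrat⟩
    set X : Matrix (Fin n) (Fin n) F := c • (g : Matrix (Fin n) (Fin n) F) with hX
    set X₁ : Matrix (Fin n) (Fin n) F₀ := fun i j => ⟨X i j, hrat i j⟩ with hX₁
    have hXc : X = X₁.map F₀.subtype := by ext i j; rfl
    have hdetX : X.det ≠ 0 := by
      rw [hX, Matrix.det_smul]
      have : (g : Matrix (Fin n) (Fin n) F).det ≠ 0 := (Matrix.isUnits_det_units g).ne_zero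
      exact mul_ne_zero (pow_ne_zero _ hc0) this
    have hdet1 : X₁.det ≠ 0 := by
      intro h0
      apply hdetX
      rw [hXc]
      have : (X₁.map F₀.subtype).det = F₀.subtype X₁.det := (RingHom.map_det F₀.subtype X₁).symm
      rw [this, h0, map_zero]
    set g₀ : GL (Fin n) F₀ := Matrix.GeneralLinearGroup.mkOfDetNeZero X₁ hdet1 with hg₀
    have hzdet : (c⁻¹ • (1 : Matrix (Fin n) (Fin n) F)).det ≠ 0 := by
      rw [Matrix.det_smul, Matrix.det_one, mul_one]
      exact pow_ne_zero _ (inv_ne_zero hc0)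
    set z : GL (Fin n) F :=
      Matrix.GeneralLinearGroup.mkOfDetNeZero (c⁻¹ • (1 : Matrix (Fin n) (Fin n) F)) hzdet with hz
    have hzmem : z ∈ scalars (Fin n) F :=
      (mem_scalars_iff z).mpr ⟨Units.mk0 c⁻¹ (inv_ne_zero hc0), rfl⟩
    have hprod : g = Matrix.GeneralLinearGroup.map (F₀.subtype : F₀ →+* F) g₀ * z := by
      apply Units.ext
      rw [Units.val_mul]
      change (g : Matrix (Fin n) (Fin n) F)
        = X₁.map F₀.subtype * (c⁻¹ • (1 : Matrix (Fin n) (Fin n) F))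
      rw [Matrix.mul_smul, mul_one, ← hXc, hX, smul_smul, inv_mul_cancel₀ hc0, one_smul]
    have hmem : Matrix.GeneralLinearGroup.map (F₀.subtype : F₀ →+* F) g₀ * z ∈
        (Matrix.GeneralLinearGroup.map (F₀.subtype : F₀ →+* F)).range ⊔ scalars (Fin n) F :=
      Subgroup.mul_mem _ (Subgroup.mem_sup_left ⟨g₀, rfl⟩) (Subgroup.mem_sup_right hzmem)
    rw [← hprod] at hmem
    rw [subfieldSubgroup, Subgroup.mem_map]
    exact ⟨g, hmem, by simp⟩

/-- The subfield subgroup of `SL_n` in standard position. -/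
def sfH (F₀ : Subfield F) (n : ℕ) : Subgroup (GL (Fin n) F) :=
  subfieldSubgroup F₀ (1 : GL (Fin n) F) ⊓ specialLinear (Fin n) F

theorem mem_sfH_of_smul {F₀ : Subfield F} {g : GL (Fin n) F}
    (hg : g ∈ specialLinear (Fin n) F) (c : F) (hc : c ≠ 0)
    (h : ∀ i j, c * (g : Matrix (Fin n) (Fin n) F) i j ∈ F₀) : g ∈ sfH F₀ n :=
  ⟨(mem_subfieldSubgroup_one F₀ g).mpr ⟨c, hc, fun i j => h i j⟩, hg⟩

theorem mem_sfH_of_rat {F₀ : Subfield F} {g : GL (Fin n) F}
    (hg : g ∈ specialLinear (Fin n) F)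
    (h : ∀ i j, (g : Matrix (Fin n) (Fin n) F) i j ∈ F₀) : g ∈ sfH F₀ n :=
  mem_sfH_of_smul hg 1 one_ne_zero (fun i j => by rw [one_mul]; exact h i j)

theorem elemTv_mem_sfH (F₀ : Subfield F) (i j : Fin n) (hij : i ≠ j) (c : F) (hc : c ∈ F₀) :
    elemTv i j hij c ∈ sfH F₀ n := by
  apply mem_sfH_of_rat (elemTv_mem i j hij c)
  intro k l
  rw [elemTv_val, Matrix.transvection, Matrix.add_apply, Matrix.one_apply, Matrix.single_apply]
  refine add_mem ?_ ?_
  · split_ifs
    · exact one_mem _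
    · exact zero_mem _
  · split_ifs
    · exact hc
    · exact zero_mem _

theorem genTv_mem_sfH (F₀ : Subfield F) (u a : Fin n → F) (h : a ⬝ᵥ u = 0)
    (hu : ∀ i, u i ∈ F₀) (ha : ∀ i, a i ∈ F₀) : genTv u a h ∈ sfH F₀ n := by
  apply mem_sfH_of_rat (genTv_mem u a h)
  intro k l
  rw [genTv_val, Matrix.add_apply, Matrix.one_apply, Matrix.vecMulVec_apply]
  refine add_mem ?_ (mul_mem (hu k) (ha l))
  split_ifs
  · exact one_mem _
  · exact zero_mem _

/-- The standing hypotheses of the second half of the maximality proof: `M` lies between the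
subfield group and `SL_n`, and all elementary transvections of `M` are rational. -/
structure SFCtx (F₀ : Subfield F) (M : Subgroup (GL (Fin n) F)) : Prop where
  four : 4 ≤ n
  le : sfH F₀ n ≤ M
  sl : M ≤ specialLinear (Fin n) F
  rat : ∀ (i j : Fin n) (hij : i ≠ j) (c : F), elemTv i j hij c ∈ M → c ∈ F₀

variable {F₀ : Subfield F} {M : Subgroup (GL (Fin n) F)}

/-- Lemma A: a transvection of `M` with centre `e_i` has rational axis. -/
theorem lemA (hc : SFCtx F₀ M) {g : GL (Fin n) F} (hg : g ∈ M) (i : Fin n) (φ : Fin n → F)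
    (h : ∀ x, (g : Matrix (Fin n) (Fin n) F) *ᵥ x = x + (φ ⬝ᵥ x) • Pi.single i 1)
    (j : Fin n) (hj : j ≠ i) : φ j ∈ F₀ := by
  obtain ⟨k, hki, hkj⟩ := sf_exists_ne2 (le_trans (by norm_num) hc.four) i j
  have ht : elemTv j k hkj.symm 1 ∈ M := hc.le (elemTv_mem_sfH F₀ j k hkj.symm 1 (one_mem _))
  have key : elemTv i k hki.symm (φ j) * elemTv j k hkj.symm 1 * g
      = g * elemTv j k hkj.symm 1 := by
    apply sf_gl_ext
    intro x
    simp only [Units.val_mul, ← Matrix.mulVec_mulVec, elemTv_mulVec, h]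
    funext m
    simp [Pi.single_apply, hki, hkj, dotProduct_add, dotProduct_smul]
    split_ifs <;> ring
  have h2 : elemTv i k hki.symm (φ j)
      = g * elemTv j k hkj.symm 1 * g⁻¹ * (elemTv j k hkj.symm 1)⁻¹ := by
    rw [← key]; group
  apply hc.rat i k hki.symm (φ j)
  rw [h2]
  exact M.mul_mem (M.mul_mem (M.mul_mem hg ht) (M.inv_mem hg)) (M.inv_mem ht)

/-- Lemma A': a transvection of `M` with axis `e_k` has rational centre. -/
theorem lemA' (hc : SFCtx F₀ M) {g : GL (Fin n) F} (hg : g ∈ M) (k : Fin n) (u : Fin n → F)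
    (h : ∀ x, (g : Matrix (Fin n) (Fin n) F) *ᵥ x = x + x k • u)
    (j : Fin n) (hj : j ≠ k) : u j ∈ F₀ := by
  obtain ⟨l, hlj, hlk⟩ := sf_exists_ne2 (le_trans (by norm_num) hc.four) j k
  have ht : elemTv l j hlj 1 ∈ M := hc.le (elemTv_mem_sfH F₀ l j hlj 1 (one_mem _))
  have key : elemTv l j hlj 1 * g = g * elemTv l k hlk (u j) * elemTv l j hlj 1 := by
    apply sf_gl_ext
    intro x
    simp only [Units.val_mul, ← Matrix.mulVec_mulVec, elemTv_mulVec, h]
    funext m
    simp [Pi.single_apply, hlk, hlj, hj]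
    split_ifs <;> ring
  have h2 : elemTv l k hlk (u j)
      = g⁻¹ * (elemTv l j hlj 1 * g) * (elemTv l j hlj 1)⁻¹ := by
    rw [key]; group
  apply hc.rat l k hlk (u j)
  rw [h2]
  exact M.mul_mem (M.mul_mem (M.inv_mem hg) (M.mul_mem ht hg)) (M.inv_mem ht)

end Cfsg.Agent.Helper97.SF
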