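-- helper97 library: subfield subgroups of SL_n are maximal: an overgroup containing a
-- non-rational elementary transvection is the whole of SL_n.
import Cfsg.Agent.Helper97.SFBasic

set_option autoImplicit false
set_option linter.unusedSimpArgs false
set_option linter.unusedVariables false
open Cfsg Cfsg.Geo Matrix

namespace Cfsg.Agent.Helper97.SF

variable {F : Type*} [Field F] {n : ℕ}

theorem elemTv_comm_mem {M : Subgroup (GL (Fin n) F)} {i j k : Fin n} (hij : i ≠ j)
    (hjk : j ≠ k) (hik : i ≠ k) (c d : F) (h1 : elemTv i j hij c ∈ M)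
    (h2 : elemTv j k hjk d ∈ M) : elemTv i k hik (c * d) ∈ M := by
  have key : elemTv i k hik (c * d) * elemTv j k hjk d * elemTv i j hij c
      = elemTv i j hij c * elemTv j k hjk d := by
    apply sf_gl_ext
    intro x
    simp only [Units.val_mul, ← Matrix.mulVec_mulVec, elemTv_mulVec]
    funext m
    simp [Pi.single_apply, hij, hjk, hik, hij.symm, hjk.symm, hik.symm]
    split_ifs <;> ring
  have : elemTv i k hik (c * d)
      = elemTv i j hij c * elemTv j k hjk d * (elemTv i j hij c)⁻¹ * (elemTv j k hjk d)⁻¹ := by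
    rw [← key]; group
  rw [this]
  exact M.mul_mem (M.mul_mem (M.mul_mem h1 h2) (M.inv_mem h1)) (M.inv_mem h2)

theorem elemTv_add (i j : Fin n) (hij : i ≠ j) (c d : F) :
    elemTv i j hij (c + d) = elemTv i j hij c * elemTv i j hij d := by
  apply sf_gl_ext
  intro x
  simp only [Units.val_mul, ← Matrix.mulVec_mulVec, elemTv_mulVec]
  funext m
  simp [Pi.single_apply, hij, hij.symm]
  split_ifs <;> ring

theorem elemTv_spread (hn : 3 ≤ n) {F₀ : Subfield F} {M : Subgroup (GL (Fin n) F)}
    (hle : sfH F₀ n ≤ M) {i j : Fin n} (hij : i ≠ j) (c : F) (h : elemTv i j hij c ∈ M)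
    (k l : Fin n) (hkl : k ≠ l) : elemTv k l hkl c ∈ M := by
  have one : ∀ (a b : Fin n) (hab : a ≠ b), elemTv a b hab (1 : F) ∈ M :=
    fun a b hab => hle (elemTv_mem_sfH F₀ a b hab 1 (one_mem _))
  have col : ∀ (a b l : Fin n) (hab : a ≠ b) (hal : a ≠ l) (hbl : b ≠ l),
      elemTv a b hab c ∈ M → elemTv a l hal c ∈ M := by
    intro a b l hab hal hbl h1
    have := elemTv_comm_mem hab hbl hal c 1 h1 (one b l hbl)
    rwa [mul_one] at this
  have row : ∀ (a b k : Fin n) (hab : a ≠ b) (hka : k ≠ a) (hkb : k ≠ b),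
      elemTv a b hab c ∈ M → elemTv k b hkb c ∈ M := by
    intro a b k hab hka hkb h1
    have := elemTv_comm_mem hka hab hkb 1 c (one k a hka) h1
    rwa [one_mul] at this
  have hα : ∀ (l : Fin n) (hil : i ≠ l), elemTv i l hil c ∈ M := by
    intro l hil
    by_cases hlj : l = j
    · subst hlj; exact h
    · exact col i j l hij hil (Ne.symm hlj) h
  have hβ : ∀ (k l : Fin n) (hkl : k ≠ l), l ≠ i → elemTv k l hkl c ∈ M := by
    intro k l hkl hli
    by_cases hki : k = i
    · subst hki; exact hα l hkl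
    · exact row i l k (Ne.symm hli) hki hkl (hα l (Ne.symm hli))
  have hγ : ∀ (k : Fin n) (hki : k ≠ i), elemTv k i hki c ∈ M := by
    intro k hki
    obtain ⟨m, hmi, hmk⟩ := sf_exists_ne2 hn i k
    exact col k m i (Ne.symm hmk) hki hmi (hβ k m (Ne.symm hmk) hmi)
  by_cases hli : l = i
  · subst hli; exact hγ k hkl
  · exact hβ k l hkl hli

/-- The set of `c` all of whose elementary transvections lie in `M`, as an `F₀`-subalgebra. -/
def lamAlg (hn : 3 ≤ n) (F₀ : Subfield F) (M : Subgroup (GL (Fin n) F))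
    (hle : sfH F₀ n ≤ M) : Subalgebra F₀ F where
  carrier := {c | ∀ (i j : Fin n) (hij : i ≠ j), elemTv i j hij c ∈ M}
  mul_mem' := by
    intro c d hc hd i k hik
    obtain ⟨j, hji, hjk⟩ := sf_exists_ne2 hn i k
    exact elemTv_comm_mem (Ne.symm hji) hjk hik c d (hc i j _) (hd j k _)
  add_mem' := by
    intro c d hc hd i j hij
    rw [elemTv_add]
    exact M.mul_mem (hc i j hij) (hd i j hij)
  algebraMap_mem' := by
    intro c i j hij
    exact hle (elemTv_mem_sfH F₀ i j hij _ c.2)

theorem mem_lamAlg (hn : 3 ≤ n) (F₀ : Subfield F) (M : Subgroup (GL (Fin n) F))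
    (hle : sfH F₀ n ≤ M) (c : F) :
    c ∈ lamAlg hn F₀ M hle ↔ ∀ (i j : Fin n) (hij : i ≠ j), elemTv i j hij c ∈ M := Iff.rfl

theorem sf_finrank [Fintype F] (F₀ : Subfield F) (r : ℕ)
    (hcard : Fintype.card F = Nat.card F₀ ^ r) : Module.finrank F₀ F = r := by
  haveI : Fintype F₀ := Fintype.ofFinite _
  have h1 : Fintype.card F = Fintype.card F₀ ^ Module.finrank F₀ F := Module.card_eq_pow_finrank
  rw [hcard, Nat.card_eq_fintype_card] at h1
  exact (Nat.pow_right_injective (Fintype.one_lt_card) h1).symm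

theorem lam_top [Fintype F] (hn : 3 ≤ n) (F₀ : Subfield F) (r : ℕ) (hr : r.Prime)
    (hcard : Fintype.card F = Nat.card F₀ ^ r) (M : Subgroup (GL (Fin n) F))
    (hle : sfH F₀ n ≤ M) (c : F) (hcF : c ∉ F₀) (hc : c ∈ lamAlg hn F₀ M hle) :
    lamAlg hn F₀ M hle = ⊤ := by
  have hfr : (Module.finrank F₀ F).Prime := by rw [sf_finrank F₀ r hcard]; exact hr
  haveI := Subalgebra.isSimpleOrder_of_finrank_prime F₀ F hfr
  rcases eq_bot_or_eq_top (lamAlg hn F₀ M hle) with h | h
  · exfalso
    rw [h] at hc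
    obtain ⟨y, hy⟩ := Algebra.mem_bot.mp hc
    apply hcF
    rw [← hy]
    exact y.2
  · exact h

theorem sf_diag2_mem {M : Subgroup (GL (Fin n) F)}
    (hM : ∀ (i j : Fin n) (hij : i ≠ j) (c : F), elemTv i j hij c ∈ M)
    {i j : Fin n} (hij : i ≠ j) (c : F) (hc : c ≠ 0) (g : GL (Fin n) F)
    (hg : (g : Matrix (Fin n) (Fin n) F)
      = diagonal (fun k => if k = i then c else if k = j then c⁻¹ else 1)) : g ∈ M := by
  have key : g = elemTv i j hij c * elemTv j i hij.symm (-c⁻¹) * elemTv i j hij c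
      * elemTv i j hij (-1) * elemTv j i hij.symm 1 * elemTv i j hij (-1) := by
    apply sf_gl_ext
    intro x
    simp only [Units.val_mul, ← Matrix.mulVec_mulVec, elemTv_mulVec, hg]
    funext k
    by_cases hki : k = i
    · subst hki
      simp [mulVec_diagonal, hij, Ne.symm hij]
      field_simp
      ring
    · by_cases hkj : k = j
      · subst hkj
        simp [mulVec_diagonal, hij, Ne.symm hij]
        field_simp
        ring
      · simp [mulVec_diagonal, Pi.single_apply, hki, hkj]
  rw [key]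
  exact M.mul_mem (M.mul_mem (M.mul_mem (M.mul_mem (M.mul_mem (hM _ _ _ _) (hM _ _ _ _))
    (hM _ _ _ _)) (hM _ _ _ _)) (hM _ _ _ _)) (hM _ _ _ _)

/-- A subgroup of `GL_n` containing all elementary transvections contains `SL_n`. -/
theorem SL_le_of_elemTv (hn : 2 ≤ n) (M : Subgroup (GL (Fin n) F))
    (hM : ∀ (i j : Fin n) (hij : i ≠ j) (c : F), elemTv i j hij c ∈ M) :
    specialLinear (Fin n) F ≤ M := by
  haveI : Nontrivial (Fin n) := Fin.nontrivial_iff_two_le.mpr hn
  intro g hg
  have hdet : (g : Matrix (Fin n) (Fin n) F).det = 1 := (mem_specialLinear_iff g).mp hg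
  have key : ∀ s : Matrix.SpecialLinearGroup (Fin n) F, ∀ g : GL (Fin n) F,
      (g : Matrix (Fin n) (Fin n) F) = s.val → g ∈ M := by
    intro s
    refine Matrix.SpecialLinearGroup.diagonal_transvection_induction'
      (fun s => ∀ g : GL (Fin n) F, (g : Matrix (Fin n) (Fin n) F) = s.val → g ∈ M) s ?_ ?_ ?_
    · intro i j hij c hc g hg
      exact sf_diag2_mem hM hij c hc g hg
    · intro i j hij a g hg
      have : g = elemTv i j hij a := by
        apply Units.ext
        rw [hg, elemTv_val]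
        rfl
      rw [this]
      exact hM _ _ _ _
    · intro A B hA hB g hg
      have : g = Matrix.SpecialLinearGroup.toGL A * Matrix.SpecialLinearGroup.toGL B := by
        apply Units.ext
        rw [hg]
        rfl
      rw [this]
      exact M.mul_mem (hA _ rfl) (hB _ rfl)
  exact key ⟨(g : Matrix (Fin n) (Fin n) F), hdet⟩ g rfl

/-- Step 1: an overgroup of the subfield group containing a non-rational elementary transvection
contains `SL_n`. -/
theorem sf_step1 [Fintype F] (hn : 3 ≤ n) (F₀ : Subfield F) (r : ℕ) (hr : r.Prime)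
    (hcard : Fintype.card F = Nat.card F₀ ^ r) (M : Subgroup (GL (Fin n) F))
    (hle : sfH F₀ n ≤ M) (i j : Fin n) (hij : i ≠ j) (c : F) (hcF : c ∉ F₀)
    (hcM : elemTv i j hij c ∈ M) : specialLinear (Fin n) F ≤ M := by
  have hc : c ∈ lamAlg hn F₀ M hle := fun k l hkl => elemTv_spread hn hle hij c hcM k l hkl
  have htop := lam_top hn F₀ r hr hcard M hle c hcF hc
  apply SL_le_of_elemTv (by omega) M
  intro k l hkl d
  have : d ∈ lamAlg hn F₀ M hle := by rw [htop]; exact Algebra.mem_top
  exact this k l hkl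

end Cfsg.Agent.Helper97.SF
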