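-- helper97 library: subfield subgroups of SL_n are maximal: overgroups all of whose elementary
-- transvections are rational; stabiliser lemmas.
import Cfsg.Agent.Helper97.SFBasic

set_option autoImplicit false
set_option linter.unusedSimpArgs false
set_option linter.unusedVariables false
open Cfsg Cfsg.Geo Matrix

namespace Cfsg.Agent.Helper97.SF

variable {F : Type*} [Field F] {n : ℕ} {F₀ : Subfield F} {M : Subgroup (GL (Fin n) F)}

theorem sf_exists_coord {v : Fin n → F} (hv : v ≠ 0) : ∃ i, v i ≠ 0 := by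
  by_contra hcon
  apply hv
  funext i
  by_contra hi
  exact hcon ⟨i, hi⟩

theorem lemT_aux (w : Fin n → F) (hw : ∀ i, w i ∈ F₀) (i₀ : Fin n) (hwi : w i₀ ≠ 0) :
    ∃ h ∈ sfH F₀ n, ∃ b : F, b ≠ 0 ∧
      (h : Matrix (Fin n) (Fin n) F) *ᵥ Pi.single i₀ 1 = b • w := by
  set u : Fin n → F := (w i₀)⁻¹ • w - Pi.single i₀ 1 with hu
  have hu0 : (Pi.single i₀ 1 : Fin n → F) ⬝ᵥ u = 0 := by
    rw [single_one_dotProduct, hu]
    simp [inv_mul_cancel₀ hwi]
  refine ⟨genTv u (Pi.single i₀ 1) hu0, genTv_mem_sfH F₀ u _ hu0 ?_ ?_, (w i₀)⁻¹,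
    inv_ne_zero hwi, ?_⟩
  · intro i
    rw [hu]
    simp only [Pi.sub_apply, Pi.smul_apply, smul_eq_mul, Pi.single_apply]
    refine sub_mem (mul_mem (F₀.inv_mem (hw i₀)) (hw i)) ?_
    split_ifs
    · exact one_mem _
    · exact zero_mem _
  · intro i
    rw [Pi.single_apply]
    split_ifs
    · exact one_mem _
    · exact zero_mem _
  · rw [genTv_mulVec, single_one_dotProduct, Pi.single_eq_same, one_smul, hu]
    abel

/-- Lemma T: the subfield group is transitive on rational points. -/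
theorem lemT (w : Fin n → F) (hw : ∀ i, w i ∈ F₀) (hw0 : w ≠ 0) (i₀ : Fin n) :
    ∃ h ∈ sfH F₀ n, ∃ b : F, b ≠ 0 ∧
      (h : Matrix (Fin n) (Fin n) F) *ᵥ Pi.single i₀ 1 = b • w := by
  by_cases hwi : w i₀ = 0
  · obtain ⟨m, hm⟩ := sf_exists_coord hw0
    have hmi : i₀ ≠ m := by rintro rfl; exact hm hwi
    set t := elemTv i₀ m hmi (1 : F) with ht
    set w' : Fin n → F := (t : Matrix (Fin n) (Fin n) F) *ᵥ w with hw'
    have hw'eq : w' = w + (1 * w m) • Pi.single i₀ 1 := by rw [hw', ht, elemTv_mulVec]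
    have hw'rat : ∀ i, w' i ∈ F₀ := by
      intro i
      rw [hw'eq]
      simp only [Pi.add_apply, Pi.smul_apply, smul_eq_mul, Pi.single_apply, one_mul]
      refine add_mem (hw i) (mul_mem (hw m) ?_)
      split_ifs
      · exact one_mem _
      · exact zero_mem _
    have hw'i : w' i₀ ≠ 0 := by
      rw [hw'eq]
      simp [hwi, hm]
    obtain ⟨h₁, hh₁, b, hb, hhe⟩ := lemT_aux w' hw'rat i₀ hw'i
    refine ⟨t⁻¹ * h₁, (sfH F₀ n).mul_mem
      ((sfH F₀ n).inv_mem (elemTv_mem_sfH F₀ i₀ m hmi 1 (one_mem _))) hh₁, b, hb, ?_⟩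
    rw [Units.val_mul, ← Matrix.mulVec_mulVec, hhe, Matrix.mulVec_smul, hw', mulVec_inv_cancel]
  · exact lemT_aux w hw i₀ hwi

/-- Lemma B: an element of `M` fixing the point `⟨e_{i₀}⟩` lies in the subfield group. -/
theorem lemB (hc : SFCtx F₀ M) {k : GL (Fin n) F} (hk : k ∈ M) (i₀ : Fin n) (a : F)
    (hka : (k : Matrix (Fin n) (Fin n) F) *ᵥ Pi.single i₀ 1 = a • Pi.single i₀ 1) :
    k ∈ sfH F₀ n := by
  have ha : a ≠ 0 := by
    rintro rfl
    rw [zero_smul] at hka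
    have h1 := mulVec_inv_cancel k (Pi.single i₀ 1)
    rw [hka, Matrix.mulVec_zero] at h1
    have h2 := congrFun h1 i₀
    simp at h2
  set ki : Matrix (Fin n) (Fin n) F := ((k⁻¹ : GL (Fin n) F) : Matrix (Fin n) (Fin n) F)
    with hki
  have hkie : ki *ᵥ Pi.single i₀ 1 = a⁻¹ • Pi.single i₀ 1 := by
    have h1 := mulVec_inv_cancel k (Pi.single i₀ 1)
    rw [hka, Matrix.mulVec_smul] at h1
    calc ki *ᵥ Pi.single i₀ 1 = a⁻¹ • (a • ki *ᵥ Pi.single i₀ 1) := by
          rw [smul_smul, inv_mul_cancel₀ ha, one_smul]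
      _ = a⁻¹ • Pi.single i₀ 1 := by rw [h1]
  have hcol : ∀ j, ki j i₀ = a⁻¹ * (Pi.single i₀ 1 : Fin n → F) j := by
    intro j
    have h1 := congrFun hkie j
    rw [Matrix.mulVec_single_one] at h1
    simpa using h1
  have hrow : ∀ j, j ≠ i₀ → ∀ l, a * ki j l ∈ F₀ := by
    intro j hj l
    by_cases hl : l = i₀
    · rw [hl, hcol j, Pi.single_eq_of_ne hj, mul_zero, mul_zero]
      exact zero_mem _
    · set gj := k * elemTv i₀ j (Ne.symm hj) 1 * k⁻¹ with hgj
      have hgjM : gj ∈ M :=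
        M.mul_mem (M.mul_mem hk (hc.le (elemTv_mem_sfH F₀ i₀ j _ 1 (one_mem _)))) (M.inv_mem hk)
      have hgjx : ∀ x, (gj : Matrix (Fin n) (Fin n) F) *ᵥ x
          = x + ((fun l => a * ki j l) ⬝ᵥ x) • Pi.single i₀ 1 := by
        intro x
        rw [hgj, Units.val_mul, Units.val_mul, ← Matrix.mulVec_mulVec, ← Matrix.mulVec_mulVec,
          elemTv_mulVec, Matrix.mulVec_add, Matrix.mulVec_smul, hka, mulVec_cancel_inv, one_mul,
          smul_smul]
        congr 2
        rw [Matrix.mulVec, dotProduct, dotProduct, Finset.sum_mul]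
        exact Finset.sum_congr rfl fun l _ => by ring
      exact lemA hc hgjM i₀ _ hgjx l hl
  set ψ' : Fin n → F := fun l => if l = i₀ then 0 else -(a * ki i₀ l) with hψ'
  have hψ0 : ψ' ⬝ᵥ (Pi.single i₀ 1 : Fin n → F) = 0 := by
    rw [dotProduct_single_one, hψ']
    simp
  set T' := genTv (Pi.single i₀ 1) ψ' hψ0 with hT'
  set y := k⁻¹ * T' with hy
  have hyent : ∀ j l, (y : Matrix (Fin n) (Fin n) F) j l
      = ki j l + ψ' l * (a⁻¹ * (Pi.single i₀ 1 : Fin n → F) j) := by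
    intro j l
    have h1 : (y : Matrix (Fin n) (Fin n) F) *ᵥ Pi.single l 1
        = ki *ᵥ Pi.single l 1 + ψ' l • (a⁻¹ • Pi.single i₀ 1) := by
      rw [hy, Units.val_mul, ← Matrix.mulVec_mulVec, hT', genTv_mulVec, Matrix.mulVec_add,
        Matrix.mulVec_smul, hkie, dotProduct_single_one]
    have h2 := congrFun h1 j
    rw [Matrix.mulVec_single_one, Matrix.mulVec_single_one] at h2
    simpa using h2
  have hyH : y ∈ sfH F₀ n := by
    refine mem_sfH_of_smul ((specialLinear (Fin n) F).mul_mem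
      ((specialLinear (Fin n) F).inv_mem (hc.sl hk)) (genTv_mem _ _ _)) a ha ?_
    intro j l
    rw [hyent]
    by_cases hj : j = i₀
    · rw [hj, Pi.single_eq_same, mul_one]
      by_cases hl : l = i₀
      · have h1 : a * (ki i₀ l + ψ' l * a⁻¹) = 1 := by
          rw [hl, hcol i₀, Pi.single_eq_same, hψ']
          simp [ha]
        rw [h1]
        exact one_mem _
      · have h1 : a * (ki i₀ l + ψ' l * a⁻¹) = 0 := by
          rw [hψ']
          simp only [if_neg hl]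
          field_simp
          ring
        rw [h1]
        exact zero_mem _
    · rw [Pi.single_eq_of_ne hj, mul_zero, mul_zero, add_zero]
      exact hrow j hj l
  have hT'eq : T' = k * y := by rw [hy]; group
  have hT'M : T' ∈ M := by
    rw [hT'eq]
    exact M.mul_mem hk (hc.le hyH)
  have hψrat : ∀ l, ψ' l ∈ F₀ := by
    intro l
    by_cases hl : l = i₀
    · rw [hψ']
      simp only [if_pos hl]
      exact zero_mem _
    · exact lemA hc hT'M i₀ ψ' (fun x => by rw [hT', genTv_mulVec]) l hl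
  have hT'H : T' ∈ sfH F₀ n := by
    refine genTv_mem_sfH F₀ _ _ hψ0 ?_ hψrat
    intro i
    rw [Pi.single_apply]
    split_ifs
    · exact one_mem _
    · exact zero_mem _
  have hk' : k = T' * y⁻¹ := by rw [hT'eq]; group
  rw [hk']
  exact (sfH F₀ n).mul_mem hT'H ((sfH F₀ n).inv_mem hyH)

/-- Lemma B': an element of `M` mapping `⟨e_{i₀}⟩` to a rational point lies in the subfield
group. -/
theorem lemB' (hc : SFCtx F₀ M) {k : GL (Fin n) F} (hk : k ∈ M) (i₀ : Fin n) (a : F)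
    (w : Fin n → F) (hw : ∀ i, w i ∈ F₀) (hw0 : w ≠ 0)
    (hka : (k : Matrix (Fin n) (Fin n) F) *ᵥ Pi.single i₀ 1 = a • w) : k ∈ sfH F₀ n := by
  obtain ⟨h, hh, b, hb, hhe⟩ := lemT w hw hw0 i₀
  have h1 : ((h⁻¹ * k : GL (Fin n) F) : Matrix (Fin n) (Fin n) F) *ᵥ Pi.single i₀ 1
      = (a * b⁻¹) • Pi.single i₀ 1 := by
    have hw' : w = b⁻¹ • ((h : Matrix (Fin n) (Fin n) F) *ᵥ Pi.single i₀ 1) := by
      rw [hhe, smul_smul, inv_mul_cancel₀ hb, one_smul]
    rw [Units.val_mul, ← Matrix.mulVec_mulVec, hka, Matrix.mulVec_smul]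
    conv_lhs => rw [hw']
    rw [Matrix.mulVec_smul, mulVec_inv_cancel, smul_smul]
  have h2 := lemB hc (M.mul_mem (M.inv_mem (hc.le hh)) hk) i₀ _ h1
  have h3 : k = h * (h⁻¹ * k) := by group
  rw [h3]
  exact (sfH F₀ n).mul_mem hh h2

theorem sf_exists_entry (hn : 3 ≤ n) (g : GL (Fin n) F) (i₀ k₀ : Fin n) :
    ∃ j, j ≠ i₀ ∧ ∃ k, k ≠ k₀ ∧ (g : Matrix (Fin n) (Fin n) F) j k ≠ 0 := by
  by_contra hcon
  push Not at hcon
  obtain ⟨j₁, hj₁, -⟩ := sf_exists_ne2 hn i₀ i₀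
  obtain ⟨j₂, hj₂, hj₂₁⟩ := sf_exists_ne2 hn i₀ j₁
  have hrow : ∀ j, j ≠ i₀ → ∀ x : Fin n → F,
      ((g : Matrix (Fin n) (Fin n) F) *ᵥ x) j = (g : Matrix (Fin n) (Fin n) F) j k₀ * x k₀ := by
    intro j hj x
    rw [Matrix.mulVec, dotProduct]
    rw [Finset.sum_eq_single k₀]
    · intro k _ hk
      rw [hcon j hj k hk, zero_mul]
    · intro h; exact absurd (Finset.mem_univ _) h
  set x₁ := ((g⁻¹ : GL (Fin n) F) : Matrix (Fin n) (Fin n) F) *ᵥ Pi.single j₁ 1 with hx₁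
  have hgx₁ : (g : Matrix (Fin n) (Fin n) F) *ᵥ x₁ = Pi.single j₁ 1 := mulVec_cancel_inv g _
  have h1 := hrow j₁ hj₁ x₁
  rw [hgx₁, Pi.single_eq_same] at h1
  have h2 := hrow j₂ hj₂ x₁
  rw [hgx₁, Pi.single_eq_of_ne hj₂₁] at h2
  have hx0 : x₁ k₀ ≠ 0 := by
    intro h0; rw [h0, mul_zero] at h1; exact one_ne_zero h1
  have hg0 : (g : Matrix (Fin n) (Fin n) F) j₂ k₀ = 0 := by
    rcases mul_eq_zero.mp h2.symm with h | h
    · exact h
    · exact absurd h hx0
  have h3 := hrow j₂ hj₂ (((g⁻¹ : GL (Fin n) F) : Matrix (Fin n) (Fin n) F) *ᵥ Pi.single j₂ 1)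
  rw [mulVec_cancel_inv, Pi.single_eq_same, hg0, zero_mul] at h3
  exact one_ne_zero h3

/-- Lemma C₀: an element of `M` mapping `e_{i₀}` into a coordinate hyperplane lies in the
subfield group. -/
theorem lemC0 (hc : SFCtx F₀ M) {g : GL (Fin n) F} (hg : g ∈ M) (i₀ k₀ : Fin n)
    (h0 : ((g : Matrix (Fin n) (Fin n) F) *ᵥ Pi.single i₀ 1) k₀ = 0) : g ∈ sfH F₀ n := by
  have hn3 : 3 ≤ n := le_trans (by norm_num) hc.four
  set v : Fin n → F := (g : Matrix (Fin n) (Fin n) F) *ᵥ Pi.single i₀ 1 with hv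
  set gi : Matrix (Fin n) (Fin n) F := ((g⁻¹ : GL (Fin n) F) : Matrix (Fin n) (Fin n) F)
    with hgi
  obtain ⟨j, hj, k, hk, hjk⟩ := sf_exists_entry hn3 g⁻¹ i₀ k₀
  have hv0 : v ≠ 0 := by
    intro hv0
    have h1 := mulVec_inv_cancel g (Pi.single i₀ 1)
    rw [← hv, hv0, Matrix.mulVec_zero] at h1
    have h2 := congrFun h1 i₀
    simp at h2
  set τ := g * elemTv i₀ j (Ne.symm hj) 1 * g⁻¹ with hτ
  have hτM : τ ∈ M :=
    M.mul_mem (M.mul_mem hg (hc.le (elemTv_mem_sfH F₀ i₀ j _ 1 (one_mem _)))) (M.inv_mem hg)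
  have hτx : ∀ x, (τ : Matrix (Fin n) (Fin n) F) *ᵥ x = x + ((fun l => gi j l) ⬝ᵥ x) • v := by
    intro x
    rw [hτ, Units.val_mul, Units.val_mul, ← Matrix.mulVec_mulVec, ← Matrix.mulVec_mulVec,
      elemTv_mulVec, Matrix.mulVec_add, Matrix.mulVec_smul, mulVec_cancel_inv, one_mul]
    rfl
  set t := elemTv k k₀ hk (1 : F) with ht
  have htM : t ∈ M := hc.le (elemTv_mem_sfH F₀ k k₀ hk 1 (one_mem _))
  set u : Fin n → F := gi j k • v with hu
  have hu0 : (Pi.single k₀ 1 : Fin n → F) ⬝ᵥ u = 0 := by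
    rw [single_one_dotProduct, hu, Pi.smul_apply, h0, smul_zero]
  set c := genTv u (Pi.single k₀ 1) hu0 with hcdef
  have key : c * t * τ = τ * t := by
    apply sf_gl_ext
    intro x
    simp only [Units.val_mul, ← Matrix.mulVec_mulVec, hτx, ht, elemTv_mulVec, hcdef,
      genTv_mulVec, single_one_dotProduct, dotProduct_add, dotProduct_smul,
      dotProduct_single_one]
    funext m
    simp [hu, h0, hk, Pi.single_apply]
    split_ifs <;> ring
  have hcM : c ∈ M := by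
    have : c = τ * t * τ⁻¹ * t⁻¹ := by rw [← key]; group
    rw [this]
    exact M.mul_mem (M.mul_mem (M.mul_mem hτM htM) (M.inv_mem hτM)) (M.inv_mem htM)
  have hcx : ∀ x, (c : Matrix (Fin n) (Fin n) F) *ᵥ x = x + x k₀ • u := by
    intro x
    rw [hcdef, genTv_mulVec, single_one_dotProduct]
  have hurat : ∀ l, u l ∈ F₀ := by
    intro l
    by_cases hl : l = k₀
    · rw [hl, hu, Pi.smul_apply, h0, smul_zero]; exact zero_mem _
    · exact lemA' hc hcM k₀ u hcx l hl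
  have hune : u ≠ 0 := by
    intro h
    obtain ⟨m, hm⟩ := sf_exists_coord hv0
    have := congrFun h m
    rw [hu, Pi.smul_apply, smul_eq_mul] at this
    rcases mul_eq_zero.mp this with h' | h'
    · exact hjk h'
    · exact hm h'
  refine lemB' hc hg i₀ (gi j k)⁻¹ u hurat hune ?_
  rw [← hv, hu, smul_smul, inv_mul_cancel₀ hjk, one_smul]

/-- Lemma C: an element of `M` mapping a rational point into a coordinate hyperplane lies in the
subfield group. -/
theorem lemC (hc : SFCtx F₀ M) {g : GL (Fin n) F} (hg : g ∈ M) (w : Fin n → F)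
    (hw : ∀ i, w i ∈ F₀) (hw0 : w ≠ 0) (k₀ : Fin n)
    (h0 : ((g : Matrix (Fin n) (Fin n) F) *ᵥ w) k₀ = 0) : g ∈ sfH F₀ n := by
  obtain ⟨h, hh, b, hb, hhe⟩ := lemT w hw hw0 k₀
  have h1 : (((g * h : GL (Fin n) F) : Matrix (Fin n) (Fin n) F) *ᵥ Pi.single k₀ 1) k₀ = 0 := by
    rw [Units.val_mul, ← Matrix.mulVec_mulVec, hhe, Matrix.mulVec_smul, Pi.smul_apply, h0,
      smul_zero]
  have h2 := lemC0 hc (M.mul_mem hg (hc.le hh)) k₀ k₀ h1
  have h3 : g = (g * h) * h⁻¹ := by group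
  rw [h3]
  exact (sfH F₀ n).mul_mem h2 ((sfH F₀ n).inv_mem hh)

theorem sf_frob [Finite F] (F₀ : Subfield F) (p : ℕ) [Fact p.Prime] [CharP F p] (d : F)
    (hd : d ^ p ∈ F₀) : d ∈ F₀ := by
  have hp0 : p ≠ 0 := (Fact.out : p.Prime).ne_zero
  have hinj : Function.Injective (fun x : F₀ => x ^ p) := by
    intro x y hxy
    have h1 : ((x : F) - (y : F)) ^ p = 0 := by
      rw [sub_pow_char]
      have h' : (x : F) ^ p = (y : F) ^ p := by
        have := congrArg (fun z : F₀ => (z : F)) hxy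
        simpa using this
      rw [h', sub_self]
    have h2 := (pow_eq_zero_iff hp0).mp h1
    exact Subtype.ext (sub_eq_zero.mp h2)
  have hsurj := Finite.injective_iff_surjective.mp hinj
  obtain ⟨e, he⟩ := hsurj ⟨d ^ p, hd⟩
  have h1 : ((e : F) - d) ^ p = 0 := by
    rw [sub_pow_char]
    have h' : (e : F) ^ p = d ^ p := by
      have := congrArg (fun z : F₀ => (z : F)) he
      simpa using this
    rw [h', sub_self]
  have h2 : (e : F) - d = 0 := (pow_eq_zero_iff hp0).mp h1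
  rw [← sub_eq_zero.mp h2]
  exact e.2

/-- Lemma D: if a rational transvection `s` with axis `e_{k₀}` has a conjugate by `g ∈ M` in the
subfield group then `g` lies in the subfield group. -/
theorem lemD [Finite F] (hc : SFCtx F₀ M) {g : GL (Fin n) F} (hg : g ∈ M) (u : Fin n → F)
    (hu : ∀ i, u i ∈ F₀) (hu0 : u ≠ 0) (k₀ : Fin n) (huk : u k₀ = 0) (s : GL (Fin n) F)
    (hs : ∀ x, (s : Matrix (Fin n) (Fin n) F) *ᵥ x = x + x k₀ • u)
    (hsg : g⁻¹ * s * g ∈ sfH F₀ n) : g ∈ sfH F₀ n := by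
  set p := ringChar F with hp
  have : Fact p.Prime := ⟨CharP.char_is_prime F p⟩
  have hspow : ∀ m : ℕ, ∀ x, ((s ^ m : GL (Fin n) F) : Matrix (Fin n) (Fin n) F) *ᵥ x
      = x + x k₀ • ((m : F) • u) := by
    intro m
    induction m with
    | zero => intro x; simp
    | succ m ih =>
      intro x
      rw [pow_succ, Units.val_mul, ← Matrix.mulVec_mulVec, hs, ih]
      funext l
      simp [huk]
      ring
  have hsp : s ^ p = 1 := by
    apply sf_gl_ext
    intro x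
    rw [hspow, CharP.cast_eq_zero, zero_smul, smul_zero, add_zero, Units.val_one,
      Matrix.one_mulVec]
  set s' := g⁻¹ * s * g with hs'
  have hs'p : s' ^ p = 1 := by
    have : s' = g⁻¹ * s * g⁻¹⁻¹ := by rw [inv_inv]
    rw [this, conj_pow, hsp, mul_one, mul_inv_cancel]
  obtain ⟨d, hd0, hdrat⟩ := (mem_subfieldSubgroup_one F₀ s').mp hsg.1
  have hdp : d ^ p ∈ F₀ := by
    have h1 : (d • (s' : Matrix (Fin n) (Fin n) F)) ^ p ∈ ratMat F₀ n := pow_mem hdrat p
    rw [smul_pow, ← Units.val_pow_eq_pow_val, hs'p, Units.val_one] at h1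
    have h2 := h1 k₀ k₀
    simpa using h2
  have hd : d ∈ F₀ := sf_frob F₀ p d hdp
  have hs'rat : ∀ i j, (s' : Matrix (Fin n) (Fin n) F) i j ∈ F₀ := by
    intro i j
    have h1 := hdrat i j
    have h2 : (s' : Matrix (Fin n) (Fin n) F) i j
        = d⁻¹ * (d • (s' : Matrix (Fin n) (Fin n) F)) i j := by
      rw [Matrix.smul_apply, smul_eq_mul, ← mul_assoc, inv_mul_cancel₀ hd0, one_mul]
    rw [h2]
    exact mul_mem (F₀.inv_mem hd) h1
  set x₀ : Fin n → F := ((g⁻¹ : GL (Fin n) F) : Matrix (Fin n) (Fin n) F) *ᵥ u with hx₀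
  have hs'x : ∀ z, (s' : Matrix (Fin n) (Fin n) F) *ᵥ z
      = z + ((g : Matrix (Fin n) (Fin n) F) *ᵥ z) k₀ • x₀ := by
    intro z
    rw [hs', Units.val_mul, Units.val_mul, ← Matrix.mulVec_mulVec, ← Matrix.mulVec_mulVec, hs,
      Matrix.mulVec_add, Matrix.mulVec_smul, mulVec_inv_cancel]
  have hent : ∀ l m, (s' : Matrix (Fin n) (Fin n) F) l m
      = (if l = m then 1 else 0) + (g : Matrix (Fin n) (Fin n) F) k₀ m * x₀ l := by
    intro l m
    have h1 := congrFun (hs'x (Pi.single m 1)) l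
    rw [Matrix.mulVec_single_one, Matrix.mulVec_single_one] at h1
    simpa [Pi.single_apply] using h1
  obtain ⟨m, hm⟩ : ∃ m, (g : Matrix (Fin n) (Fin n) F) k₀ m ≠ 0 := by
    by_contra hcon
    push Not at hcon
    have h1 := congrFun (mulVec_cancel_inv g (Pi.single k₀ 1)) k₀
    rw [Matrix.mulVec, dotProduct, Pi.single_eq_same] at h1
    rw [Finset.sum_eq_zero (fun m _ => by rw [hcon m, zero_mul])] at h1
    exact zero_ne_one h1
  set w : Fin n → F := (g : Matrix (Fin n) (Fin n) F) k₀ m • x₀ with hw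
  have hwrat : ∀ l, w l ∈ F₀ := by
    intro l
    have h1 := hs'rat l m
    rw [hent] at h1
    have h2 : w l = ((if l = m then (1 : F) else 0) + (g : Matrix (Fin n) (Fin n) F) k₀ m * x₀ l)
        - (if l = m then 1 else 0) := by
      rw [hw, Pi.smul_apply, smul_eq_mul]; ring
    rw [h2]
    refine sub_mem h1 ?_
    split_ifs
    · exact one_mem _
    · exact zero_mem _
  have hx₀ne : x₀ ≠ 0 := by
    intro h
    apply hu0
    have h1 := mulVec_cancel_inv g u
    rw [← hx₀, h, Matrix.mulVec_zero] at h1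
    exact h1.symm
  have hwne : w ≠ 0 := by
    intro h
    obtain ⟨l, hl⟩ := sf_exists_coord hx₀ne
    have := congrFun h l
    rw [hw, Pi.smul_apply, smul_eq_mul] at this
    rcases mul_eq_zero.mp this with h' | h'
    · exact hm h'
    · exact hl h'
  refine lemC hc hg w hwrat hwne k₀ ?_
  rw [hw, Matrix.mulVec_smul, hx₀, mulVec_cancel_inv, Pi.smul_apply, huk, smul_zero]

end Cfsg.Agent.Helper97.SF
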