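-- helper97 library: subfield subgroups of SL_n are maximal: the relative trace from the
-- subfield group (entrywise retraction onto the subfield, conjugated), orbit sums.
import Cfsg.Agent.Helper97.SFRoot

set_option autoImplicit false
set_option linter.unusedSimpArgs false
set_option linter.unusedVariables false
open Cfsg Cfsg.Geo Matrix

namespace Cfsg.Agent.Helper97.SF

variable {F : Type*} [Field F] {n : ℕ}

/-- An `F₀`-linear retraction of `F` onto `F₀`. -/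
noncomputable def sfTau (F₀ : Subfield F) : F →ₗ[F₀] F₀ :=
  (LinearMap.exists_leftInverse_of_injective (Algebra.linearMap F₀ F)
    (LinearMap.ker_eq_bot.mpr (algebraMap F₀ F).injective)).choose

theorem sfTau_coe (F₀ : Subfield F) (c : F₀) : sfTau F₀ (c : F) = c := by
  have h := (LinearMap.exists_leftInverse_of_injective (Algebra.linearMap F₀ F)
    (LinearMap.ker_eq_bot.mpr (algebraMap F₀ F).injective)).choose_spec
  exact LinearMap.congr_fun h c

theorem sfTau_mul (F₀ : Subfield F) {c : F} (hc : c ∈ F₀) (x : F) :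
    (sfTau F₀ (c * x) : F) = c * (sfTau F₀ x : F) := by
  have h1 : c * x = (⟨c, hc⟩ : F₀) • x := rfl
  rw [h1, map_smul]
  rfl

theorem sfTau_of_mem (F₀ : Subfield F) {c : F} (hc : c ∈ F₀) : (sfTau F₀ c : F) = c := by
  have := sfTau_coe F₀ ⟨c, hc⟩
  exact congrArg Subtype.val this

/-- The entrywise retraction of matrices onto rational matrices. -/
noncomputable def sfPi (F₀ : Subfield F) (n : ℕ) :
    Matrix (Fin n) (Fin n) F →+ Matrix (Fin n) (Fin n) F where
  toFun X := fun i j => (sfTau F₀ (X i j) : F)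
  map_zero' := by ext i j; simp
  map_add' X Y := by
    ext i j
    show (sfTau F₀ ((X + Y) i j) : F) = (sfTau F₀ (X i j) : F) + (sfTau F₀ (Y i j) : F)
    rw [Matrix.add_apply, map_add]
    rfl

variable {F₀ : Subfield F}

theorem sfPi_apply (X : Matrix (Fin n) (Fin n) F) (i j : Fin n) :
    sfPi F₀ n X i j = (sfTau F₀ (X i j) : F) := rfl

theorem sfPi_mul_left {R : Matrix (Fin n) (Fin n) F} (hR : R ∈ ratMat F₀ n)
    (X : Matrix (Fin n) (Fin n) F) : sfPi F₀ n (R * X) = R * sfPi F₀ n X := by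
  ext i j
  rw [sfPi_apply, Matrix.mul_apply, Matrix.mul_apply, map_sum, AddSubmonoidClass.coe_finsetSum]
  refine Finset.sum_congr rfl fun k _ => ?_
  rw [sfTau_mul F₀ (hR i k)]
  rfl

theorem sfPi_mul_right {R : Matrix (Fin n) (Fin n) F} (hR : R ∈ ratMat F₀ n)
    (X : Matrix (Fin n) (Fin n) F) : sfPi F₀ n (X * R) = sfPi F₀ n X * R := by
  ext i j
  rw [sfPi_apply, Matrix.mul_apply, Matrix.mul_apply, map_sum, AddSubmonoidClass.coe_finsetSum]
  refine Finset.sum_congr rfl fun k _ => ?_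
  rw [mul_comm, sfTau_mul F₀ (hR k j), mul_comm]
  rfl

theorem sfPi_rat {R : Matrix (Fin n) (Fin n) F} (hR : R ∈ ratMat F₀ n) : sfPi F₀ n R = R := by
  ext i j
  exact sfTau_of_mem F₀ (hR i j)

theorem sfPi_smul_rat {R : Matrix (Fin n) (Fin n) F} (hR : R ∈ ratMat F₀ n) (θ : F) :
    sfPi F₀ n (θ • R) = (sfTau F₀ θ : F) • R := by
  ext i j
  rw [sfPi_apply, Matrix.smul_apply, Matrix.smul_apply, smul_eq_mul, smul_eq_mul, mul_comm,
    sfTau_mul F₀ (hR i j), mul_comm]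

theorem mem_ratMat_of_sfPi_eq {Y : Matrix (Fin n) (Fin n) F} (h : sfPi F₀ n Y = Y) :
    Y ∈ ratMat F₀ n := by
  intro i j
  rw [← h]
  exact (sfTau F₀ (Y i j)).2

theorem sf_rs_conj (i₀ : Fin n) {h : GL (Fin n) F}
    (hh : h ∈ subfieldSubgroup F₀ (1 : GL (Fin n) F)) :
    ∃ A A' : Matrix (Fin n) (Fin n) F, A ∈ ratMat F₀ n ∧ A' ∈ ratMat F₀ n ∧
      ∀ Y : Matrix (Fin n) (Fin n) F,
        ((h⁻¹ : GL (Fin n) F) : Matrix (Fin n) (Fin n) F) * Y * (h : Matrix (Fin n) (Fin n) F)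
          = A' * Y * A := by
  obtain ⟨c, hc0, hcrat⟩ := (mem_subfieldSubgroup_one F₀ h).mp hh
  obtain ⟨c', hc'0, hc'rat⟩ := (mem_subfieldSubgroup_one F₀ h⁻¹).mp (Subgroup.inv_mem _ hh)
  have hprod : (c' • ((h⁻¹ : GL (Fin n) F) : Matrix (Fin n) (Fin n) F))
      * (c • (h : Matrix (Fin n) (Fin n) F)) = (c' * c) • (1 : Matrix (Fin n) (Fin n) F) := by
    rw [Matrix.smul_mul, Matrix.mul_smul, smul_smul, ← Units.val_mul, inv_mul_cancel,
      Units.val_one]
  have hcc : c' * c ∈ F₀ := by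
    have h1 := (ratMat F₀ n).mul_mem hc'rat hcrat
    rw [hprod] at h1
    have h2 := h1 i₀ i₀
    simpa using h2
  refine ⟨c • (h : Matrix (Fin n) (Fin n) F),
    (c' * c)⁻¹ • (c' • ((h⁻¹ : GL (Fin n) F) : Matrix (Fin n) (Fin n) F)), hcrat,
    smul_mem_ratMat hc'rat (F₀.inv_mem hcc), ?_⟩
  intro Y
  rw [Matrix.smul_mul, Matrix.smul_mul, Matrix.smul_mul, Matrix.smul_mul, Matrix.mul_smul,
    smul_smul, smul_smul]
  have : (c' * c)⁻¹ * c' * c = 1 := by field_simp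
  rw [this, one_smul]

theorem sfPi_conj (i₀ : Fin n) {h : GL (Fin n) F}
    (hh : h ∈ subfieldSubgroup F₀ (1 : GL (Fin n) F)) (Y : Matrix (Fin n) (Fin n) F) :
    sfPi F₀ n (((h⁻¹ : GL (Fin n) F) : Matrix (Fin n) (Fin n) F) * Y
        * (h : Matrix (Fin n) (Fin n) F))
      = ((h⁻¹ : GL (Fin n) F) : Matrix (Fin n) (Fin n) F) * sfPi F₀ n Y
        * (h : Matrix (Fin n) (Fin n) F) := by
  obtain ⟨A, A', hA, hA', hY⟩ := sf_rs_conj i₀ hh
  rw [hY, hY, sfPi_mul_right hA, sfPi_mul_left hA']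

/-- The retraction conjugated by `g`. -/
noncomputable def sfPiAt (F₀ : Subfield F) (g : GL (Fin n) F) (X : Matrix (Fin n) (Fin n) F) :
    Matrix (Fin n) (Fin n) F :=
  (g : Matrix (Fin n) (Fin n) F)
    * sfPi F₀ n (((g⁻¹ : GL (Fin n) F) : Matrix (Fin n) (Fin n) F) * X
      * (g : Matrix (Fin n) (Fin n) F))
    * ((g⁻¹ : GL (Fin n) F) : Matrix (Fin n) (Fin n) F)

theorem sfPiAt_mul_right (i₀ : Fin n) (g : GL (Fin n) F) {h : GL (Fin n) F}
    (hh : h ∈ subfieldSubgroup F₀ (1 : GL (Fin n) F)) (X : Matrix (Fin n) (Fin n) F) :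
    sfPiAt F₀ (g * h) X = sfPiAt F₀ g X := by
  unfold sfPiAt
  have h1 : (((g * h)⁻¹ : GL (Fin n) F) : Matrix (Fin n) (Fin n) F) * X
      * ((g * h : GL (Fin n) F) : Matrix (Fin n) (Fin n) F)
      = ((h⁻¹ : GL (Fin n) F) : Matrix (Fin n) (Fin n) F)
        * (((g⁻¹ : GL (Fin n) F) : Matrix (Fin n) (Fin n) F) * X
          * (g : Matrix (Fin n) (Fin n) F)) * (h : Matrix (Fin n) (Fin n) F) := by
    rw [_root_.mul_inv_rev, Units.val_mul, Units.val_mul]
    simp only [Matrix.mul_assoc]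
  rw [h1, sfPi_conj i₀ hh, _root_.mul_inv_rev, Units.val_mul, Units.val_mul]
  simp only [Matrix.mul_assoc]
  rw [Units.mul_inv_cancel_left, Units.mul_inv_cancel_left]

theorem sfPiAt_one (X : Matrix (Fin n) (Fin n) F) : sfPiAt F₀ 1 X = sfPi F₀ n X := by
  simp [sfPiAt]

theorem sfPiAt_add (g : GL (Fin n) F) (X Y : Matrix (Fin n) (Fin n) F) :
    sfPiAt F₀ g (X + Y) = sfPiAt F₀ g X + sfPiAt F₀ g Y := by
  simp [sfPiAt, mul_add, add_mul]

theorem sfPiAt_zero (g : GL (Fin n) F) : sfPiAt F₀ g 0 = 0 := by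
  simp [sfPiAt]

theorem sfPiAt_conj (m g : GL (Fin n) F) (X : Matrix (Fin n) (Fin n) F) :
    sfPiAt F₀ g ((m : Matrix (Fin n) (Fin n) F) * X
        * ((m⁻¹ : GL (Fin n) F) : Matrix (Fin n) (Fin n) F))
      = (m : Matrix (Fin n) (Fin n) F) * sfPiAt F₀ (m⁻¹ * g) X
        * ((m⁻¹ : GL (Fin n) F) : Matrix (Fin n) (Fin n) F) := by
  unfold sfPiAt
  rw [_root_.mul_inv_rev, inv_inv, Units.val_mul, Units.val_mul]
  have h1 : ((g⁻¹ : GL (Fin n) F) : Matrix (Fin n) (Fin n) F)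
      * ((m : Matrix (Fin n) (Fin n) F) * X
        * ((m⁻¹ : GL (Fin n) F) : Matrix (Fin n) (Fin n) F)) * (g : Matrix (Fin n) (Fin n) F)
      = ((g⁻¹ : GL (Fin n) F) : Matrix (Fin n) (Fin n) F) * (m : Matrix (Fin n) (Fin n) F) * X
        * (((m⁻¹ : GL (Fin n) F) : Matrix (Fin n) (Fin n) F)
          * (g : Matrix (Fin n) (Fin n) F)) := by
    simp only [Matrix.mul_assoc]
  rw [h1]
  simp only [Matrix.mul_assoc]
  rw [Units.mul_inv_cancel_left, Units.mul_inv, Matrix.mul_one]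

/-- The conjugated retraction as a function on the cosets of the subfield group. -/
noncomputable def sfF (F₀ : Subfield F) (i₀ : Fin n) (X : Matrix (Fin n) (Fin n) F)
    (q : GL (Fin n) F ⧸ sfH F₀ n) : Matrix (Fin n) (Fin n) F :=
  Quotient.liftOn' q (fun g => sfPiAt F₀ g X) (by
    intro a b hab
    have h1 : a⁻¹ * b ∈ sfH F₀ n := QuotientGroup.leftRel_apply.mp hab
    have h2 : b = a * (a⁻¹ * b) := by group
    show sfPiAt F₀ a X = sfPiAt F₀ b X
    rw [h2, sfPiAt_mul_right i₀ a h1.1])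

theorem sfF_mk (i₀ : Fin n) (X : Matrix (Fin n) (Fin n) F) (g : GL (Fin n) F) :
    sfF F₀ i₀ X (QuotientGroup.mk g) = sfPiAt F₀ g X := rfl

theorem sfF_add (i₀ : Fin n) (X Y : Matrix (Fin n) (Fin n) F) (q : GL (Fin n) F ⧸ sfH F₀ n) :
    sfF F₀ i₀ (X + Y) q = sfF F₀ i₀ X q + sfF F₀ i₀ Y q := by
  induction q using QuotientGroup.induction_on with
  | H g => rw [sfF_mk, sfF_mk, sfF_mk, sfPiAt_add]

theorem sfF_zero (i₀ : Fin n) (q : GL (Fin n) F ⧸ sfH F₀ n) : sfF F₀ i₀ 0 q = 0 := by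
  induction q using QuotientGroup.induction_on with
  | H g => rw [sfF_mk, sfPiAt_zero]

theorem sfF_conj (i₀ : Fin n) (m : GL (Fin n) F) (X : Matrix (Fin n) (Fin n) F)
    (q : GL (Fin n) F ⧸ sfH F₀ n) :
    sfF F₀ i₀ ((m : Matrix (Fin n) (Fin n) F) * X
        * ((m⁻¹ : GL (Fin n) F) : Matrix (Fin n) (Fin n) F)) q
      = (m : Matrix (Fin n) (Fin n) F) * sfF F₀ i₀ X (m⁻¹ • q)
        * ((m⁻¹ : GL (Fin n) F) : Matrix (Fin n) (Fin n) F) := by
  induction q using QuotientGroup.induction_on with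
  | H g => rw [MulAction.Quotient.smul_mk, smul_eq_mul, sfF_mk, sfF_mk, sfPiAt_conj]

/-! ### Orbit sums -/

theorem orbit_sum_zero {A Q V : Type*} [AddGroup A] [Fintype A] [DecidableEq Q]
    [AddCommMonoid V] (act : A → Q → Q) (hact0 : ∀ q, act 0 q = q)
    (hact : ∀ a b q, act (a + b) q = act a (act b q)) (f : Q → V)
    (hf : ∀ q, ∑ a : A, f (act a q) = 0) :
    ∀ (k : ℕ) (C : Finset Q), C.card = k → (∀ a, ∀ q ∈ C, act a q ∈ C) →
      (∀ a, ∀ q ∈ C, act a q = q → a = 0) → ∑ q ∈ C, f q = 0 := by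
  intro k
  induction k using Nat.strong_induction_on with
  | _ k ih =>
    intro C hk hC hfree
    rcases C.eq_empty_or_nonempty with rfl | ⟨q₀, hq₀⟩
    · simp
    · set O : Finset Q := Finset.univ.image (fun a => act a q₀) with hO
      have hOC : O ⊆ C := by
        intro q hq
        obtain ⟨a, -, rfl⟩ := Finset.mem_image.mp hq
        exact hC a q₀ hq₀
      have hinj : Function.Injective (fun a => act a q₀) := by
        intro a b hab
        have hab' : act a q₀ = act b q₀ := hab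
        have h1 : act (-b + a) q₀ = q₀ := by
          rw [hact, hab', ← hact, neg_add_cancel, hact0]
        have h2 := hfree _ q₀ hq₀ h1
        exact (neg_add_eq_zero.mp h2).symm
      have hsumO : ∑ q ∈ O, f q = 0 := by
        rw [hO, Finset.sum_image (fun a _ b _ hab => hinj hab)]
        exact hf q₀
      have hC' : ∀ a, ∀ q ∈ C \ O, act a q ∈ C \ O := by
        intro a q hq
        rw [Finset.mem_sdiff] at hq ⊢
        refine ⟨hC a q hq.1, fun hmem => hq.2 ?_⟩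
        obtain ⟨b, -, hb⟩ := Finset.mem_image.mp hmem
        have hb' : act b q₀ = act a q := hb
        have : q = act (-a + b) q₀ := by
          rw [hact, hb', ← hact, neg_add_cancel, hact0]
        rw [this]
        exact Finset.mem_image.mpr ⟨_, Finset.mem_univ _, rfl⟩
      have hlt : (C \ O).card < k := by
        rw [← hk]
        apply Finset.card_lt_card
        refine ⟨Finset.sdiff_subset, fun hsub => ?_⟩
        have : q₀ ∈ C \ O := hsub hq₀
        rw [Finset.mem_sdiff] at this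
        exact this.2 (Finset.mem_image.mpr ⟨0, Finset.mem_univ _, hact0 q₀⟩)
      have h3 := ih (C \ O).card hlt (C \ O) rfl hC'
        (fun a q hq => hfree a q (Finset.mem_sdiff.mp hq).1)
      rw [← Finset.sum_sdiff hOC, h3, hsumO, add_zero]

/-! ### The norm of a rational root group vanishes -/

theorem sf_card_zero (F₀ : Subfield F) [Fintype F₀] : (Fintype.card F₀ : F) = 0 := by
  have h1 : (Fintype.card F₀ : F₀) = 0 := FiniteField.cast_card_eq_zero F₀
  rw [← map_natCast F₀.subtype, h1, map_zero]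

theorem sf_sum_const (F₀ : Subfield F) [Fintype F₀] (Z : Matrix (Fin n) (Fin n) F) :
    ∑ _c : F₀, Z = 0 := by
  rw [Finset.sum_const, Finset.card_univ, ← Nat.cast_smul_eq_nsmul F, sf_card_zero, zero_smul]

theorem sf_sum3_12 (F₀ : Subfield F) [Fintype F₀]
    (G : F₀ → F₀ → Matrix (Fin n) (Fin n) F) : ∑ t : F₀ × F₀ × F₀, G t.1 t.2.1 = 0 := by
  simp only [Fintype.sum_prod_type, sf_sum_const, Finset.sum_const_zero]

theorem sf_sum3_13 (F₀ : Subfield F) [Fintype F₀]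
    (G : F₀ → F₀ → Matrix (Fin n) (Fin n) F) : ∑ t : F₀ × F₀ × F₀, G t.1 t.2.2 = 0 := by
  simp only [Fintype.sum_prod_type, sf_sum_const, Finset.sum_const_zero]

theorem sf_sum3_23 (F₀ : Subfield F) [Fintype F₀]
    (G : F₀ → F₀ → Matrix (Fin n) (Fin n) F) : ∑ t : F₀ × F₀ × F₀, G t.2.1 t.2.2 = 0 := by
  simp only [Fintype.sum_prod_type, sf_sum_const, Finset.sum_const_zero]

/-- Lemma N: the sum of the conjugates of any matrix under a rational root group with three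
parameters vanishes. -/
theorem lemN (F₀ : Subfield F) [Fintype F₀] (E₁ E₂ E₃ Z : Matrix (Fin n) (Fin n) F) :
    ∑ t : F₀ × F₀ × F₀,
      (1 + ((t.1 : F) • E₁ + (t.2.1 : F) • E₂ + (t.2.2 : F) • E₃)) * Z
        * (1 - ((t.1 : F) • E₁ + (t.2.1 : F) • E₂ + (t.2.2 : F) • E₃)) = 0 := by
  set G₁ : Matrix (Fin n) (Fin n) F → Matrix (Fin n) (Fin n) F → Matrix (Fin n) (Fin n) F :=
    fun A B => Z + A * Z + B * Z - Z * A - Z * B - A * Z * A - A * Z * B - B * Z * A - B * Z * B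
    with hG₁
  set G₂ : Matrix (Fin n) (Fin n) F → Matrix (Fin n) (Fin n) F → Matrix (Fin n) (Fin n) F :=
    fun A C => C * Z - Z * C - A * Z * C - C * Z * A - C * Z * C with hG₂
  set G₃ : Matrix (Fin n) (Fin n) F → Matrix (Fin n) (Fin n) F → Matrix (Fin n) (Fin n) F :=
    fun B C => -(B * Z * C) - C * Z * B with hG₃
  have key : ∀ A B C : Matrix (Fin n) (Fin n) F,
      (1 + (A + B + C)) * Z * (1 - (A + B + C)) = G₁ A B + G₂ A C + G₃ B C := by
    intro A B C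
    rw [hG₁, hG₂, hG₃]
    noncomm_ring
  simp only [key, Finset.sum_add_distrib]
  have h1 : ∑ t : F₀ × F₀ × F₀, G₁ ((t.1 : F) • E₁) ((t.2.1 : F) • E₂) = 0 :=
    sf_sum3_12 F₀ (fun a b => G₁ ((a : F) • E₁) ((b : F) • E₂))
  have h2 : ∑ t : F₀ × F₀ × F₀, G₂ ((t.1 : F) • E₁) ((t.2.2 : F) • E₃) = 0 :=
    sf_sum3_13 F₀ (fun a c => G₂ ((a : F) • E₁) ((c : F) • E₃))
  have h3 : ∑ t : F₀ × F₀ × F₀, G₃ ((t.2.1 : F) • E₂) ((t.2.2 : F) • E₃) = 0 :=
    sf_sum3_23 F₀ (fun b c => G₃ ((b : F) • E₂) ((c : F) • E₃))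
  rw [h1, h2, h3, add_zero, add_zero]

end Cfsg.Agent.Helper97.SF
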