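-- helper97 library: subfield subgroups of SL_n are maximal (n ≥ 4, prime index): the averaging
-- argument and the final theorem.
import Cfsg.Agent.Helper97.SFTrace
import Cfsg.Agent.Helper97.SFStep1

set_option autoImplicit false
set_option linter.unusedSimpArgs false
set_option linter.unusedVariables false
open Cfsg Cfsg.Geo Matrix

namespace Cfsg.Agent.Helper97.SF

variable {F : Type*} [Field F] {n : ℕ}

/-- Four distinct indices. -/
structure Idx4 (n : ℕ) where
  i₁ : Fin n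
  i₂ : Fin n
  i₃ : Fin n
  k₀ : Fin n
  h12 : i₁ ≠ i₂
  h13 : i₁ ≠ i₃
  h23 : i₂ ≠ i₃
  h1k : i₁ ≠ k₀
  h2k : i₂ ≠ k₀
  h3k : i₃ ≠ k₀

/-- The first four indices. -/
def idx4 (hn : 4 ≤ n) : Idx4 n where
  i₁ := ⟨0, by omega⟩
  i₂ := ⟨1, by omega⟩
  i₃ := ⟨2, by omega⟩
  k₀ := ⟨3, by omega⟩
  h12 := by simp [Fin.ext_iff]
  h13 := by simp [Fin.ext_iff]
  h23 := by simp [Fin.ext_iff]
  h1k := by simp [Fin.ext_iff]
  h2k := by simp [Fin.ext_iff]
  h3k := by simp [Fin.ext_iff]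

variable {F₀ : Subfield F}

/-- The centre of the rational transvection with parameters `t`. -/
def uVec (I : Idx4 n) (t : F₀ × F₀ × F₀) : Fin n → F :=
  (t.1 : F) • Pi.single I.i₁ 1 + (t.2.1 : F) • Pi.single I.i₂ 1 + (t.2.2 : F) • Pi.single I.i₃ 1

theorem uVec_k₀ (I : Idx4 n) (t : F₀ × F₀ × F₀) : uVec I t I.k₀ = 0 := by
  simp [uVec, Pi.single_apply, I.h1k.symm, I.h2k.symm, I.h3k.symm]

theorem uVec_rat (I : Idx4 n) (t : F₀ × F₀ × F₀) (i : Fin n) : uVec I t i ∈ F₀ := by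
  simp only [uVec, Pi.add_apply, Pi.smul_apply, smul_eq_mul, Pi.single_apply]
  refine add_mem (add_mem (mul_mem t.1.2 ?_) (mul_mem t.2.1.2 ?_)) (mul_mem t.2.2.2 ?_)
  · split_ifs
    · exact one_mem _
    · exact zero_mem _
  · split_ifs
    · exact one_mem _
    · exact zero_mem _
  · split_ifs
    · exact one_mem _
    · exact zero_mem _

theorem uVec_add (I : Idx4 n) (s t : F₀ × F₀ × F₀) : uVec I (s + t) = uVec I s + uVec I t := by
  funext i
  simp [uVec, add_mul]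
  ring

theorem uVec_zero (I : Idx4 n) : uVec I (0 : F₀ × F₀ × F₀) = 0 := by
  funext i
  simp [uVec]

theorem uVec_ne (I : Idx4 n) {t : F₀ × F₀ × F₀} (ht : t ≠ 0) : uVec I t ≠ 0 := by
  intro h
  apply ht
  have h1 := congrFun h I.i₁
  have h2 := congrFun h I.i₂
  have h3 := congrFun h I.i₃
  simp [uVec, Pi.single_apply, I.h12, I.h13, I.h23, I.h12.symm, I.h13.symm, I.h23.symm]
    at h1 h2 h3
  exact Prod.ext h1 (Prod.ext h2 h3)

theorem uVec_dot (I : Idx4 n) (t : F₀ × F₀ × F₀) :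
    (Pi.single I.k₀ 1 : Fin n → F) ⬝ᵥ uVec I t = 0 := by
  rw [single_one_dotProduct, uVec_k₀]

/-- The rational transvection with parameters `t`. -/
noncomputable def rho (I : Idx4 n) (t : F₀ × F₀ × F₀) : GL (Fin n) F :=
  genTv (uVec I t) (Pi.single I.k₀ 1) (uVec_dot I t)

theorem rho_mulVec (I : Idx4 n) (t : F₀ × F₀ × F₀) (x : Fin n → F) :
    (rho I t : Matrix (Fin n) (Fin n) F) *ᵥ x = x + x I.k₀ • uVec I t := by
  rw [rho, genTv_mulVec, single_one_dotProduct]

theorem rho_mem (I : Idx4 n) (t : F₀ × F₀ × F₀) : rho I t ∈ sfH F₀ n := by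
  refine genTv_mem_sfH F₀ _ _ _ (uVec_rat I t) ?_
  intro i
  rw [Pi.single_apply]
  split_ifs
  · exact one_mem _
  · exact zero_mem _

theorem rho_add (I : Idx4 n) (s t : F₀ × F₀ × F₀) : rho I (s + t) = rho I s * rho I t := by
  apply sf_gl_ext
  intro x
  rw [Units.val_mul, ← Matrix.mulVec_mulVec, rho_mulVec, rho_mulVec, rho_mulVec, uVec_add]
  funext i
  simp [uVec_k₀]
  ring

theorem rho_zero (I : Idx4 n) : rho I (0 : F₀ × F₀ × F₀) = 1 := by
  apply sf_gl_ext
  intro x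
  rw [rho_mulVec, uVec_zero]
  simp

theorem rho_val (I : Idx4 n) (t : F₀ × F₀ × F₀) :
    (rho I t : Matrix (Fin n) (Fin n) F)
      = 1 + ((t.1 : F) • single I.i₁ I.k₀ 1 + (t.2.1 : F) • single I.i₂ I.k₀ 1
        + (t.2.2 : F) • single I.i₃ I.k₀ 1) := by
  rw [rho, genTv_val]
  congr 1
  ext a b
  simp only [uVec, vecMulVec_apply, Matrix.add_apply, Matrix.smul_apply, Matrix.single_apply,
    Pi.add_apply, Pi.smul_apply, Pi.single_apply, smul_eq_mul]
  by_cases hb : b = I.k₀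
  · by_cases ha1 : a = I.i₁ <;> by_cases ha2 : a = I.i₂ <;> by_cases ha3 : a = I.i₃ <;>
      simp [hb, ha1, ha2, ha3, eq_comm]
  · have hb' : ¬ I.k₀ = b := fun h => hb h.symm
    simp [hb, hb']

theorem rho_inv (I : Idx4 n) (t : F₀ × F₀ × F₀) : (rho I t)⁻¹ = rho I (-t) := by
  rw [inv_eq_iff_mul_eq_one, ← rho_add, add_neg_cancel, rho_zero]

theorem rho_inv_val (I : Idx4 n) (t : F₀ × F₀ × F₀) :
    (((rho I t)⁻¹ : GL (Fin n) F) : Matrix (Fin n) (Fin n) F)
      = 1 - ((t.1 : F) • single I.i₁ I.k₀ 1 + (t.2.1 : F) • single I.i₂ I.k₀ 1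
        + (t.2.2 : F) • single I.i₃ I.k₀ 1) := by
  rw [rho_inv, rho_val]
  simp [neg_smul]
  abel

theorem sf_single_mulVec (i j : Fin n) (c : F) (x : Fin n → F) :
    single i j c *ᵥ x = (c * x j) • Pi.single i 1 := by
  ext k
  simp [Matrix.single_mulVec, Function.update_apply, Pi.single_apply]

theorem sf_mat_ext {A B : Matrix (Fin n) (Fin n) F} (h : ∀ x, A *ᵥ x = B *ᵥ x) : A = B := by
  ext i j
  have h1 := congrFun (h (Pi.single j 1)) i
  simpa [Matrix.mulVec_single_one] using h1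

theorem rho_conj_single (I : Idx4 n) (t : F₀ × F₀ × F₀) (θ : F) :
    (rho I t : Matrix (Fin n) (Fin n) F) * single I.i₁ I.k₀ θ
        * (((rho I t)⁻¹ : GL (Fin n) F) : Matrix (Fin n) (Fin n) F)
      = single I.i₁ I.k₀ θ := by
  have h1 : (rho I t : Matrix (Fin n) (Fin n) F) * single I.i₁ I.k₀ θ
      = single I.i₁ I.k₀ θ * (rho I t : Matrix (Fin n) (Fin n) F) := by
    apply sf_mat_ext
    intro x
    rw [← Matrix.mulVec_mulVec, ← Matrix.mulVec_mulVec, rho_mulVec, rho_mulVec,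
      sf_single_mulVec, sf_single_mulVec]
    funext i
    simp [uVec_k₀, Pi.single_apply, I.h1k.symm]
  rw [h1, Matrix.mul_assoc, Units.mul_inv, Matrix.mul_one]

/-! ### The averaging operator -/

section Avg

open Classical

variable [Fintype (GL (Fin n) F ⧸ sfH F₀ n)]

/-- The cosets of the subfield group meeting `M`. -/
noncomputable def sfQ (F₀ : Subfield F) (M : Subgroup (GL (Fin n) F))
    [Fintype (GL (Fin n) F ⧸ sfH F₀ n)] : Finset (GL (Fin n) F ⧸ sfH F₀ n) :=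
  Finset.univ.filter
    (fun q => ∃ g ∈ M, (QuotientGroup.mk g : GL (Fin n) F ⧸ sfH F₀ n) = q)

theorem mem_sfQ {M : Subgroup (GL (Fin n) F)} {q : GL (Fin n) F ⧸ sfH F₀ n} :
    q ∈ sfQ F₀ M ↔ ∃ g ∈ M, (QuotientGroup.mk g : GL (Fin n) F ⧸ sfH F₀ n) = q := by
  simp [sfQ]

theorem smul_mem_sfQ {M : Subgroup (GL (Fin n) F)} {m : GL (Fin n) F} (hm : m ∈ M)
    (q : GL (Fin n) F ⧸ sfH F₀ n) : q ∈ sfQ F₀ M ↔ m • q ∈ sfQ F₀ M := by
  rw [mem_sfQ, mem_sfQ]
  constructor
  · rintro ⟨g, hg, rfl⟩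
    exact ⟨m * g, M.mul_mem hm hg, rfl⟩
  · rintro ⟨g, hg, hgq⟩
    refine ⟨m⁻¹ * g, M.mul_mem (M.inv_mem hm) hg, ?_⟩
    have h1 : (QuotientGroup.mk (m⁻¹ * g) : GL (Fin n) F ⧸ sfH F₀ n)
        = m⁻¹ • (QuotientGroup.mk g : GL (Fin n) F ⧸ sfH F₀ n) := rfl
    rw [h1, hgq, inv_smul_smul]

/-- The averaging operator: the sum of the conjugated retractions over the cosets in `M`. -/
noncomputable def sfE (F₀ : Subfield F) (M : Subgroup (GL (Fin n) F)) (i₀ : Fin n)
    [Fintype (GL (Fin n) F ⧸ sfH F₀ n)] :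
    Matrix (Fin n) (Fin n) F →+ Matrix (Fin n) (Fin n) F where
  toFun X := ∑ q ∈ sfQ F₀ M, sfF F₀ i₀ X q
  map_zero' := by simp [sfF_zero]
  map_add' X Y := by simp [sfF_add, Finset.sum_add_distrib]

theorem sfE_apply (M : Subgroup (GL (Fin n) F)) (i₀ : Fin n) (X : Matrix (Fin n) (Fin n) F) :
    sfE F₀ M i₀ X = ∑ q ∈ sfQ F₀ M, sfF F₀ i₀ X q := rfl

theorem sfE_conj {M : Subgroup (GL (Fin n) F)} (i₀ : Fin n) {m : GL (Fin n) F} (hm : m ∈ M)
    (X : Matrix (Fin n) (Fin n) F) :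
    sfE F₀ M i₀ ((m : Matrix (Fin n) (Fin n) F) * X
        * ((m⁻¹ : GL (Fin n) F) : Matrix (Fin n) (Fin n) F))
      = (m : Matrix (Fin n) (Fin n) F) * sfE F₀ M i₀ X
        * ((m⁻¹ : GL (Fin n) F) : Matrix (Fin n) (Fin n) F) := by
  rw [sfE_apply, sfE_apply, Finset.mul_sum, Finset.sum_mul]
  simp only [sfF_conj]
  exact Finset.sum_equiv (MulAction.toPerm (m⁻¹ : GL (Fin n) F))
    (fun q => smul_mem_sfQ (M.inv_mem hm) q) (fun q _ => rfl)

variable {M : Subgroup (GL (Fin n) F)}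

/-- The averaging operator agrees with the retraction on the root elements `θ E_{i₁ k₀}`. -/
theorem sfE_root [Finite F] [Fintype F₀] (hc : SFCtx F₀ M) (I : Idx4 n) (θ : F) :
    sfE F₀ M I.k₀ (single I.i₁ I.k₀ θ) = sfPi F₀ n (single I.i₁ I.k₀ θ) := by
  set X : Matrix (Fin n) (Fin n) F := single I.i₁ I.k₀ θ with hX
  have h1mem : (QuotientGroup.mk 1 : GL (Fin n) F ⧸ sfH F₀ n) ∈ sfQ F₀ M :=
    mem_sfQ.mpr ⟨1, M.one_mem, rfl⟩
  rw [sfE_apply, ← Finset.add_sum_erase _ _ h1mem, sfF_mk, sfPiAt_one]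
  have hrest : ∑ q ∈ (sfQ F₀ M).erase (QuotientGroup.mk 1), sfF F₀ I.k₀ X q = 0 := by
    refine orbit_sum_zero (A := F₀ × F₀ × F₀) (fun t q => rho I t • q) ?_ ?_
      (sfF F₀ I.k₀ X) ?_ _ _ rfl ?_ ?_
    · intro q
      show rho I (0 : F₀ × F₀ × F₀) • q = q
      rw [rho_zero, one_smul]
    · intro a b q
      show rho I (a + b) • q = rho I a • (rho I b • q)
      rw [rho_add, mul_smul]
    · intro q
      induction q using QuotientGroup.induction_on with
      | H g =>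
        have hterm : ∀ t : F₀ × F₀ × F₀,
            sfF F₀ I.k₀ X (rho I t • (QuotientGroup.mk g : GL (Fin n) F ⧸ sfH F₀ n))
              = (rho I t : Matrix (Fin n) (Fin n) F) * sfPiAt F₀ g X
                * (((rho I t)⁻¹ : GL (Fin n) F) : Matrix (Fin n) (Fin n) F) := by
          intro t
          have h1 := sfF_conj I.k₀ (rho I t) X
            (rho I t • (QuotientGroup.mk g : GL (Fin n) F ⧸ sfH F₀ n))
          rw [inv_smul_smul, sfF_mk, hX, rho_conj_single] at h1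
          exact h1
        simp only [hterm, rho_val, rho_inv_val]
        exact lemN F₀ _ _ _ _
    · intro t q hq
      rw [Finset.mem_erase] at hq ⊢
      refine ⟨fun h => hq.1 ?_, (smul_mem_sfQ (hc.le (rho_mem I t)) q).mp hq.2⟩
      have h2 : q = (rho I t)⁻¹ • (QuotientGroup.mk 1 : GL (Fin n) F ⧸ sfH F₀ n) := by
        rw [← h, inv_smul_smul]
      rw [h2, MulAction.Quotient.smul_mk, smul_eq_mul, mul_one]
      exact QuotientGroup.eq.mpr (by simpa using rho_mem I t)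
    · intro t q hq hfix
      by_contra ht
      rw [Finset.mem_erase] at hq
      obtain ⟨g, hg, rfl⟩ := mem_sfQ.mp hq.2
      apply hq.1
      have hfix' : (QuotientGroup.mk (rho I t * g) : GL (Fin n) F ⧸ sfH F₀ n)
          = QuotientGroup.mk g := hfix
      have h1 : (rho I t * g)⁻¹ * g ∈ sfH F₀ n := QuotientGroup.eq.mp hfix'
      have h2 : g⁻¹ * rho I t * g ∈ sfH F₀ n := by
        have h3 := (sfH F₀ n).inv_mem h1
        have e : ((rho I t * g)⁻¹ * g)⁻¹ = g⁻¹ * rho I t * g := by group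
        rwa [e] at h3
      have h3 := lemD hc hg (uVec I t) (uVec_rat I t) (uVec_ne I ht) I.k₀ (uVec_k₀ I t)
        (rho I t) (rho_mulVec I t) h2
      exact QuotientGroup.eq.mpr (by simpa using h3)
  rw [hrest, add_zero]

/-- The matrices on which the averaging operator agrees with the retraction. -/
noncomputable def sfP (F₀ : Subfield F) (M : Subgroup (GL (Fin n) F)) (i₀ : Fin n)
    [Fintype (GL (Fin n) F ⧸ sfH F₀ n)] : AddSubgroup (Matrix (Fin n) (Fin n) F) :=
  (sfE F₀ M i₀).eqLocus (sfPi F₀ n)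

theorem mem_sfP {i₀ : Fin n} {X : Matrix (Fin n) (Fin n) F} :
    X ∈ sfP F₀ M i₀ ↔ sfE F₀ M i₀ X = sfPi F₀ n X := Iff.rfl

theorem sfP_conj (hle : sfH F₀ n ≤ M) (i₀ : Fin n) {h : GL (Fin n) F} (hh : h ∈ sfH F₀ n)
    {X Y : Matrix (Fin n) (Fin n) F} (hX : X ∈ sfP F₀ M i₀)
    (hXY : (h : Matrix (Fin n) (Fin n) F) * X = Y * (h : Matrix (Fin n) (Fin n) F)) :
    Y ∈ sfP F₀ M i₀ := by
  have hY : Y = (h : Matrix (Fin n) (Fin n) F) * X
      * ((h⁻¹ : GL (Fin n) F) : Matrix (Fin n) (Fin n) F) := by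
    rw [hXY, Matrix.mul_assoc, Units.mul_inv, Matrix.mul_one]
  rw [mem_sfP] at hX ⊢
  rw [hY, sfE_conj i₀ (hle hh), hX]
  have h1 := sfPi_conj i₀ ((subfieldSubgroup F₀ (1 : GL (Fin n) F)).inv_mem hh.1) X
  rw [inv_inv] at h1
  exact h1.symm

theorem sfP_row (hle : sfH F₀ n ≤ M) (i₀ : Fin n) {i j k : Fin n} (hki : k ≠ i) (hkj : k ≠ j)
    (θ : F) (h : single i j θ ∈ sfP F₀ M i₀) : single k j θ ∈ sfP F₀ M i₀ := by
  have h1 : single i j θ + single k j θ ∈ sfP F₀ M i₀ := by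
    refine sfP_conj hle i₀ (elemTv_mem_sfH F₀ k i hki 1 (one_mem _)) h ?_
    rw [elemTv_val, Matrix.transvection]
    simp [mul_add, add_mul, Matrix.single_mul_single_of_ne, hkj.symm]
  have h2 := (sfP F₀ M i₀).sub_mem h1 h
  rwa [add_sub_cancel_left] at h2

theorem sfP_col (hle : sfH F₀ n ≤ M) (i₀ : Fin n) {i j l : Fin n} (hli : l ≠ i) (hlj : l ≠ j)
    (θ : F) (h : single i j θ ∈ sfP F₀ M i₀) : single i l θ ∈ sfP F₀ M i₀ := by
  have h1 : single i j θ - single i l θ ∈ sfP F₀ M i₀ := by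
    refine sfP_conj hle i₀ (elemTv_mem_sfH F₀ j l hlj.symm 1 (one_mem _)) h ?_
    rw [elemTv_val, Matrix.transvection]
    simp [mul_add, add_mul, sub_mul, Matrix.single_mul_single_of_ne, hli, hlj]
  have h2 := (sfP F₀ M i₀).sub_mem h h1
  rwa [sub_sub_cancel] at h2

theorem sfP_diag (hle : sfH F₀ n ≤ M) (i₀ : Fin n) {i j : Fin n} (hij : i ≠ j) (θ : F)
    (h : single i j θ ∈ sfP F₀ M i₀) (h' : single j i θ ∈ sfP F₀ M i₀) :
    single j j θ - single i i θ ∈ sfP F₀ M i₀ := by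
  have h1 : single i j θ + single j j θ - single i i θ - single j i θ ∈ sfP F₀ M i₀ := by
    refine sfP_conj hle i₀ (elemTv_mem_sfH F₀ j i hij.symm 1 (one_mem _)) h ?_
    rw [elemTv_val, Matrix.transvection]
    simp [mul_add, add_mul, sub_mul, Matrix.single_mul_single_of_ne, hij, hij.symm]
  have h2 := (sfP F₀ M i₀).add_mem ((sfP F₀ M i₀).sub_mem h1 h) h'
  have e : single i j θ + single j j θ - single i i θ - single j i θ - single i j θ + single j i θ
      = single j j θ - single i i θ := by abel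
  rwa [e] at h2

theorem sf_pair_spread (hn : 3 ≤ n) (P : Fin n → Fin n → Prop)
    (col : ∀ a b l : Fin n, a ≠ b → a ≠ l → b ≠ l → P a b → P a l)
    (row : ∀ a b k : Fin n, a ≠ b → k ≠ a → k ≠ b → P a b → P k b)
    {i j : Fin n} (hij : i ≠ j) (h : P i j) (k l : Fin n) (hkl : k ≠ l) : P k l := by
  have hα : ∀ l : Fin n, i ≠ l → P i l := by
    intro l hil
    by_cases hlj : l = j
    · rw [hlj]; exact h
    · exact col i j l hij hil (Ne.symm hlj) h
  have hβ : ∀ k l : Fin n, k ≠ l → l ≠ i → P k l := by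
    intro k l hkl hli
    by_cases hki : k = i
    · rw [hki]; exact hα l (Ne.symm hli)
    · exact row i l k (Ne.symm hli) hki hkl (hα l (Ne.symm hli))
  have hγ : ∀ k : Fin n, k ≠ i → P k i := by
    intro k hki
    obtain ⟨m, hmi, hmk⟩ := sf_exists_ne2 hn i k
    exact col k m i (Ne.symm hmk) hki hmi (hβ k m (Ne.symm hmk) hmi)
  by_cases hli : l = i
  · rw [hli]; exact hγ k (hli ▸ hkl)
  · exact hβ k l hkl hli

theorem sfP_of_trace_zero {i₀ : Fin n}
    (hoff : ∀ i j : Fin n, i ≠ j → ∀ θ : F, single i j θ ∈ sfP F₀ M i₀)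
    (hdiag : ∀ (i : Fin n) (θ : F), single i i θ - single i₀ i₀ θ ∈ sfP F₀ M i₀)
    (X : Matrix (Fin n) (Fin n) F) (hX : X.trace = 0) : X ∈ sfP F₀ M i₀ := by
  have hdecomp : X = ∑ i, ∑ j, (if i = j then single i i (X i i) - single i₀ i₀ (X i i)
      else single i j (X i j)) := by
    have hterm : ∀ i j : Fin n, single i j (X i j)
        - (if i = j then single i i (X i i) - single i₀ i₀ (X i i) else single i j (X i j))
        = if i = j then single i₀ i₀ (X i i) else 0 := by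
      intro i j
      split_ifs with h
      · subst h; abel
      · abel
    have hsum : ∑ i, single i₀ i₀ (X i i) = (0 : Matrix (Fin n) (Fin n) F) := by
      have h1 : ∑ i, single i₀ i₀ (X i i) = single i₀ i₀ (∑ i, X i i) :=
        (map_sum (Matrix.singleAddMonoidHom i₀ i₀) (fun i => X i i) Finset.univ).symm
      have h2 : ∑ i, X i i = 0 := hX
      rw [h1, h2, Matrix.single_zero]
    conv_lhs => rw [matrix_eq_sum_single X]
    rw [← sub_eq_zero, ← Finset.sum_sub_distrib]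
    simp only [← Finset.sum_sub_distrib, hterm, Finset.sum_ite_eq, Finset.mem_univ, if_true]
    exact hsum
  rw [hdecomp]
  refine sum_mem fun i _ => sum_mem fun j _ => ?_
  split_ifs with h
  · exact hdiag i _
  · exact hoff i j h _

end Avg

theorem sf_exists_row_entry (g : GL (Fin n) F) (k₀ : Fin n) :
    ∃ m, (g : Matrix (Fin n) (Fin n) F) k₀ m ≠ 0 := by
  by_contra hcon
  push Not at hcon
  have h1 := congrFun (mulVec_cancel_inv g (Pi.single k₀ 1)) k₀
  rw [Matrix.mulVec, dotProduct, Pi.single_eq_same] at h1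
  rw [Finset.sum_eq_zero (fun m _ => by rw [hcon m, zero_mul])] at h1
  exact zero_ne_one h1

/-- Step 2: an overgroup of the subfield group inside `SL_n` all of whose elementary
transvections are rational is the subfield group. -/
theorem sf_step2 [Fintype F] {M : Subgroup (GL (Fin n) F)} (hc : SFCtx F₀ M) :
    M ≤ sfH F₀ n := by
  classical
  haveI : Fintype F₀ := Fintype.ofFinite _
  haveI : Fintype (GL (Fin n) F ⧸ sfH F₀ n) := Fintype.ofFinite _
  have hn3 : 3 ≤ n := le_trans (by norm_num) hc.four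
  set I := idx4 hc.four with hI
  have hoff : ∀ i j : Fin n, i ≠ j → ∀ θ : F, single i j θ ∈ sfP F₀ M I.k₀ := by
    intro i j hij
    refine sf_pair_spread hn3 (fun a b => ∀ θ : F, single a b θ ∈ sfP F₀ M I.k₀) ?_ ?_ I.h1k
      (fun θ => mem_sfP.mpr (sfE_root hc I θ)) i j hij
    · intro a b l hab hal hbl h θ
      exact sfP_col hc.le I.k₀ (Ne.symm hal) (Ne.symm hbl) θ (h θ)
    · intro a b k hab hka hkb h θ
      exact sfP_row hc.le I.k₀ hka hkb θ (h θ)
  have hdiag : ∀ (i : Fin n) (θ : F), single i i θ - single I.k₀ I.k₀ θ ∈ sfP F₀ M I.k₀ := by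
    intro i θ
    by_cases hi : i = I.k₀
    · rw [hi, sub_self]
      exact zero_mem _
    · exact sfP_diag hc.le I.k₀ (Ne.symm hi) θ (hoff _ _ (Ne.symm hi) θ) (hoff _ _ hi θ)
  intro m hm
  set S : Matrix (Fin n) (Fin n) F := single I.i₁ I.k₀ 1 with hS
  set mi : Matrix (Fin n) (Fin n) F := ((m⁻¹ : GL (Fin n) F) : Matrix (Fin n) (Fin n) F)
    with hmi
  set Y : Matrix (Fin n) (Fin n) F := (m : Matrix (Fin n) (Fin n) F) * S * mi with hY
  have htr : Y.trace = 0 := by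
    rw [hY, Matrix.trace_mul_comm, ← Matrix.mul_assoc, hmi, Units.inv_mul, Matrix.one_mul, hS,
      Matrix.trace_single_eq_of_ne _ _ _ I.h1k]
  have hYP : Y ∈ sfP F₀ M I.k₀ := sfP_of_trace_zero hoff hdiag Y htr
  have hSP : S ∈ sfP F₀ M I.k₀ := hoff _ _ I.h1k 1
  have hSrat : S ∈ ratMat F₀ n := by
    intro a b
    rw [hS, Matrix.single_apply]
    split_ifs
    · exact one_mem _
    · exact zero_mem _
  have hEY : sfE F₀ M I.k₀ Y = Y := by
    rw [hY, hmi, sfE_conj I.k₀ hm, mem_sfP.mp hSP, sfPi_rat hSrat]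
  have hYrat : Y ∈ ratMat F₀ n :=
    mem_ratMat_of_sfPi_eq (by rw [← mem_sfP.mp hYP]; exact hEY)
  have hYx : ∀ x : Fin n → F, Y *ᵥ x
      = (mi *ᵥ x) I.k₀ • ((m : Matrix (Fin n) (Fin n) F) *ᵥ Pi.single I.i₁ 1) := by
    intro x
    rw [hY, ← Matrix.mulVec_mulVec, ← Matrix.mulVec_mulVec, hS, sf_single_mulVec,
      Matrix.mulVec_smul, one_mul]
  have hYent : ∀ a b : Fin n, Y a b = mi I.k₀ b * (m : Matrix (Fin n) (Fin n) F) a I.i₁ := by
    intro a b
    have h1 := congrFun (hYx (Pi.single b 1)) a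
    simpa [Matrix.mulVec_single_one] using h1
  obtain ⟨b, hb⟩ := sf_exists_row_entry m⁻¹ I.k₀
  set w : Fin n → F := mi I.k₀ b • ((m : Matrix (Fin n) (Fin n) F) *ᵥ Pi.single I.i₁ 1) with hw
  have hwrat : ∀ a, w a ∈ F₀ := by
    intro a
    have h1 := hYrat a b
    rw [hYent] at h1
    have h2 : w a = mi I.k₀ b * (m : Matrix (Fin n) (Fin n) F) a I.i₁ := by
      rw [hw, Pi.smul_apply, smul_eq_mul, Matrix.mulVec_single_one]
      rfl
    rw [h2]
    exact h1
  have hwne : w ≠ 0 := by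
    intro h
    have h1 : (m : Matrix (Fin n) (Fin n) F) *ᵥ Pi.single I.i₁ 1 = 0 := by
      have h2 : (mi I.k₀ b)⁻¹ • w = 0 := by rw [h, smul_zero]
      rwa [hw, smul_smul, inv_mul_cancel₀ hb, one_smul] at h2
    have h3 := mulVec_inv_cancel m (Pi.single I.i₁ 1)
    rw [h1, Matrix.mulVec_zero] at h3
    have h4 := congrFun h3 I.i₁
    simp at h4
  exact lemB' hc hm I.i₁ (mi I.k₀ b)⁻¹ w hwrat hwne
    (by rw [hw, smul_smul, inv_mul_cancel₀ hb, one_smul])

/-- The subfield subgroup of `SL_n` (standard position) is maximal, for a subfield of prime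
index and `n ≥ 4`. -/
theorem sf_maximal_one [Fintype F] (hn : 4 ≤ n) (F₀ : Subfield F) (r : ℕ) (hr : r.Prime)
    (hcard : Fintype.card F = Nat.card F₀ ^ r) :
    IsMaximalIn (specialLinear (Fin n) F) (sfH F₀ n) := by
  constructor
  · refine lt_of_le_of_ne inf_le_right (fun h => ?_)
    have h1 : sfH F₀ n ≤ subfieldSubgroup F₀ (1 : GL (Fin n) F) := inf_le_left
    rw [h] at h1
    exact notSL_subfield (by omega) F₀ (subfield_ne_top_of_card F₀ r hr hcard) 1 h1
  · intro M hHM hMS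
    by_cases hex : ∃ (i j : Fin n) (hij : i ≠ j) (c : F), elemTv i j hij c ∈ M ∧ c ∉ F₀
    · obtain ⟨i, j, hij, c, hcM, hcF⟩ := hex
      right
      exact le_antisymm hMS (sf_step1 (by omega) F₀ r hr hcard M hHM i j hij c hcF hcM)
    · left
      have hrat : ∀ (i j : Fin n) (hij : i ≠ j) (c : F), elemTv i j hij c ∈ M → c ∈ F₀ := by
        intro i j hij c hcM
        by_contra hcF
        exact hex ⟨i, j, hij, c, hcM, hcF⟩
      exact le_antisymm (sf_step2 ⟨hn, hHM, hMS, hrat⟩) hHM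

theorem sf_isMaximalIn_map {G : Type*} [Group G] (φ : G ≃* G) {K H : Subgroup G}
    (h : IsMaximalIn K H) :
    IsMaximalIn (K.map φ.toMonoidHom) (H.map φ.toMonoidHom) := by
  have hinj : Function.Injective φ.toMonoidHom := φ.injective
  have hsurj : Function.Surjective φ.toMonoidHom := φ.surjective
  constructor
  · exact (Subgroup.map_lt_map_iff_of_injective hinj).mpr h.1
  · intro M hHM hMK
    have h1 : H ≤ M.comap φ.toMonoidHom := Subgroup.map_le_iff_le_comap.mp hHM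
    have h2 : M.comap φ.toMonoidHom ≤ K := by
      have h3 := Subgroup.comap_mono (f := φ.toMonoidHom) hMK
      rwa [Subgroup.comap_map_eq_self_of_injective hinj] at h3
    rcases h.2 _ h1 h2 with h3 | h3
    · left
      rw [← h3, Subgroup.map_comap_eq_self_of_surjective hsurj]
    · right
      rw [← h3, Subgroup.map_comap_eq_self_of_surjective hsurj]

/-- **Maximality of the subfield subgroups of `SL_n`** (`n ≥ 4`, subfield of prime index). -/
theorem sf_maximal [Fintype F] (hn : 4 ≤ n) (F₀ : Subfield F) (r : ℕ) (hr : r.Prime)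
    (hcard : Fintype.card F = Nat.card F₀ ^ r) (P : GL (Fin n) F) :
    IsMaximalIn (specialLinear (Fin n) F)
      (subfieldSubgroup F₀ P ⊓ specialLinear (Fin n) F) := by
  have h1 := sf_isMaximalIn_map (MulAut.conj P) (sf_maximal_one hn F₀ r hr hcard)
  have hSL : (specialLinear (Fin n) F).map (MulAut.conj P).toMonoidHom
      = specialLinear (Fin n) F := by
    have hN : (specialLinear (Fin n) F).Normal := by
      rw [specialLinear]; exact MonoidHom.normal_ker _
    apply le_antisymm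
    · rintro x ⟨y, hy, rfl⟩
      exact hN.conj_mem y hy P
    · intro x hx
      refine ⟨P⁻¹ * x * P, ?_, ?_⟩
      · have h2 := hN.conj_mem x hx P⁻¹
        rwa [inv_inv] at h2
      · simp only [MulEquiv.coe_toMonoidHom, MulAut.conj_apply]
        group
  have hsub : (sfH F₀ n).map (MulAut.conj P).toMonoidHom
      = subfieldSubgroup F₀ P ⊓ specialLinear (Fin n) F := by
    rw [sfH, Subgroup.map_inf _ _ _ (MulAut.conj P).injective, hSL]
    congr 1
    have h2 : subfieldSubgroup F₀ (1 : GL (Fin n) F)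
        = (Matrix.GeneralLinearGroup.map (F₀.subtype : F₀ →+* F)).range ⊔ scalars (Fin n) F := by
      rw [subfieldSubgroup, map_one]
      exact Subgroup.map_id _
    rw [h2]
    rfl
  rw [hSL, hsub] at h1
  exact h1

end Cfsg.Agent.Helper97.SF
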