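-- helper97 library: general-index copy of the rational-matrix basics of SFBasic (index type κ).
import Cfsg.Agent.Helper97.GBasic

set_option autoImplicit false
set_option linter.unusedSimpArgs false
set_option linter.unusedVariables false
open Cfsg Cfsg.Geo Matrix

namespace Cfsg.Agent.Helper97.SG

variable {κ : Type} [Fintype κ] [DecidableEq κ] {F : Type*} [Field F]

theorem sf_gl_ext {g h : GL κ F}
    (hgh : ∀ v, (g : Matrix κ κ F) *ᵥ v = (h : Matrix κ κ F) *ᵥ v) :
    g = h := by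
  apply Units.ext
  ext i j
  have h1 := congrFun (hgh (Pi.single j 1)) i
  simpa [Matrix.mulVec_single_one] using h1

/-- The matrices with all entries in the subfield `F₀`. -/
def ratMat (F₀ : Subfield F) (κ : Type) [Fintype κ] [DecidableEq κ] : Subring (Matrix κ κ F) where
  carrier := {X | ∀ i j, X i j ∈ F₀}
  mul_mem' := by
    intro X Y hX hY i j
    rw [Matrix.mul_apply]
    exact sum_mem fun k _ => mul_mem (hX i k) (hY k j)
  one_mem' := by
    intro i j
    rw [Matrix.one_apply]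
    split_ifs
    · exact one_mem _
    · exact zero_mem _
  add_mem' := fun hX hY i j => add_mem (hX i j) (hY i j)
  zero_mem' := fun i j => zero_mem _
  neg_mem' := fun hX i j => neg_mem (hX i j)

theorem mem_ratMat {F₀ : Subfield F} {X : Matrix κ κ F} :
    X ∈ ratMat F₀ κ ↔ ∀ i j, X i j ∈ F₀ := Iff.rfl

theorem smul_mem_ratMat {F₀ : Subfield F} {X : Matrix κ κ F} (hX : X ∈ ratMat F₀ κ)
    {c : F} (hc : c ∈ F₀) : c • X ∈ ratMat F₀ κ := fun i j => mul_mem hc (hX i j)

theorem mem_subfieldSubgroup_one (F₀ : Subfield F) (g : GL κ F) :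
    g ∈ subfieldSubgroup F₀ (1 : GL κ F) ↔
      ∃ c : F, c ≠ 0 ∧ c • (g : Matrix κ κ F) ∈ ratMat F₀ κ := by
  constructor
  · intro hmem
    rw [subfieldSubgroup, Subgroup.mem_map] at hmem
    obtain ⟨y, hy, hyg⟩ := hmem
    have hyg' : y = g := by simpa using hyg
    rw [hyg'] at hy
    obtain ⟨a, ha, b, hb, hab⟩ := Subgroup.mem_sup_of_normal_right.mp hy
    obtain ⟨a', rfl⟩ := ha
    obtain ⟨d, hd⟩ := (mem_scalars_iff b).mp hb
    have hval : (g : Matrix κ κ F)
        = (d : F) • ((a' : Matrix κ κ F₀).map (F₀.subtype)) := by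
      rw [← hab, Units.val_mul, hd, Matrix.mul_smul, Matrix.mul_one]
      rfl
    refine ⟨(d : F)⁻¹, inv_ne_zero d.ne_zero, ?_⟩
    rw [hval, smul_smul, inv_mul_cancel₀ d.ne_zero, one_smul]
    intro i j
    exact SetLike.coe_mem _
  · rintro ⟨c, hc0, hrat⟩
    set X : Matrix κ κ F := c • (g : Matrix κ κ F) with hX
    set X₁ : Matrix κ κ F₀ := fun i j => ⟨X i j, hrat i j⟩ with hX₁
    have hXc : X = X₁.map F₀.subtype := by ext i j; rfl
    have hdetX : X.det ≠ 0 := by
      rw [hX, Matrix.det_smul]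
      have : (g : Matrix κ κ F).det ≠ 0 := (Matrix.isUnits_det_units g).ne_zero
      exact mul_ne_zero (pow_ne_zero _ hc0) this
    have hdet1 : X₁.det ≠ 0 := by
      intro h0
      apply hdetX
      rw [hXc]
      have : (X₁.map F₀.subtype).det = F₀.subtype X₁.det := (RingHom.map_det F₀.subtype X₁).symm
      rw [this, h0, map_zero]
    set g₀ : GL κ F₀ := Matrix.GeneralLinearGroup.mkOfDetNeZero X₁ hdet1 with hg₀
    have hzdet : (c⁻¹ • (1 : Matrix κ κ F)).det ≠ 0 := by
      rw [Matrix.det_smul, Matrix.det_one, mul_one]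
      exact pow_ne_zero _ (inv_ne_zero hc0)
    set z : GL κ F :=
      Matrix.GeneralLinearGroup.mkOfDetNeZero (c⁻¹ • (1 : Matrix κ κ F)) hzdet with hz
    have hzmem : z ∈ scalars κ F :=
      (mem_scalars_iff z).mpr ⟨Units.mk0 c⁻¹ (inv_ne_zero hc0), rfl⟩
    have hprod : g = Matrix.GeneralLinearGroup.map (F₀.subtype : F₀ →+* F) g₀ * z := by
      apply Units.ext
      rw [Units.val_mul]
      change (g : Matrix κ κ F)
        = X₁.map F₀.subtype * (c⁻¹ • (1 : Matrix κ κ F))
      rw [Matrix.mul_smul, mul_one, ← hXc, hX, smul_smul, inv_mul_cancel₀ hc0, one_smul]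
    have hmem : Matrix.GeneralLinearGroup.map (F₀.subtype : F₀ →+* F) g₀ * z ∈
        (Matrix.GeneralLinearGroup.map (F₀.subtype : F₀ →+* F)).range ⊔ scalars κ F :=
      Subgroup.mul_mem _ (Subgroup.mem_sup_left ⟨g₀, rfl⟩) (Subgroup.mem_sup_right hzmem)
    rw [← hprod] at hmem
    rw [subfieldSubgroup, Subgroup.mem_map]
    exact ⟨g, hmem, by simp⟩


end Cfsg.Agent.Helper97.SG
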