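-- helper97 library: general-index copy of the averaging operator of SFMax.
import Cfsg.Agent.Helper97.SGTrace

set_option autoImplicit false
set_option linter.unusedSimpArgs false
set_option linter.unusedVariables false
open Cfsg Cfsg.Geo Matrix

namespace Cfsg.Agent.Helper97.SG

variable {κ : Type} [Fintype κ] [DecidableEq κ] {F : Type*} [Field F]

variable {F₀ : Subfield F}

section Avg

open Classical

variable [Fintype (GL κ F ⧸ subfieldSubgroup F₀ (1 : GL κ F))]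

/-- The cosets of the subfield group meeting `M`. -/
noncomputable def sfQ (F₀ : Subfield F) (M : Subgroup (GL κ F))
    [Fintype (GL κ F ⧸ subfieldSubgroup F₀ (1 : GL κ F))] : Finset (GL κ F ⧸ subfieldSubgroup F₀ (1 : GL κ F)) :=
  Finset.univ.filter
    (fun q => ∃ g ∈ M, (QuotientGroup.mk g : GL κ F ⧸ subfieldSubgroup F₀ (1 : GL κ F)) = q)

theorem mem_sfQ {M : Subgroup (GL κ F)} {q : GL κ F ⧸ subfieldSubgroup F₀ (1 : GL κ F)} :
    q ∈ sfQ F₀ M ↔ ∃ g ∈ M, (QuotientGroup.mk g : GL κ F ⧸ subfieldSubgroup F₀ (1 : GL κ F)) = q := by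
  simp [sfQ]

theorem smul_mem_sfQ {M : Subgroup (GL κ F)} {m : GL κ F} (hm : m ∈ M)
    (q : GL κ F ⧸ subfieldSubgroup F₀ (1 : GL κ F)) : q ∈ sfQ F₀ M ↔ m • q ∈ sfQ F₀ M := by
  rw [mem_sfQ, mem_sfQ]
  constructor
  · rintro ⟨g, hg, rfl⟩
    exact ⟨m * g, M.mul_mem hm hg, rfl⟩
  · rintro ⟨g, hg, hgq⟩
    refine ⟨m⁻¹ * g, M.mul_mem (M.inv_mem hm) hg, ?_⟩
    have h1 : (QuotientGroup.mk (m⁻¹ * g) : GL κ F ⧸ subfieldSubgroup F₀ (1 : GL κ F))
        = m⁻¹ • (QuotientGroup.mk g : GL κ F ⧸ subfieldSubgroup F₀ (1 : GL κ F)) := rfl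
    rw [h1, hgq, inv_smul_smul]

/-- The averaging operator: the sum of the conjugated retractions over the cosets in `M`. -/
noncomputable def sfE (F₀ : Subfield F) (M : Subgroup (GL κ F)) (i₀ : κ)
    [Fintype (GL κ F ⧸ subfieldSubgroup F₀ (1 : GL κ F))] :
    Matrix κ κ F →+ Matrix κ κ F where
  toFun X := ∑ q ∈ sfQ F₀ M, sfF F₀ i₀ X q
  map_zero' := by simp [sfF_zero]
  map_add' X Y := by simp [sfF_add, Finset.sum_add_distrib]

theorem sfE_apply (M : Subgroup (GL κ F)) (i₀ : κ) (X : Matrix κ κ F) :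
    sfE F₀ M i₀ X = ∑ q ∈ sfQ F₀ M, sfF F₀ i₀ X q := rfl

theorem sfE_conj {M : Subgroup (GL κ F)} (i₀ : κ) {m : GL κ F} (hm : m ∈ M)
    (X : Matrix κ κ F) :
    sfE F₀ M i₀ ((m : Matrix κ κ F) * X
        * ((m⁻¹ : GL κ F) : Matrix κ κ F))
      = (m : Matrix κ κ F) * sfE F₀ M i₀ X
        * ((m⁻¹ : GL κ F) : Matrix κ κ F) := by
  rw [sfE_apply, sfE_apply, Finset.mul_sum, Finset.sum_mul]
  simp only [sfF_conj]
  exact Finset.sum_equiv (MulAction.toPerm (m⁻¹ : GL κ F))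
    (fun q => smul_mem_sfQ (M.inv_mem hm) q) (fun q _ => rfl)

/-- The matrices on which the averaging operator agrees with the retraction. -/
noncomputable def sfP (F₀ : Subfield F) (M : Subgroup (GL κ F)) (i₀ : κ)
    [Fintype (GL κ F ⧸ subfieldSubgroup F₀ (1 : GL κ F))] : AddSubgroup (Matrix κ κ F) :=
  (sfE F₀ M i₀).eqLocus (sfPi F₀ κ)

theorem mem_sfP {M : Subgroup (GL κ F)} {i₀ : κ} {X : Matrix κ κ F} :
    X ∈ sfP F₀ M i₀ ↔ sfE F₀ M i₀ X = sfPi F₀ κ X := Iff.rfl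


theorem sfP_conj {M : Subgroup (GL κ F)} (i₀ : κ) {h : GL κ F} (hhM : h ∈ M)
    (hh : h ∈ subfieldSubgroup F₀ (1 : GL κ F))
    {X Y : Matrix κ κ F} (hX : X ∈ sfP F₀ M i₀)
    (hXY : (h : Matrix κ κ F) * X = Y * (h : Matrix κ κ F)) :
    Y ∈ sfP F₀ M i₀ := by
  have hY : Y = (h : Matrix κ κ F) * X
      * ((h⁻¹ : GL κ F) : Matrix κ κ F) := by
    rw [hXY, Matrix.mul_assoc, Units.mul_inv, Matrix.mul_one]
  rw [mem_sfP] at hX ⊢
  rw [hY, sfE_conj i₀ hhM, hX]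
  have h1 := sfPi_conj i₀ ((subfieldSubgroup F₀ (1 : GL κ F)).inv_mem hh) X
  rw [inv_inv] at h1
  exact h1.symm

end Avg

end Cfsg.Agent.Helper97.SG
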