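-- helper97 library: subfield subgroups of Sp_2m: rational vectors, root elements, rational moves.
import Cfsg.Agent.Helper97.SGAvg
import Cfsg.Agent.Helper97.SFRoot
import Cfsg.Agent.Helper94.SpLag

set_option autoImplicit false
set_option linter.unusedSimpArgs false
set_option linter.unusedVariables false
open Cfsg Cfsg.Geo Matrix Cfsg.Agent.Helper94

namespace Cfsg.Agent.Helper97.SpSF

universe u

variable {F : Type u} [Field F] {m : ℕ}

/-- A vector with all coordinates in the subfield. -/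
def IsRat (F₀ : Subfield F) (v : Fin m ⊕ Fin m → F) : Prop := ∀ j, v j ∈ F₀

variable {F₀ : Subfield F}

theorem IsRat.add {u v : Fin m ⊕ Fin m → F} (hu : IsRat F₀ u) (hv : IsRat F₀ v) :
    IsRat F₀ (u + v) := fun j => add_mem (hu j) (hv j)

theorem IsRat.sub {u v : Fin m ⊕ Fin m → F} (hu : IsRat F₀ u) (hv : IsRat F₀ v) :
    IsRat F₀ (u - v) := fun j => sub_mem (hu j) (hv j)

theorem IsRat.neg {u : Fin m ⊕ Fin m → F} (hu : IsRat F₀ u) : IsRat F₀ (-u) :=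
  fun j => neg_mem (hu j)

theorem IsRat.smul {u : Fin m ⊕ Fin m → F} (hu : IsRat F₀ u) {c : F} (hc : c ∈ F₀) :
    IsRat F₀ (c • u) := fun j => mul_mem hc (hu j)

theorem isRat_zero : IsRat F₀ (0 : Fin m ⊕ Fin m → F) := fun _ => zero_mem _

theorem isRat_single (j : Fin m ⊕ Fin m) : IsRat F₀ (Pi.single j (1 : F)) := by
  intro k
  rw [Pi.single_apply]
  split_ifs
  · exact one_mem _
  · exact zero_mem _

theorem IsRat.symp {u v : Fin m ⊕ Fin m → F} (hu : IsRat F₀ u) (hv : IsRat F₀ v) :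
    sympForm m F u v ∈ F₀ := by
  rw [symp_explicit]
  exact sum_mem fun i _ => sub_mem (mul_mem (hu _) (hv _)) (mul_mem (hu _) (hv _))

/-- The standard basis vectors. -/
def Ev (F : Type u) [Field F] {m : ℕ} (i : Fin m) : Fin m ⊕ Fin m → F := Pi.single (Sum.inl i) 1

def Fv (F : Type u) [Field F] {m : ℕ} (i : Fin m) : Fin m ⊕ Fin m → F := Pi.single (Sum.inr i) 1

theorem isRat_Ev (i : Fin m) : IsRat F₀ (Ev F i) := isRat_single _

theorem isRat_Fv (i : Fin m) : IsRat F₀ (Fv F i) := isRat_single _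

theorem sf_Ev_right (x : Fin m ⊕ Fin m → F) (i : Fin m) :
    sympForm m F x (Ev F i) = x (Sum.inr i) := by
  rw [symp_explicit]
  simp [Ev, Pi.single_apply]

theorem sf_Fv_right (x : Fin m ⊕ Fin m → F) (i : Fin m) :
    sympForm m F x (Fv F i) = - x (Sum.inl i) := by
  rw [symp_explicit]
  simp [Fv, Pi.single_apply]

theorem sf_Ev_left (x : Fin m ⊕ Fin m → F) (i : Fin m) :
    sympForm m F (Ev F i) x = - x (Sum.inr i) := by
  rw [sf_swap, sf_Ev_right]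

theorem sf_Fv_left (x : Fin m ⊕ Fin m → F) (i : Fin m) :
    sympForm m F (Fv F i) x = x (Sum.inl i) := by
  rw [sf_swap, sf_Fv_right, neg_neg]

@[simp] theorem Ev_inl (i j : Fin m) : Ev F i (Sum.inl j) = if j = i then 1 else 0 := by
  simp [Ev, Pi.single_apply]

@[simp] theorem Ev_inr (i j : Fin m) : Ev F i (Sum.inr j) = 0 := by
  simp [Ev, Pi.single_apply]

@[simp] theorem Fv_inl (i j : Fin m) : Fv F i (Sum.inl j) = 0 := by
  simp [Fv, Pi.single_apply]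

@[simp] theorem Fv_inr (i j : Fin m) : Fv F i (Sum.inr j) = if j = i then 1 else 0 := by
  simp [Fv, Pi.single_apply]

theorem Ev_ne_zero (i : Fin m) : Ev F i ≠ 0 := by
  intro h
  have := congrFun h (Sum.inl i)
  simp at this

theorem Fv_ne_zero (i : Fin m) : Fv F i ≠ 0 := by
  intro h
  have := congrFun h (Sum.inr i)
  simp at this

/-- The subfield subgroup of `Sp` in standard position. -/
def spH (F₀ : Subfield F) (m : ℕ) : Subgroup (GL (Fin m ⊕ Fin m) F) :=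
  subfieldSubgroup F₀ (1 : GL (Fin m ⊕ Fin m) F) ⊓ spGL m F

theorem mem_sub_of_rat {g : GL (Fin m ⊕ Fin m) F} (c : F) (hc : c ≠ 0)
    (h : ∀ j, IsRat F₀ (c • ((g : Matrix (Fin m ⊕ Fin m) (Fin m ⊕ Fin m) F) *ᵥ Pi.single j 1))) :
    g ∈ subfieldSubgroup F₀ (1 : GL (Fin m ⊕ Fin m) F) := by
  rw [SG.mem_subfieldSubgroup_one]
  refine ⟨c, hc, fun i j => ?_⟩
  have := h j i
  rwa [Matrix.mulVec_single_one] at this

theorem rat_mulVec {A : Matrix (Fin m ⊕ Fin m) (Fin m ⊕ Fin m) F}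
    (hA : A ∈ SG.ratMat F₀ (Fin m ⊕ Fin m)) {v : Fin m ⊕ Fin m → F} (hv : IsRat F₀ v) :
    IsRat F₀ (A *ᵥ v) := by
  intro i
  rw [Matrix.mulVec, dotProduct]
  exact sum_mem fun j _ => mul_mem (hA i j) (hv j)

theorem stGL_rat {u : Fin m ⊕ Fin m → F} (hu : IsRat F₀ u) {c : F} (hc : c ∈ F₀) :
    stGL u c ∈ spH F₀ m := by
  refine ⟨mem_sub_of_rat 1 one_ne_zero fun j => ?_, stGL_mem u c⟩
  rw [one_smul, stGL_mulVec]
  exact (isRat_single j).add (hu.smul (mul_mem hc ((isRat_single j).symp hu)))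

theorem eichGL_rat {w y : Fin m ⊕ Fin m → F} (hw : IsRat F₀ w) (hy : IsRat F₀ y) :
    eichGL w y ∈ spH F₀ m := by
  unfold eichGL
  exact (spH F₀ m).mul_mem ((spH F₀ m).mul_mem (stGL_rat (hw.add hy) (one_mem _))
    (stGL_rat hw (neg_mem (one_mem _)))) (stGL_rat hy (neg_mem (one_mem _)))


/-! ### Identities between root elements -/

theorem stGL_add (u : Fin m ⊕ Fin m → F) (c d : F) : stGL u (c + d) = stGL u c * stGL u d := by
  apply gl_ext
  intro v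
  rw [gl_mul_mulVec, stGL_mulVec, stGL_mulVec, stGL_mulVec]
  simp only [sf_add_left, sf_add_right, sf_smul_left, sf_smul_right, sf_self]
  module

theorem stGL_zero (u : Fin m ⊕ Fin m → F) : stGL u (0 : F) = 1 := by
  apply gl_ext
  intro v
  rw [stGL_mulVec, zero_mul, zero_smul, add_zero, Units.val_one, one_mulVec]

theorem stGL_inv (u : Fin m ⊕ Fin m → F) (c : F) : (stGL u c)⁻¹ = stGL u (-c) := by
  rw [inv_eq_iff_mul_eq_one, ← stGL_add, add_neg_cancel, stGL_zero]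

theorem stGL_smul (a : F) (u : Fin m ⊕ Fin m → F) (c : F) :
    stGL (a • u) c = stGL u (a * a * c) := by
  apply gl_ext
  intro v
  rw [stGL_mulVec, stGL_mulVec, sf_smul_right]
  module

theorem eichGL_zero (a : Fin m ⊕ Fin m → F) : eichGL a (0 : Fin m ⊕ Fin m → F) = 1 := by
  apply gl_ext
  intro v
  rw [eichGL_mulVec a 0 (sf_zero_left a), sf_zero_right, smul_zero, zero_smul, add_zero, add_zero,
    Units.val_one, one_mulVec]

theorem eichGL_smul_left (a b : Fin m ⊕ Fin m → F) (α : F) (hab : sympForm m F b a = 0) :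
    eichGL (α • a) b = eichGL a (α • b) := by
  apply gl_ext
  intro v
  rw [eichGL_mulVec (α • a) b (by rw [sf_smul_right, hab, mul_zero]),
    eichGL_mulVec a (α • b) (by rw [sf_smul_left, hab, mul_zero])]
  simp only [sf_smul_right]
  module

theorem stGL_decomp (a b : Fin m ⊕ Fin m → F) (hab : sympForm m F b a = 0) (α β ν : F) :
    stGL (α • a + β • b) ν
      = stGL a (ν * α ^ 2) * eichGL a ((ν * α * β) • b) * stGL b (ν * β ^ 2) := by
  have hba : sympForm m F a b = 0 := by rw [sf_swap, hab, neg_zero]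
  apply gl_ext
  intro v
  rw [gl_mul_mulVec, gl_mul_mulVec, stGL_mulVec, stGL_mulVec,
    eichGL_mulVec a ((ν * α * β) • b) (by rw [sf_smul_left, hab, mul_zero]), stGL_mulVec]
  simp only [sf_add_left, sf_add_right, sf_smul_left, sf_smul_right, sf_self, hab, hba]
  module

theorem eichGL_mul' (a y₁ y₂ : Fin m ⊕ Fin m → F) (h1 : sympForm m F y₁ a = 0)
    (h2 : sympForm m F y₂ a = 0) :
    eichGL a y₁ * eichGL a y₂ = eichGL a (y₁ + y₂) * stGL a (sympForm m F y₂ y₁) := by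
  have h1' : sympForm m F a y₁ = 0 := by rw [sf_swap, h1, neg_zero]
  have h2' : sympForm m F a y₂ = 0 := by rw [sf_swap, h2, neg_zero]
  apply gl_ext
  intro v
  rw [gl_mul_mulVec, gl_mul_mulVec, eichGL_mulVec a y₂ h2, eichGL_mulVec a y₁ h1, stGL_mulVec,
    eichGL_mulVec a (y₁ + y₂) (by rw [sf_add_left, h1, h2, add_zero])]
  simp only [sf_add_left, sf_add_right, sf_smul_left, sf_smul_right, sf_self, h1, h2, h1', h2']
  module

theorem eichGL_param (a b : Fin m ⊕ Fin m → F) (hab : sympForm m F b a = 0) (c : F) :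
    eichGL a (c • b) = stGL (a + b) c * stGL a (-c) * stGL b (-c) := by
  have hba : sympForm m F a b = 0 := by rw [sf_swap, hab, neg_zero]
  apply gl_ext
  intro v
  rw [gl_mul_mulVec, gl_mul_mulVec, stGL_mulVec, stGL_mulVec, stGL_mulVec,
    eichGL_mulVec a (c • b) (by rw [sf_smul_left, hab, mul_zero])]
  simp only [sf_add_left, sf_add_right, sf_smul_left, sf_smul_right, sf_self, hab, hba]
  module

/-! ### Moving rational vectors by rational transvections -/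

theorem exists_move1 {x y : Fin m ⊕ Fin m → F} (hx : IsRat F₀ x) (hy : IsRat F₀ y)
    (hxy : sympForm m F x y ≠ 0) :
    ∃ h ∈ spH F₀ m, (h : Matrix (Fin m ⊕ Fin m) (Fin m ⊕ Fin m) F) *ᵥ x = y ∧
      ∀ e, sympForm m F e x = 0 → sympForm m F e y = 0 →
        (h : Matrix (Fin m ⊕ Fin m) (Fin m ⊕ Fin m) F) *ᵥ e = e := by
  refine ⟨stGL (y - x) (sympForm m F x y)⁻¹,
    stGL_rat (hy.sub hx) (inv_mem (hx.symp hy)), ?_, ?_⟩
  · rw [stGL_mulVec, sf_sub_right, sf_self, sub_zero, inv_mul_cancel₀ hxy, one_smul]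
    abel
  · intro e h1 h2
    rw [stGL_mulVec, sf_sub_right, h1, h2, sub_zero, mul_zero, zero_smul, add_zero]

theorem exists_move2 {x y z : Fin m ⊕ Fin m → F} (hx : IsRat F₀ x) (hy : IsRat F₀ y)
    (hz : IsRat F₀ z) (h1 : sympForm m F x z ≠ 0) (h2 : sympForm m F z y ≠ 0) :
    ∃ h ∈ spH F₀ m, (h : Matrix (Fin m ⊕ Fin m) (Fin m ⊕ Fin m) F) *ᵥ x = y ∧
      ∀ e, sympForm m F e x = 0 → sympForm m F e y = 0 → sympForm m F e z = 0 →
        (h : Matrix (Fin m ⊕ Fin m) (Fin m ⊕ Fin m) F) *ᵥ e = e := by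
  obtain ⟨ha, haH, hax, hae⟩ := exists_move1 hx hz h1
  obtain ⟨hb, hbH, hbz, hbe⟩ := exists_move1 hz hy h2
  refine ⟨hb * ha, (spH F₀ m).mul_mem hbH haH, ?_, ?_⟩
  · rw [gl_mul_mulVec, hax, hbz]
  · intro e he1 he2 he3
    rw [gl_mul_mulVec, hae e he1 he3, hbe e he3 he2]

theorem exists_dual {x : Fin m ⊕ Fin m → F} (hx0 : x ≠ 0) :
    ∃ z : Fin m ⊕ Fin m → F, IsRat F₀ z ∧ sympForm m F x z ≠ 0 := by
  have : ∃ j, x j ≠ 0 := by
    by_contra hcon
    push Not at hcon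
    exact hx0 (funext hcon)
  obtain ⟨j, hj⟩ := this
  rcases j with i | i
  · exact ⟨Fv F i, isRat_Fv i, by rw [sf_Fv_right]; exact neg_ne_zero.mpr hj⟩
  · exact ⟨Ev F i, isRat_Ev i, by rw [sf_Ev_right]; exact hj⟩

theorem exists_trans {u v : Fin m ⊕ Fin m → F} (hu : IsRat F₀ u) (hv : IsRat F₀ v)
    (hu0 : u ≠ 0) (hv0 : v ≠ 0) :
    ∃ h ∈ spH F₀ m, (h : Matrix (Fin m ⊕ Fin m) (Fin m ⊕ Fin m) F) *ᵥ u = v := by
  by_cases huv : sympForm m F u v ≠ 0
  · obtain ⟨h, hh, h1, -⟩ := exists_move1 hu hv huv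
    exact ⟨h, hh, h1⟩
  push Not at huv
  obtain ⟨zu, hzu, h1⟩ := exists_dual (F₀ := F₀) hu0
  obtain ⟨zv, hzv, h2⟩ := exists_dual (F₀ := F₀) hv0
  have h2' : sympForm m F zv v ≠ 0 := by rw [sf_swap]; exact neg_ne_zero.mpr h2
  by_cases h3 : sympForm m F zu v ≠ 0
  · obtain ⟨h, hh, h4, -⟩ := exists_move2 hu hv hzu h1 h3
    exact ⟨h, hh, h4⟩
  push Not at h3
  by_cases h5 : sympForm m F u zv ≠ 0
  · obtain ⟨h, hh, h4, -⟩ := exists_move2 hu hv hzv h5 h2'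
    exact ⟨h, hh, h4⟩
  push Not at h5
  obtain ⟨h, hh, h4, -⟩ := exists_move2 hu hv (hzu.add hzv)
    (by rw [sf_add_right, h5, add_zero]; exact h1)
    (by rw [sf_add_left, h3, zero_add]; exact h2')
  exact ⟨h, hh, h4⟩

theorem exists_fix_move (i₀ i₁ : Fin m) (h01 : i₀ ≠ i₁) {y : Fin m ⊕ Fin m → F}
    (hy : IsRat F₀ y) (hy0 : y ≠ 0) (hyE : sympForm m F y (Ev F i₀) = 0)
    (hy' : y (Sum.inl i₀) = 0) :
    ∃ h ∈ spH F₀ m, (h : Matrix (Fin m ⊕ Fin m) (Fin m ⊕ Fin m) F) *ᵥ Ev F i₀ = Ev F i₀ ∧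
      (h : Matrix (Fin m ⊕ Fin m) (Fin m ⊕ Fin m) F) *ᵥ y = Ev F i₁ := by
  have hEy : sympForm m F (Ev F i₀) y = 0 := by rw [sf_swap, hyE, neg_zero]
  have hE1 : sympForm m F (Ev F i₀) (Ev F i₁) = 0 := by rw [sf_Ev_right]; simp
  by_cases hA : sympForm m F y (Ev F i₁) ≠ 0
  · obtain ⟨h, hh, h1, h2⟩ := exists_move1 hy (isRat_Ev (F₀ := F₀) i₁) hA
    exact ⟨h, hh, h2 _ hEy hE1, h1⟩
  push Not at hA
  have hyr : y (Sum.inr i₀) = 0 := by
    have := sf_Ev_right y i₀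
    rw [hyE] at this
    exact this.symm
  have : ∃ j, y j ≠ 0 := by
    by_contra hcon
    push Not at hcon
    exact hy0 (funext hcon)
  obtain ⟨j, hj⟩ := this
  have hz : ∃ z : Fin m ⊕ Fin m → F, IsRat F₀ z ∧ sympForm m F y z ≠ 0 ∧
      sympForm m F (Ev F i₀) z = 0 := by
    rcases j with i | i
    · have hi : i ≠ i₀ := by rintro rfl; exact hj hy'
      refine ⟨Fv F i, isRat_Fv i, by rw [sf_Fv_right]; exact neg_ne_zero.mpr hj, ?_⟩
      rw [sf_Ev_left, Fv_inr, if_neg (Ne.symm hi), neg_zero]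
    · have hi : i ≠ i₀ := by rintro rfl; exact hj hyr
      refine ⟨Ev F i, isRat_Ev i, by rw [sf_Ev_right]; exact hj, ?_⟩
      rw [sf_Ev_left, Ev_inr, neg_zero]
  obtain ⟨z, hzr, hyz, hEz⟩ := hz
  have hF1 : sympForm m F (Fv F i₁) (Ev F i₁) ≠ 0 := by
    rw [sf_Fv_left, Ev_inl, if_pos rfl]; exact one_ne_zero
  have hEF : sympForm m F (Ev F i₀) (Fv F i₁) = 0 := by
    rw [sf_Ev_left, Fv_inr, if_neg h01, neg_zero]
  by_cases hB : sympForm m F z (Ev F i₁) ≠ 0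
  · obtain ⟨h, hh, h1, h2⟩ := exists_move2 hy (isRat_Ev (F₀ := F₀) i₁) hzr hyz hB
    exact ⟨h, hh, h2 _ hEy hE1 hEz, h1⟩
  push Not at hB
  by_cases hC : sympForm m F y (Fv F i₁) ≠ 0
  · obtain ⟨h, hh, h1, h2⟩ := exists_move2 hy (isRat_Ev (F₀ := F₀) i₁) (isRat_Fv (F₀ := F₀) i₁) hC hF1
    exact ⟨h, hh, h2 _ hEy hE1 hEF, h1⟩
  push Not at hC
  obtain ⟨h, hh, h1, h2⟩ := exists_move2 hy (isRat_Ev (F₀ := F₀) i₁)
    (hzr.add (isRat_Fv (F₀ := F₀) i₁))
    (by rw [sf_add_right, hC, add_zero]; exact hyz)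
    (by rw [sf_add_left, hB, zero_add]; exact hF1)
  exact ⟨h, hh, h2 _ hEy hE1 (by rw [sf_add_right, hEz, hEF, add_zero]), h1⟩

/-! ### The Weyl element of a hyperbolic plane -/

/-- The rational element `E_j ↦ -F_j`, `F_j ↦ E_j`. -/
noncomputable def weyl (F : Type u) [Field F] {m : ℕ} (j : Fin m) : GL (Fin m ⊕ Fin m) F :=
  stGL (Fv F j) 1 * stGL (Ev F j) 1 * stGL (Fv F j) 1

theorem weyl_mem (j : Fin m) : weyl F j ∈ spH F₀ m :=
  (spH F₀ m).mul_mem ((spH F₀ m).mul_mem (stGL_rat (isRat_Fv j) (one_mem _))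
    (stGL_rat (isRat_Ev j) (one_mem _))) (stGL_rat (isRat_Fv j) (one_mem _))

theorem weyl_mulVec (j : Fin m) (x : Fin m ⊕ Fin m → F) :
    (weyl F j : Matrix (Fin m ⊕ Fin m) (Fin m ⊕ Fin m) F) *ᵥ x
      = x + x (Sum.inr j) • (Ev F j - Fv F j) - x (Sum.inl j) • (Ev F j + Fv F j) := by
  have h1 : sympForm m F (Fv F j) (Ev F j) = 1 := by rw [sf_Fv_left, Ev_inl, if_pos rfl]
  have h2 : sympForm m F (Ev F j) (Fv F j) = -1 := by rw [sf_Ev_left, Fv_inr, if_pos rfl]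
  rw [weyl, gl_mul_mulVec, gl_mul_mulVec, stGL_mulVec, stGL_mulVec, stGL_mulVec]
  simp only [sf_add_left, sf_smul_left, sf_self, h1, h2]
  simp only [sf_Ev_right, sf_Fv_right]
  module

theorem weyl_Ev (j : Fin m) :
    (weyl F j : Matrix (Fin m ⊕ Fin m) (Fin m ⊕ Fin m) F) *ᵥ Ev F j = - Fv F j := by
  rw [weyl_mulVec]
  simp
  
theorem weyl_Fv (j : Fin m) :
    (weyl F j : Matrix (Fin m ⊕ Fin m) (Fin m ⊕ Fin m) F) *ᵥ Fv F j = Ev F j := by
  rw [weyl_mulVec]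
  simp

theorem weyl_fix (j : Fin m) (x : Fin m ⊕ Fin m → F) (h1 : x (Sum.inl j) = 0)
    (h2 : x (Sum.inr j) = 0) :
    (weyl F j : Matrix (Fin m ⊕ Fin m) (Fin m ⊕ Fin m) F) *ᵥ x = x := by
  rw [weyl_mulVec, h1, h2]
  simp

end Cfsg.Agent.Helper97.SpSF
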