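-- helper97 library: subfield subgroups of Sp_2m: rationality of root elements of an overgroup.
import Cfsg.Agent.Helper97.SpSFBasic

set_option autoImplicit false
set_option linter.unusedSimpArgs false
set_option linter.unusedVariables false
open Cfsg Cfsg.Geo Matrix Cfsg.Agent.Helper94

namespace Cfsg.Agent.Helper97.SpSF

universe u

variable {F : Type u} [Field F] {m : ℕ} {F₀ : Subfield F}
  {M : Subgroup (GL (Fin m ⊕ Fin m) F)}

/-- The standing hypotheses of the second half: `M` lies between the subfield group and `Sp`, and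
all transvections of `M` with rational centre are rational. -/
structure Ctx (F₀ : Subfield F) (M : Subgroup (GL (Fin m ⊕ Fin m) F)) : Prop where
  four : 4 ≤ m
  le : spH F₀ m ≤ M
  sp : M ≤ spGL m F
  rat : ∀ u : Fin m ⊕ Fin m → F, IsRat F₀ u → u ≠ 0 → ∀ c : F, stGL u c ∈ M → c ∈ F₀

theorem sf_EE (i j : Fin m) : sympForm m F (Ev F i) (Ev F j) = 0 := by
  rw [sf_Ev_right, Ev_inr]

theorem sf_FF (i j : Fin m) : sympForm m F (Fv F i) (Fv F j) = 0 := by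
  rw [sf_Fv_right, Fv_inl, neg_zero]

theorem sf_FE (i j : Fin m) : sympForm m F (Fv F i) (Ev F j) = if i = j then 1 else 0 := by
  rw [sf_Fv_left, Ev_inl]

theorem sf_EF (i j : Fin m) : sympForm m F (Ev F i) (Fv F j) = if i = j then -1 else 0 := by
  rw [sf_Ev_left, Fv_inr]
  split_ifs <;> simp

theorem R1sq (hc : Ctx F₀ M) {i j : Fin m} (hij : i ≠ j) (θ : F)
    (h : eichGL (Ev F i) (θ • Ev F j) ∈ M) : θ ^ 2 ∈ F₀ := by
  have hca : sympForm m F (Ev F j) (Ev F i) = 0 := sf_EE j i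
  have hc'a : sympForm m F (Fv F j) (Ev F i) = 0 := by rw [sf_FE, if_neg (Ne.symm hij)]
  have hc'c : sympForm m F (Fv F j) (Ev F j) = 1 := by rw [sf_FE, if_pos rfl]
  have hθca : sympForm m F (θ • Ev F j) (Ev F i) = 0 := by rw [sf_smul_left, hca, mul_zero]
  -- conjugating the rational transvection `t(F_j)` by `g`
  have hgc' : (eichGL (Ev F i) (θ • Ev F j) : Matrix (Fin m ⊕ Fin m) (Fin m ⊕ Fin m) F) *ᵥ Fv F j
      = θ • Ev F i + (1 : F) • Fv F j := by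
    rw [eichGL_mulVec _ _ hθca, hc'a, sf_smul_right, hc'c]
    module
  have h1 : stGL (θ • Ev F i + (1 : F) • Fv F j) 1 ∈ M := by
    rw [← hgc', ← stGL_conj (eichGL_mem _ _)]
    exact M.mul_mem (M.mul_mem h (hc.le (stGL_rat (isRat_Fv j) (one_mem _)))) (M.inv_mem h)
  rw [stGL_decomp _ _ hc'a] at h1
  have hX : stGL (Ev F i) (1 * θ ^ 2) * eichGL (Ev F i) ((1 * θ * 1) • Fv F j) ∈ M := by
    have h2 := M.mul_mem h1 (M.inv_mem (hc.le (stGL_rat (isRat_Fv (F₀ := F₀) j)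
      (show (1 * 1 ^ 2 : F) ∈ F₀ by simp [one_mem]))))
    rwa [mul_inv_cancel_right] at h2
  -- the Weyl conjugate
  have hwa : (weyl F j : Matrix (Fin m ⊕ Fin m) (Fin m ⊕ Fin m) F) *ᵥ Ev F i = Ev F i :=
    weyl_fix j _ (by rw [Ev_inl, if_neg (Ne.symm hij)]) (Ev_inr i j)
  have hY : eichGL (Ev F i) (θ • (- Fv F j)) ∈ M := by
    have h2 := M.mul_mem (M.mul_mem (hc.le (weyl_mem (F₀ := F₀) j)) h)
      (M.inv_mem (hc.le (weyl_mem (F₀ := F₀) j)))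
    rwa [eichGL_conj (weyl_mem (F₀ := F₀) j).2, hwa, mulVec_smul, weyl_Ev] at h2
  have hXY := M.mul_mem hX hY
  rw [mul_assoc, eichGL_mul _ _ _ (by rw [sf_smul_left, hc'a, mul_zero])
    (by rw [sf_smul_left, sf_neg_left, hc'a, neg_zero, mul_zero])
    (by rw [sf_smul_left, sf_smul_right, sf_neg_right, sf_self, neg_zero, mul_zero, mul_zero])] at hXY
  have e0 : (1 * θ * 1) • Fv F j + θ • (- Fv F j) = 0 := by module
  rw [e0, eichGL_zero, mul_one] at hXY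
  have := hc.rat _ (isRat_Ev i) (Ev_ne_zero i) _ hXY
  rwa [one_mul] at this

theorem R1 [Finite F] (hc : Ctx F₀ M) {i j : Fin m} (hij : i ≠ j) (θ : F)
    (h : eichGL (Ev F i) (θ • Ev F j) ∈ M) : θ ∈ F₀ := by
  have hca : sympForm m F (Ev F j) (Ev F i) = 0 := sf_EE j i
  have h1 := R1sq hc hij θ h
  have h2 : eichGL (Ev F i) ((θ + 1) • Ev F j) ∈ M := by
    rw [add_smul, ← eichGL_mul _ _ _ (by rw [sf_smul_left, hca, mul_zero])
      (by rw [sf_smul_left, hca, mul_zero])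
      (by rw [sf_smul_left, sf_smul_right, sf_self, mul_zero, mul_zero])]
    exact M.mul_mem h (hc.le (eichGL_rat (isRat_Ev i) ((isRat_Ev j).smul (one_mem _))))
  have h3 := R1sq hc hij (θ + 1) h2
  have h4 : 2 * θ ∈ F₀ := by
    have : 2 * θ = (θ + 1) ^ 2 - θ ^ 2 - 1 := by ring
    rw [this]
    exact sub_mem (sub_mem h3 h1) (one_mem _)
  by_cases h2F : (2 : F) = 0
  · haveI : CharP F 2 := CharTwo.of_one_ne_zero_of_two_eq_zero one_ne_zero h2F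
    haveI : Fact (Nat.Prime 2) := ⟨Nat.prime_two⟩
    exact SF.sf_frob F₀ 2 θ h1
  · have h5 : (2 : F) ∈ F₀ := by
      have : (2 : F) = 1 + 1 := by norm_num
      rw [this]; exact add_mem (one_mem _) (one_mem _)
    have : θ = (2 : F)⁻¹ * (2 * θ) := by field_simp
    rw [this]
    exact mul_mem (inv_mem h5) h4

theorem R2gen (hle : spH F₀ m ≤ M) {a b b' c : Fin m ⊕ Fin m → F} (hb' : IsRat F₀ b')
    (hcr : IsRat F₀ c) (h1 : sympForm m F a c = 0) (h2 : sympForm m F a b' = 0)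
    (h3 : sympForm m F b c = 0) (h4 : sympForm m F b b' = 1) (h5 : sympForm m F b' c = 0)
    (h6 : sympForm m F b a = 0) (θ γ : F) (hg : eichGL a (θ • b) * stGL a γ ∈ M) :
    eichGL a (θ • c) ∈ M := by
  have hh : eichGL c b' ∈ spH F₀ m := eichGL_rat hcr hb'
  have h1' : sympForm m F c a = 0 := by rw [sf_swap, h1, neg_zero]
  have h3' : sympForm m F c b = 0 := by rw [sf_swap, h3, neg_zero]
  have hha : (eichGL c b' : Matrix (Fin m ⊕ Fin m) (Fin m ⊕ Fin m) F) *ᵥ a = a := by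
    rw [eichGL_mulVec _ _ h5, h1, h2]
    module
  have hhb : (eichGL c b' : Matrix (Fin m ⊕ Fin m) (Fin m ⊕ Fin m) F) *ᵥ (θ • b)
      = θ • c + θ • b := by
    rw [eichGL_mulVec _ _ h5, sf_smul_left, sf_smul_left, h3, h4]
    module
  have e1 : eichGL c b' * (eichGL a (θ • b) * stGL a γ) * (eichGL c b')⁻¹
      = eichGL a (θ • c) * (eichGL a (θ • b) * stGL a γ) := by
    have : eichGL c b' * (eichGL a (θ • b) * stGL a γ) * (eichGL c b')⁻¹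
        = (eichGL c b' * eichGL a (θ • b) * (eichGL c b')⁻¹)
          * (eichGL c b' * stGL a γ * (eichGL c b')⁻¹) := by group
    rw [this, eichGL_conj hh.2, stGL_conj hh.2, hha, hhb,
      ← eichGL_mul _ _ _ (by rw [sf_smul_left, h1', mul_zero]) (by rw [sf_smul_left, h6, mul_zero])
        (by rw [sf_smul_left, sf_smul_right, h3', mul_zero, mul_zero]), mul_assoc]
  have h7 := M.mul_mem (M.mul_mem (M.mul_mem (hle hh) hg) (M.inv_mem (hle hh))) (M.inv_mem hg)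
  rwa [e1, mul_inv_cancel_right] at h7

theorem exists_third (hm : 3 ≤ m) (i j : Fin m) : ∃ k : Fin m, k ≠ i ∧ k ≠ j :=
  SF.sf_exists_ne2 hm i j

theorem R2E [Finite F] (hc : Ctx F₀ M) {i₀ i : Fin m} (hi : i ≠ i₀) (θ γ : F)
    (hg : eichGL (Ev F i₀) (θ • Ev F i) * stGL (Ev F i₀) γ ∈ M) : θ ∈ F₀ := by
  obtain ⟨j, hj0, hji⟩ := exists_third (le_trans (by norm_num) hc.four) i₀ i
  refine R1 hc (Ne.symm hj0) θ (R2gen hc.le (b' := - Fv F i) (isRat_Fv i).neg (isRat_Ev j)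
    (sf_EE _ _) ?_ (sf_EE _ _) ?_ ?_ (sf_EE _ _) θ γ hg)
  · rw [sf_neg_right, sf_EF, if_neg (Ne.symm hi), neg_zero]
  · rw [sf_neg_right, sf_EF, if_pos rfl, neg_neg]
  · rw [sf_neg_left, sf_FE, if_neg (Ne.symm hji), neg_zero]

theorem R2F [Finite F] (hc : Ctx F₀ M) {i₀ i : Fin m} (hi : i ≠ i₀) (θ γ : F)
    (hg : eichGL (Ev F i₀) (θ • Fv F i) * stGL (Ev F i₀) γ ∈ M) : θ ∈ F₀ := by
  obtain ⟨j, hj0, hji⟩ := exists_third (le_trans (by norm_num) hc.four) i₀ i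
  refine R1 hc (Ne.symm hj0) θ (R2gen hc.le (b' := Ev F i) (isRat_Ev i) (isRat_Ev j)
    (sf_EE _ _) (sf_EE _ _) ?_ ?_ (sf_EE _ _) ?_ θ γ hg)
  · rw [sf_FE, if_neg (Ne.symm hji)]
  · rw [sf_FE, if_pos rfl]
  · rw [sf_FE, if_neg hi]


theorem lemQ_core (hle : spH F₀ m ≤ M) {a y z : Fin m ⊕ Fin m → F} (hz : IsRat F₀ z)
    (hza : sympForm m F z a = 0) (hya : sympForm m F y a = 0) (h : eichGL a y ∈ M) :
    ∃ γ : F, eichGL a (sympForm m F y z • z) * stGL a γ ∈ M := by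
  have haz : sympForm m F a z = 0 := by rw [sf_swap, hza, neg_zero]
  have hay : sympForm m F a y = 0 := by rw [sf_swap, hya, neg_zero]
  set θ := sympForm m F y z with hθ
  have hs : stGL z 1 ∈ spH F₀ m := stGL_rat hz (one_mem _)
  have hsa : (stGL z 1 : Matrix (Fin m ⊕ Fin m) (Fin m ⊕ Fin m) F) *ᵥ a = a := by
    rw [stGL_mulVec, haz, mul_zero, zero_smul, add_zero]
  have hsy : (stGL z 1 : Matrix (Fin m ⊕ Fin m) (Fin m ⊕ Fin m) F) *ᵥ y = θ • z + y := by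
    rw [stGL_mulVec, one_mul, add_comm]
  have e1 : stGL z 1 * eichGL a y * (stGL z 1)⁻¹ = eichGL a (θ • z + y) := by
    rw [eichGL_conj hs.2, hsa, hsy]
  have e2 := eichGL_mul' a (θ • z) y (by rw [sf_smul_left, hza, mul_zero]) hya
  have hga : (eichGL a y : Matrix (Fin m ⊕ Fin m) (Fin m ⊕ Fin m) F) *ᵥ a = a := by
    rw [eichGL_mulVec _ _ hya, sf_self, hay]
    module
  have e3 : ∀ κ : F, eichGL a y * stGL a κ * (eichGL a y)⁻¹ = stGL a κ := by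
    intro κ
    rw [stGL_conj (eichGL_mem _ _), hga]
  set κ := sympForm m F y (θ • z) with hκ
  refine ⟨-κ, ?_⟩
  have e4 : eichGL a (θ • z) * stGL a (-κ) * eichGL a y = stGL z 1 * eichGL a y * (stGL z 1)⁻¹ := by
    have e5 : stGL a (-κ) * eichGL a y = eichGL a y * stGL a (-κ) := by
      have := e3 (-κ)
      calc stGL a (-κ) * eichGL a y
          = (eichGL a y * stGL a (-κ) * (eichGL a y)⁻¹) * eichGL a y := by rw [this]
        _ = eichGL a y * stGL a (-κ) := by group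
    rw [e1, mul_assoc, e5, ← mul_assoc, e2, mul_assoc, ← stGL_add, add_neg_cancel, stGL_zero,
      mul_one]
  have e6 : eichGL a (θ • z) * stGL a (-κ)
      = stGL z 1 * eichGL a y * (stGL z 1)⁻¹ * (eichGL a y)⁻¹ := by
    rw [← e4]; group
  rw [e6]
  exact M.mul_mem (M.mul_mem (M.mul_mem (hle hs) h) (M.inv_mem (hle hs))) (M.inv_mem h)

theorem lemQ [Finite F] (hc : Ctx F₀ M) (i₀ : Fin m) (y : Fin m ⊕ Fin m → F)
    (hy : sympForm m F y (Ev F i₀) = 0) (h : eichGL (Ev F i₀) y ∈ M) (j : Fin m ⊕ Fin m)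
    (hj : j ≠ Sum.inl i₀) : y j ∈ F₀ := by
  rcases j with i | i
  · have hi : i ≠ i₀ := fun h' => hj (by rw [h'])
    obtain ⟨γ, hγ⟩ := lemQ_core hc.le (isRat_Fv i) (by rw [sf_FE, if_neg hi]) hy h
    have := R2F hc hi _ γ hγ
    rw [sf_Fv_right] at this
    have h2 := neg_mem this
    rwa [neg_neg] at h2
  · by_cases hi : i = i₀
    · have : y (Sum.inr i) = 0 := by
        rw [hi, ← hy, sf_Ev_right]
      rw [this]; exact zero_mem _
    · obtain ⟨γ, hγ⟩ := lemQ_core hc.le (isRat_Ev i) (sf_EE _ _) hy h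
      have := R2E hc hi _ γ hγ
      rwa [sf_Ev_right] at this

theorem xi_shift {w y c d : Fin m ⊕ Fin m → F} (γ : F) {h' : GL (Fin m ⊕ Fin m) F}
    (hM : h' ∈ M) (hsp : h' ∈ spGL m F)
    (hw : (h' : Matrix (Fin m ⊕ Fin m) (Fin m ⊕ Fin m) F) *ᵥ w = d + w)
    (hy : (h' : Matrix (Fin m ⊕ Fin m) (Fin m ⊕ Fin m) F) *ᵥ y = y)
    (hc' : (h' : Matrix (Fin m ⊕ Fin m) (Fin m ⊕ Fin m) F) *ᵥ c = c)
    (hyw : sympForm m F y w = 0) (hyd : sympForm m F y d = 0) (hdw : sympForm m F d w = 0)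
    (hξ : eichGL w y * stGL c γ ∈ M) : eichGL d y ∈ M := by
  have hwy : sympForm m F w y = 0 := by rw [sf_swap, hyw, neg_zero]
  have hdy : sympForm m F d y = 0 := by rw [sf_swap, hyd, neg_zero]
  have e1 : h' * (eichGL w y * stGL c γ) * h'⁻¹ = eichGL d y * (eichGL w y * stGL c γ) := by
    have : h' * (eichGL w y * stGL c γ) * h'⁻¹
        = (h' * eichGL w y * h'⁻¹) * (h' * stGL c γ * h'⁻¹) := by group
    rw [this, eichGL_conj hsp, stGL_conj hsp, hw, hy, hc',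
      eichGL_symm (d + w) y (by rw [sf_add_right, hyd, hyw, add_zero]),
      ← eichGL_mul y d w hdy hwy hdw, eichGL_symm y d hdy, eichGL_symm y w hwy, mul_assoc]
  have h7 := M.mul_mem (M.mul_mem (M.mul_mem hM hξ) (M.inv_mem hM)) (M.inv_mem hξ)
  rwa [e1, mul_inv_cancel_right] at h7

theorem lemP [Finite F] (hc : Ctx F₀ M) {i j k l : Fin m} (hij : i ≠ j) (hik : i ≠ k)
    (hil : i ≠ l) (hjk : j ≠ k) (hjl : j ≠ l) (hkl : k ≠ l) (α β ν : F)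
    (h : stGL (α • Ev F i + β • Ev F j) ν ∈ M) : ν * α * β ∈ F₀ ∧ ν * β ^ 2 ∈ F₀ := by
  set w : Fin m ⊕ Fin m → F := α • Ev F i + β • Ev F j with hw
  have hwE : ∀ a : Fin m, sympForm m F w (Ev F a) = 0 := by
    intro a
    rw [hw, sf_add_left, sf_smul_left, sf_smul_left, sf_EE, sf_EE, mul_zero, mul_zero, add_zero]
  have hEw : ∀ a : Fin m, sympForm m F (Ev F a) w = 0 := by
    intro a; rw [sf_swap, hwE, neg_zero]
  have hwFi : sympForm m F w (- Fv F i) = α := by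
    rw [hw, sf_neg_right, sf_add_left, sf_smul_left, sf_smul_left, sf_EF, sf_EF, if_pos rfl,
      if_neg (Ne.symm hij)]
    ring
  have hwFj : sympForm m F w (- Fv F j) = β := by
    rw [hw, sf_neg_right, sf_add_left, sf_smul_left, sf_smul_left, sf_EF, sf_EF, if_pos rfl,
      if_neg hij]
    ring
  -- first conjugation: `E_j ↦ E_j + E_k`
  have hh1 : eichGL (Ev F k) (- Fv F j) ∈ spH F₀ m := eichGL_rat (isRat_Ev k) (isRat_Fv j).neg
  have hFjk : sympForm m F (- Fv F j) (Ev F k) = 0 := by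
    rw [sf_neg_left, sf_FE, if_neg hjk, neg_zero]
  have hh1w : (eichGL (Ev F k) (- Fv F j) : Matrix (Fin m ⊕ Fin m) (Fin m ⊕ Fin m) F) *ᵥ w
      = (1 : F) • w + β • Ev F k := by
    rw [eichGL_mulVec _ _ hFjk, hwE, hwFj]
    module
  have h1 : stGL ((1 : F) • w + β • Ev F k) ν ∈ M := by
    rw [← hh1w, ← stGL_conj hh1.2]
    exact M.mul_mem (M.mul_mem (hc.le hh1) h) (M.inv_mem (hc.le hh1))
  rw [stGL_decomp _ _ (hEw k)] at h1
  have hξ : eichGL w ((ν * 1 * β) • Ev F k) * stGL (Ev F k) (ν * β ^ 2) ∈ M := by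
    have e : stGL w (ν * 1 ^ 2) = stGL w ν := by congr 1; ring
    rw [e, mul_assoc] at h1
    have h2 := M.mul_mem (M.inv_mem h) h1
    rwa [inv_mul_cancel_left] at h2
  set y : Fin m ⊕ Fin m → F := (ν * 1 * β) • Ev F k with hy
  have hyw : sympForm m F y w = 0 := by rw [hy, sf_smul_left, hEw, mul_zero]
  have hyE : ∀ a : Fin m, sympForm m F y (Ev F a) = 0 := by
    intro a; rw [hy, sf_smul_left, sf_EE, mul_zero]
  -- shifting `E_i` and `E_j` by `E_l`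
  have shift : ∀ (b : Fin m), b ≠ k → b ≠ l → ∀ δ : F, sympForm m F w (- Fv F b) = δ →
      δ * (ν * 1 * β) ∈ F₀ := by
    intro b hbk hbl δ hδ
    have hh : eichGL (Ev F l) (- Fv F b) ∈ spH F₀ m := eichGL_rat (isRat_Ev l) (isRat_Fv b).neg
    have hFbl : sympForm m F (- Fv F b) (Ev F l) = 0 := by
      rw [sf_neg_left, sf_FE, if_neg hbl, neg_zero]
    have hhw : (eichGL (Ev F l) (- Fv F b) : Matrix (Fin m ⊕ Fin m) (Fin m ⊕ Fin m) F) *ᵥ w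
        = δ • Ev F l + w := by
      rw [eichGL_mulVec _ _ hFbl, hwE, hδ]
      module
    have hhk : (eichGL (Ev F l) (- Fv F b) : Matrix (Fin m ⊕ Fin m) (Fin m ⊕ Fin m) F) *ᵥ Ev F k
        = Ev F k := by
      rw [eichGL_mulVec _ _ hFbl, sf_EE, sf_neg_right, sf_EF, if_neg (Ne.symm hbk)]
      module
    have hhy : (eichGL (Ev F l) (- Fv F b) : Matrix (Fin m ⊕ Fin m) (Fin m ⊕ Fin m) F) *ᵥ y = y := by
      rw [hy, mulVec_smul, hhk]
    have h3 := xi_shift (ν * β ^ 2) (hc.le hh) hh.2 hhw hhy hhk hyw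
      (by rw [sf_smul_right, hyE, mul_zero]) (by rw [sf_smul_left, hEw, mul_zero]) hξ
    rw [eichGL_smul_left _ _ _ (hyE l), hy, smul_smul] at h3
    exact R1 hc (Ne.symm hkl) _ h3
  constructor
  · have := shift i hik hil α hwFi
    have e : ν * α * β = α * (ν * 1 * β) := by ring
    rw [e]; exact this
  · have := shift j hjk hjl β hwFj
    have e : ν * β ^ 2 = β * (ν * 1 * β) := by ring
    rw [e]; exact this


theorem exists_four (hm : 4 ≤ m) (i₀ : Fin m) :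
    ∃ i₁ a b : Fin m, i₀ ≠ i₁ ∧ i₀ ≠ a ∧ i₀ ≠ b ∧ i₁ ≠ a ∧ i₁ ≠ b ∧ a ≠ b := by
  obtain ⟨i₁, h1, -⟩ := SF.sf_exists_ne2 (le_trans (by norm_num) hm) i₀ i₀
  obtain ⟨a, h2, h3⟩ := SF.sf_exists_ne2 (le_trans (by norm_num) hm) i₀ i₁
  obtain ⟨b, h4, h5, h6⟩ := SF.sf_exists_ne3 hm i₀ i₁ a
  exact ⟨i₁, a, b, Ne.symm h1, Ne.symm h2, Ne.symm h4, Ne.symm h3, Ne.symm h5, Ne.symm h6⟩

theorem Ev_apply (i : Fin m) (j : Fin m ⊕ Fin m) :
    Ev F i j = if j = Sum.inl i then 1 else 0 := by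
  simp [Ev, Pi.single_apply]

theorem PLcol [Finite F] (hc : Ctx F₀ M) (i₀ : Fin m) {k : GL (Fin m ⊕ Fin m) F} (hk : k ∈ M)
    (lam : F)
    (hkE : (k : Matrix (Fin m ⊕ Fin m) (Fin m ⊕ Fin m) F) *ᵥ Ev F i₀ = lam • Ev F i₀)
    {y : Fin m ⊕ Fin m → F} (hyr : IsRat F₀ y) (hyE : sympForm m F y (Ev F i₀) = 0)
    (hyind : ∀ c : F, y ≠ c • Ev F i₀) :
    IsRat F₀ (lam • ((k : Matrix (Fin m ⊕ Fin m) (Fin m ⊕ Fin m) F) *ᵥ y)) ∧
      lam⁻¹ * lam⁻¹ ∈ F₀ := by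
  have hsp := hc.sp hk
  have hlam : lam ≠ 0 := by
    rintro rfl
    rw [zero_smul] at hkE
    have := gl_inv_mulVec k (Ev F i₀)
    rw [hkE, mulVec_zero] at this
    exact Ev_ne_zero i₀ this.symm
  have hkinv : ((k⁻¹ : GL (Fin m ⊕ Fin m) F) : Matrix (Fin m ⊕ Fin m) (Fin m ⊕ Fin m) F) *ᵥ Ev F i₀
      = lam⁻¹ • Ev F i₀ := by
    have := gl_inv_mulVec k (Ev F i₀)
    rw [hkE, mulVec_smul] at this
    calc ((k⁻¹ : GL (Fin m ⊕ Fin m) F) : Matrix (Fin m ⊕ Fin m) (Fin m ⊕ Fin m) F) *ᵥ Ev F i₀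
        = lam⁻¹ • (lam • ((k⁻¹ : GL (Fin m ⊕ Fin m) F) :
            Matrix (Fin m ⊕ Fin m) (Fin m ⊕ Fin m) F) *ᵥ Ev F i₀) := by
          rw [smul_smul, inv_mul_cancel₀ hlam, one_smul]
      _ = lam⁻¹ • Ev F i₀ := by rw [this]
  have hkyE : sympForm m F ((k : Matrix (Fin m ⊕ Fin m) (Fin m ⊕ Fin m) F) *ᵥ y) (Ev F i₀) = 0 := by
    have := sp_apply hsp y (Ev F i₀)
    rw [hkE, sf_smul_right, hyE] at this
    rcases mul_eq_zero.1 this with h | h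
    · exact absurd h hlam
    · exact h
  set Y : Fin m ⊕ Fin m → F := lam • ((k : Matrix (Fin m ⊕ Fin m) (Fin m ⊕ Fin m) F) *ᵥ y) with hY
  have hYE : sympForm m F Y (Ev F i₀) = 0 := by rw [hY, sf_smul_left, hkyE, mul_zero]
  have hgY : eichGL (Ev F i₀) Y ∈ M := by
    have h1 := M.mul_mem (M.mul_mem hk (hc.le (eichGL_rat (isRat_Ev (F₀ := F₀) i₀) hyr)))
      (M.inv_mem hk)
    rwa [eichGL_conj hsp, hkE, eichGL_smul_left _ _ _ hkyE] at h1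
  have hQ := lemQ hc i₀ Y hYE hgY
  set μ : F := Y (Sum.inl i₀) with hμ
  set y₁ : Fin m ⊕ Fin m → F := Y - μ • Ev F i₀ with hy₁
  have hy₁r : IsRat F₀ y₁ := by
    intro j
    rw [hy₁, Pi.sub_apply, Pi.smul_apply, smul_eq_mul, Ev_apply]
    by_cases hj : j = Sum.inl i₀
    · rw [if_pos hj, mul_one, hj, sub_self]
      exact zero_mem _
    · rw [if_neg hj, mul_zero, sub_zero]
      exact hQ j hj
  have hy₁0 : y₁ ≠ 0 := by
    intro h0
    have h1 : Y = μ • Ev F i₀ := sub_eq_zero.1 h0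
    have h2 : (k : Matrix (Fin m ⊕ Fin m) (Fin m ⊕ Fin m) F) *ᵥ y = (lam⁻¹ * μ) • Ev F i₀ := by
      rw [← smul_smul, ← h1, hY, smul_smul, inv_mul_cancel₀ hlam, one_smul]
    have h3 := gl_inv_mulVec k y
    rw [h2, mulVec_smul, hkinv, smul_smul] at h3
    exact hyind _ h3.symm
  have hy₁E : sympForm m F y₁ (Ev F i₀) = 0 := by
    rw [hy₁, sf_sub_left, hYE, sf_smul_left, sf_self, mul_zero, sub_zero]
  have hy₁' : y₁ (Sum.inl i₀) = 0 := by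
    rw [hy₁, Pi.sub_apply, Pi.smul_apply, smul_eq_mul, Ev_apply, if_pos rfl, mul_one, sub_self]
  obtain ⟨i₁, a, b, h01, h0a, h0b, h1a, h1b, hab⟩ := exists_four hc.four i₀
  obtain ⟨h, hh, hhE, hhy⟩ := exists_fix_move i₀ i₁ h01 hy₁r hy₁0 hy₁E hy₁'
  have hT : stGL Y (lam⁻¹ * lam⁻¹ * 1) ∈ M := by
    have h1 := M.mul_mem (M.mul_mem hk (hc.le (stGL_rat hyr (one_mem (F₀ : Subfield F)))))
      (M.inv_mem hk)
    have e : (k : Matrix (Fin m ⊕ Fin m) (Fin m ⊕ Fin m) F) *ᵥ y = lam⁻¹ • Y := by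
      rw [hY, smul_smul, inv_mul_cancel₀ hlam, one_smul]
    rwa [stGL_conj hsp, e, stGL_smul] at h1
  have hT' : stGL (μ • Ev F i₀ + (1 : F) • Ev F i₁) (lam⁻¹ * lam⁻¹ * 1) ∈ M := by
    have h1 := M.mul_mem (M.mul_mem (hc.le hh) hT) (M.inv_mem (hc.le hh))
    have e : (h : Matrix (Fin m ⊕ Fin m) (Fin m ⊕ Fin m) F) *ᵥ Y
        = μ • Ev F i₀ + (1 : F) • Ev F i₁ := by
      have : Y = y₁ + μ • Ev F i₀ := by rw [hy₁]; abel
      rw [this, mulVec_add, mulVec_smul, hhE, hhy]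
      module
    rwa [stGL_conj hh.2, e] at h1
  obtain ⟨hP1, hP2⟩ := lemP hc h01 h0a h0b h1a h1b hab μ 1 _ hT'
  have hν : lam⁻¹ * lam⁻¹ ∈ F₀ := by
    have e : lam⁻¹ * lam⁻¹ * 1 * 1 ^ 2 = lam⁻¹ * lam⁻¹ := by ring
    rwa [e] at hP2
  have hν0 : lam⁻¹ * lam⁻¹ ≠ 0 := mul_ne_zero (inv_ne_zero hlam) (inv_ne_zero hlam)
  have hμF : μ ∈ F₀ := by
    have e : μ = (lam⁻¹ * lam⁻¹)⁻¹ * (lam⁻¹ * lam⁻¹ * 1 * μ * 1) := by
      field_simp
    rw [e]
    exact mul_mem (inv_mem hν) hP1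
  refine ⟨?_, hν⟩
  have : Y = y₁ + μ • Ev F i₀ := by rw [hy₁]; abel
  rw [this]
  exact hy₁r.add ((isRat_Ev i₀).smul hμF)


theorem eigen_ne_zero {k : GL (Fin m ⊕ Fin m) F} {v : Fin m ⊕ Fin m → F} (hv : v ≠ 0) {lam : F}
    (hkE : (k : Matrix (Fin m ⊕ Fin m) (Fin m ⊕ Fin m) F) *ᵥ v = lam • v) : lam ≠ 0 := by
  rintro rfl
  rw [zero_smul] at hkE
  have := gl_inv_mulVec k v
  rw [hkE, mulVec_zero] at this
  exact hv this.symm

theorem eigen_inv {k : GL (Fin m ⊕ Fin m) F} {v : Fin m ⊕ Fin m → F} {lam : F} (hlam : lam ≠ 0)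
    (hkE : (k : Matrix (Fin m ⊕ Fin m) (Fin m ⊕ Fin m) F) *ᵥ v = lam • v) :
    ((k⁻¹ : GL (Fin m ⊕ Fin m) F) : Matrix (Fin m ⊕ Fin m) (Fin m ⊕ Fin m) F) *ᵥ v = lam⁻¹ • v := by
  have := gl_inv_mulVec k v
  rw [hkE, mulVec_smul] at this
  calc ((k⁻¹ : GL (Fin m ⊕ Fin m) F) : Matrix (Fin m ⊕ Fin m) (Fin m ⊕ Fin m) F) *ᵥ v
      = lam⁻¹ • (lam • ((k⁻¹ : GL (Fin m ⊕ Fin m) F) :
          Matrix (Fin m ⊕ Fin m) (Fin m ⊕ Fin m) F) *ᵥ v) := by
        rw [smul_smul, inv_mul_cancel₀ hlam, one_smul]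
    _ = lam⁻¹ • v := by rw [this]

theorem Ev_ind {i i₀ : Fin m} (hi : i ≠ i₀) (c : F) : Ev F i ≠ c • Ev F i₀ := by
  intro h
  have := congrFun h (Sum.inl i)
  simp [hi] at this

theorem Fv_ind (i i₀ : Fin m) (c : F) : Fv F i ≠ c • Ev F i₀ := by
  intro h
  have := congrFun h (Sum.inr i)
  simp at this

/-- An element of `M` fixing the rational point `⟨E_{i₀}⟩` lies in the subfield group. -/
theorem lemPL [Finite F] (hc : Ctx F₀ M) (i₀ : Fin m) {k : GL (Fin m ⊕ Fin m) F} (hk : k ∈ M)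
    (lam : F)
    (hkE : (k : Matrix (Fin m ⊕ Fin m) (Fin m ⊕ Fin m) F) *ᵥ Ev F i₀ = lam • Ev F i₀) :
    k ∈ spH F₀ m := by
  have hsp := hc.sp hk
  have hlam : lam ≠ 0 := eigen_ne_zero (Ev_ne_zero i₀) hkE
  have hkinv := eigen_inv hlam hkE
  obtain ⟨i₁, a, b, h01, h0a, h0b, h1a, h1b, hab⟩ := exists_four hc.four i₀
  have hcolE : ∀ i, i ≠ i₀ →
      IsRat F₀ (lam • ((k : Matrix (Fin m ⊕ Fin m) (Fin m ⊕ Fin m) F) *ᵥ Ev F i)) :=
    fun i hi => (PLcol hc i₀ hk lam hkE (isRat_Ev i) (sf_EE i i₀) (Ev_ind hi)).1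
  have hcolF : ∀ i, i ≠ i₀ →
      IsRat F₀ (lam • ((k : Matrix (Fin m ⊕ Fin m) (Fin m ⊕ Fin m) F) *ᵥ Fv F i)) :=
    fun i hi => (PLcol hc i₀ hk lam hkE (isRat_Fv i) (by rw [sf_FE, if_neg hi]) (Fv_ind i i₀)).1
  have hν : lam⁻¹ * lam⁻¹ ∈ F₀ :=
    (PLcol hc i₀ hk lam hkE (isRat_Ev i₁) (sf_EE i₁ i₀) (Ev_ind (Ne.symm h01))).2
  have hlam2 : lam * lam ∈ F₀ := by
    have : lam * lam = (lam⁻¹ * lam⁻¹)⁻¹ := by field_simp
    rw [this]; exact inv_mem hν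
  have hcolE' : ∀ i, i ≠ i₀ → IsRat F₀ (lam⁻¹ • (((k⁻¹ : GL (Fin m ⊕ Fin m) F) :
      Matrix (Fin m ⊕ Fin m) (Fin m ⊕ Fin m) F) *ᵥ Ev F i)) :=
    fun i hi => (PLcol hc i₀ (M.inv_mem hk) lam⁻¹ hkinv (isRat_Ev i) (sf_EE i i₀) (Ev_ind hi)).1
  have hcolF' : ∀ i, i ≠ i₀ → IsRat F₀ (lam⁻¹ • (((k⁻¹ : GL (Fin m ⊕ Fin m) F) :
      Matrix (Fin m ⊕ Fin m) (Fin m ⊕ Fin m) F) *ᵥ Fv F i)) :=
    fun i hi => (PLcol hc i₀ (M.inv_mem hk) lam⁻¹ hkinv (isRat_Fv i) (by rw [sf_FE, if_neg hi])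
      (Fv_ind i i₀)).1
  set v' : Fin m ⊕ Fin m → F := lam • ((k : Matrix (Fin m ⊕ Fin m) (Fin m ⊕ Fin m) F) *ᵥ Fv F i₀)
    with hv'
  have key : ∀ z : Fin m ⊕ Fin m → F, sympForm m F v' z = lam * sympForm m F (Fv F i₀)
      (((k⁻¹ : GL (Fin m ⊕ Fin m) F) : Matrix (Fin m ⊕ Fin m) (Fin m ⊕ Fin m) F) *ᵥ z) := by
    intro z
    rw [hv', sf_smul_left, sp_apply_left hsp]
  have key2 : ∀ z : Fin m ⊕ Fin m → F, IsRat F₀ (lam⁻¹ • (((k⁻¹ : GL (Fin m ⊕ Fin m) F) :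
      Matrix (Fin m ⊕ Fin m) (Fin m ⊕ Fin m) F) *ᵥ z)) → sympForm m F v' z ∈ F₀ := by
    intro z hz
    have e : ((k⁻¹ : GL (Fin m ⊕ Fin m) F) : Matrix (Fin m ⊕ Fin m) (Fin m ⊕ Fin m) F) *ᵥ z
        = lam • (lam⁻¹ • (((k⁻¹ : GL (Fin m ⊕ Fin m) F) :
          Matrix (Fin m ⊕ Fin m) (Fin m ⊕ Fin m) F) *ᵥ z)) := by
      rw [smul_smul, mul_inv_cancel₀ hlam, one_smul]
    rw [key, e, sf_smul_right, ← mul_assoc]
    exact mul_mem hlam2 ((isRat_Fv i₀).symp hz)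
  have hv'rat : ∀ j, j ≠ Sum.inl i₀ → v' j ∈ F₀ := by
    intro j hj
    rcases j with i | i
    · have hi : i ≠ i₀ := fun h' => hj (by rw [h'])
      have h1 := key2 (Fv F i) (hcolF' i hi)
      rw [sf_Fv_right] at h1
      have h2 := neg_mem h1
      rwa [neg_neg] at h2
    · by_cases hi : i = i₀
      · have h1 := key (Ev F i)
        rw [hi, hkinv, sf_smul_right, sf_FE, if_pos rfl, mul_one, mul_inv_cancel₀ hlam,
          sf_Ev_right] at h1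
        rw [hi, h1]
        exact one_mem _
      · have h1 := key2 (Ev F i) (hcolE' i hi)
        rwa [sf_Ev_right] at h1
  set γ : F := v' (Sum.inl i₀) with hγ
  set c₀ : F := -γ * (lam⁻¹ * lam⁻¹) with hc₀
  set k₀ : GL (Fin m ⊕ Fin m) F := k * stGL (Ev F i₀) c₀ with hk₀
  have hk₀x : ∀ x : Fin m ⊕ Fin m → F,
      (k₀ : Matrix (Fin m ⊕ Fin m) (Fin m ⊕ Fin m) F) *ᵥ x
        = (k : Matrix (Fin m ⊕ Fin m) (Fin m ⊕ Fin m) F) *ᵥ x
          + (c₀ * sympForm m F x (Ev F i₀) * lam) • Ev F i₀ := by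
    intro x
    rw [hk₀, gl_mul_mulVec, stGL_mulVec, mulVec_add, mulVec_smul, hkE, smul_smul]
  have hk₀col : ∀ j, IsRat F₀ (lam • ((k₀ : Matrix (Fin m ⊕ Fin m) (Fin m ⊕ Fin m) F)
      *ᵥ Pi.single j 1)) := by
    intro j
    rcases j with i | i
    · have e : (Pi.single (Sum.inl i) 1 : Fin m ⊕ Fin m → F) = Ev F i := rfl
      rw [e, hk₀x, sf_EE, mul_zero, zero_mul, zero_smul, add_zero]
      by_cases hi : i = i₀
      · rw [hi, hkE, smul_smul]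
        exact (isRat_Ev i₀).smul hlam2
      · exact hcolE i hi
    · have e : (Pi.single (Sum.inr i) 1 : Fin m ⊕ Fin m → F) = Fv F i := rfl
      rw [e, hk₀x, sf_FE]
      by_cases hi : i = i₀
      · rw [if_pos hi, hi, smul_add, ← hv', smul_smul]
        have e2 : lam * (c₀ * 1 * lam) = -γ := by
          rw [hc₀]; field_simp
        rw [e2]
        intro j'
        rw [Pi.add_apply, Pi.smul_apply, smul_eq_mul, Ev_apply]
        by_cases hj' : j' = Sum.inl i₀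
        · rw [if_pos hj', mul_one, hj', ← hγ, add_neg_cancel]
          exact zero_mem _
        · rw [if_neg hj', mul_zero, add_zero]
          exact hv'rat j' hj'
      · rw [if_neg hi, mul_zero, zero_mul, zero_smul, add_zero]
        exact hcolF i hi
  have hk₀H : k₀ ∈ spH F₀ m :=
    ⟨mem_sub_of_rat lam hlam hk₀col, (spGL m F).mul_mem hsp (stGL_mem _ _)⟩
  have hst : stGL (Ev F i₀) c₀ ∈ M := by
    have h1 := M.mul_mem (M.inv_mem hk) (hc.le hk₀H)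
    rwa [hk₀, inv_mul_cancel_left] at h1
  have hc₀F := hc.rat _ (isRat_Ev i₀) (Ev_ne_zero i₀) _ hst
  have hstH : stGL (Ev F i₀) c₀ ∈ spH F₀ m := stGL_rat (isRat_Ev i₀) hc₀F
  have e : k = k₀ * (stGL (Ev F i₀) c₀)⁻¹ := by rw [hk₀, mul_inv_cancel_right]
  rw [e]
  exact (spH F₀ m).mul_mem hk₀H ((spH F₀ m).inv_mem hstH)

end Cfsg.Agent.Helper97.SpSF
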