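-- helper97 library: subfield subgroups of Sp_2m: conjugates of rational root elements (free action).
import Cfsg.Agent.Helper97.SpSFRoot
import Cfsg.Agent.Helper97.SFMax

set_option autoImplicit false
set_option linter.unusedSimpArgs false
set_option linter.unusedVariables false
open Cfsg Cfsg.Geo Matrix Cfsg.Agent.Helper94

namespace Cfsg.Agent.Helper97.SpSF

universe u

variable {F : Type u} [Field F] {m : ℕ} {F₀ : Subfield F}
  {M : Subgroup (GL (Fin m ⊕ Fin m) F)}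

/-- The rational isotropic vector with parameters `t`. -/
def yVec (I : SF.Idx4 m) (t : F₀ × F₀ × F₀) : Fin m ⊕ Fin m → F :=
  (t.1 : F) • Ev F I.i₁ + (t.2.1 : F) • Ev F I.i₂ + (t.2.2 : F) • Ev F I.i₃

theorem yVec_rat (I : SF.Idx4 m) (t : F₀ × F₀ × F₀) : IsRat F₀ (yVec I t) :=
  (((isRat_Ev I.i₁).smul t.1.2).add ((isRat_Ev I.i₂).smul t.2.1.2)).add
    ((isRat_Ev I.i₃).smul t.2.2.2)

theorem yVec_add (I : SF.Idx4 m) (s t : F₀ × F₀ × F₀) :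
    yVec I (s + t) = yVec I s + yVec I t := by
  simp only [yVec, Prod.fst_add, Prod.snd_add, Subfield.coe_add]
  module

theorem yVec_zero (I : SF.Idx4 m) : yVec I (0 : F₀ × F₀ × F₀) = 0 := by
  simp [yVec]

theorem yVec_E (I : SF.Idx4 m) (t : F₀ × F₀ × F₀) (i : Fin m) :
    sympForm m F (yVec I t) (Ev F i) = 0 := by
  simp only [yVec, sf_add_left, sf_smul_left, sf_EE, mul_zero, add_zero]

theorem yVec_yVec (I : SF.Idx4 m) (s t : F₀ × F₀ × F₀) :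
    sympForm m F (yVec I s) (yVec I t) = 0 := by
  simp only [yVec, sf_add_left, sf_add_right, sf_smul_left, sf_smul_right, sf_EE, mul_zero,
    add_zero]

theorem yVec_indep (I : SF.Idx4 m) {t : F₀ × F₀ × F₀} (ht : t ≠ 0) (α β : F)
    (h : α • Ev F I.k₀ + β • yVec I t = 0) : α = 0 ∧ β = 0 := by
  have h1 := congrFun h (Sum.inl I.i₁)
  have h2 := congrFun h (Sum.inl I.i₂)
  have h3 := congrFun h (Sum.inl I.i₃)
  have h0 := congrFun h (Sum.inl I.k₀)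
  simp [yVec, I.h12, I.h13, I.h23, I.h12.symm, I.h13.symm, I.h23.symm, I.h1k, I.h2k, I.h3k,
    I.h1k.symm, I.h2k.symm, I.h3k.symm] at h1 h2 h3 h0
  refine ⟨h0, ?_⟩
  by_contra hβ
  apply ht
  have e1 := h1.resolve_left hβ
  have e2 := h2.resolve_left hβ
  have e3 := h3.resolve_left hβ
  exact Prod.ext e1 (Prod.ext e2 e3)

/-- The rational long-root-type element with parameters `t`. -/
noncomputable def rho (I : SF.Idx4 m) (t : F₀ × F₀ × F₀) : GL (Fin m ⊕ Fin m) F :=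
  eichGL (Ev F I.k₀) (yVec I t)

theorem rho_mem (I : SF.Idx4 m) (t : F₀ × F₀ × F₀) : rho I t ∈ spH F₀ m :=
  eichGL_rat (isRat_Ev _) (yVec_rat I t)

theorem rho_add (I : SF.Idx4 m) (s t : F₀ × F₀ × F₀) : rho I (s + t) = rho I s * rho I t := by
  rw [rho, rho, rho, eichGL_mul _ _ _ (yVec_E I s _) (yVec_E I t _) (yVec_yVec I s t), yVec_add]

theorem rho_zero (I : SF.Idx4 m) : rho I (0 : F₀ × F₀ × F₀) = 1 := by
  rw [rho, yVec_zero, eichGL_zero]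

theorem rho_inv (I : SF.Idx4 m) (t : F₀ × F₀ × F₀) : (rho I t)⁻¹ = rho I (-t) := by
  rw [inv_eq_iff_mul_eq_one, ← rho_add, add_neg_cancel, rho_zero]

theorem eichGL_pow (a b : Fin m ⊕ Fin m → F) (hab : sympForm m F b a = 0) (k : ℕ) :
    (eichGL a b) ^ k = eichGL a ((k : F) • b) := by
  induction k with
  | zero => rw [pow_zero, Nat.cast_zero, zero_smul, eichGL_zero]
  | succ k ih =>
    rw [pow_succ, ih, eichGL_mul a ((k : F) • b) b (by rw [sf_smul_left, hab, mul_zero]) hab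
      (by rw [sf_smul_left, sf_self, mul_zero])]
    congr 1
    push_cast
    module

theorem rat_of_map {h : GL (Fin m ⊕ Fin m) F}
    (hh : h ∈ subfieldSubgroup F₀ (1 : GL (Fin m ⊕ Fin m) F)) {u v : Fin m ⊕ Fin m → F}
    (hu : IsRat F₀ u) (hv : IsRat F₀ v) (hv0 : v ≠ 0)
    (huv : (h : Matrix (Fin m ⊕ Fin m) (Fin m ⊕ Fin m) F) *ᵥ u = v) :
    (h : Matrix (Fin m ⊕ Fin m) (Fin m ⊕ Fin m) F) ∈ SG.ratMat F₀ (Fin m ⊕ Fin m) := by
  obtain ⟨d, hd0, hdrat⟩ := (SG.mem_subfieldSubgroup_one F₀ h).mp hh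
  have h1 := rat_mulVec hdrat hu
  rw [smul_mulVec, huv] at h1
  have : ∃ j, v j ≠ 0 := by
    by_contra hcon
    push Not at hcon
    exact hv0 (funext hcon)
  obtain ⟨j, hj⟩ := this
  have hd : d ∈ F₀ := by
    have h2 := h1 j
    rw [Pi.smul_apply, smul_eq_mul] at h2
    have e : d = d * v j * (v j)⁻¹ := by field_simp
    rw [e]
    exact mul_mem h2 (inv_mem (hv j))
  have e : (h : Matrix (Fin m ⊕ Fin m) (Fin m ⊕ Fin m) F)
      = d⁻¹ • (d • (h : Matrix (Fin m ⊕ Fin m) (Fin m ⊕ Fin m) F)) := by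
    rw [smul_smul, inv_mul_cancel₀ hd0, one_smul]
  rw [e]
  exact SG.smul_mem_ratMat hdrat (inv_mem hd)

/-- If a conjugate by `g ∈ M` of a nontrivial rational root element `rho I t` lies in the subfield
group, then so does `g`. -/
theorem lemFree [Finite F] (hc : Ctx F₀ M) (I : SF.Idx4 m) {g : GL (Fin m ⊕ Fin m) F}
    (hg : g ∈ M) {t : F₀ × F₀ × F₀} (ht : t ≠ 0) (hsg : g⁻¹ * rho I t * g ∈ spH F₀ m) :
    g ∈ spH F₀ m := by
  set p := ringChar F with hp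
  have : Fact p.Prime := ⟨CharP.char_is_prime F p⟩
  have hgsp := hc.sp hg
  have hgisp := (spGL m F).inv_mem hgsp
  set E := Ev F I.k₀ with hE
  set y := yVec I t with hy
  have hyE : sympForm m F y E = 0 := yVec_E I t _
  set a₁ := ((g⁻¹ : GL (Fin m ⊕ Fin m) F) : Matrix (Fin m ⊕ Fin m) (Fin m ⊕ Fin m) F) *ᵥ E
    with ha₁
  set b₁ := ((g⁻¹ : GL (Fin m ⊕ Fin m) F) : Matrix (Fin m ⊕ Fin m) (Fin m ⊕ Fin m) F) *ᵥ y
    with hb₁
  have hba : sympForm m F b₁ a₁ = 0 := by rw [ha₁, hb₁, sp_apply hgisp, hyE]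
  have hab : sympForm m F a₁ b₁ = 0 := by rw [sf_swap, hba, neg_zero]
  set s' := g⁻¹ * rho I t * g with hs'
  have hs'e : s' = eichGL a₁ b₁ := by
    have := eichGL_conj hgisp E y
    rw [inv_inv] at this
    rw [hs', rho]; exact this
  have hs'p : s' ^ p = 1 := by
    rw [hs'e, eichGL_pow _ _ hba, CharP.cast_eq_zero, zero_smul, eichGL_zero]
  obtain ⟨d, hd0, hdrat⟩ := (SG.mem_subfieldSubgroup_one F₀ s').mp hsg.1
  have hdp : d ^ p ∈ F₀ := by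
    have h1 : (d • (s' : Matrix (Fin m ⊕ Fin m) (Fin m ⊕ Fin m) F)) ^ p
        ∈ SG.ratMat F₀ (Fin m ⊕ Fin m) := pow_mem hdrat p
    rw [smul_pow, ← Units.val_pow_eq_pow_val, hs'p, Units.val_one] at h1
    have h2 := h1 (Sum.inl I.k₀) (Sum.inl I.k₀)
    simpa using h2
  have hd : d ∈ F₀ := SF.sf_frob F₀ p d hdp
  have hs'rat : (s' : Matrix (Fin m ⊕ Fin m) (Fin m ⊕ Fin m) F)
      ∈ SG.ratMat F₀ (Fin m ⊕ Fin m) := by
    have : (s' : Matrix (Fin m ⊕ Fin m) (Fin m ⊕ Fin m) F)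
        = d⁻¹ • (d • (s' : Matrix (Fin m ⊕ Fin m) (Fin m ⊕ Fin m) F)) := by
      rw [smul_smul, inv_mul_cancel₀ hd0, one_smul]
    rw [this]; exact SG.smul_mem_ratMat hdrat (inv_mem hd)
  have hN : ∀ x, IsRat F₀ x →
      IsRat F₀ (sympForm m F x a₁ • b₁ + sympForm m F x b₁ • a₁) := by
    intro x hx
    have h1 := (rat_mulVec hs'rat hx).sub hx
    have e : (s' : Matrix (Fin m ⊕ Fin m) (Fin m ⊕ Fin m) F) *ᵥ x - x
        = sympForm m F x a₁ • b₁ + sympForm m F x b₁ • a₁ := by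
      rw [hs'e, eichGL_mulVec _ _ hba]; abel
    rwa [e] at h1
  have hind : ∀ α β : F, α • a₁ + β • b₁ = 0 → α = 0 ∧ β = 0 := by
    intro α β h
    apply yVec_indep I ht
    have := congrArg (fun v => (g : Matrix (Fin m ⊕ Fin m) (Fin m ⊕ Fin m) F) *ᵥ v) h
    simp only [mulVec_add, mulVec_smul, mulVec_zero] at this
    rwa [ha₁, hb₁, gl_mulVec_inv, gl_mulVec_inv] at this
  have ha₁0 : a₁ ≠ 0 := by
    intro h
    have := hind 1 0 (by rw [h]; simp)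
    exact one_ne_zero this.1
  obtain ⟨z₁, hz₁, hz₁a⟩ := exists_dual (F₀ := F₀) ha₁0
  set p₁ := sympForm m F z₁ a₁ with hp₁
  set q₁ := sympForm m F z₁ b₁ with hq₁
  have hp₁0 : p₁ ≠ 0 := by rw [hp₁, sf_swap]; exact neg_ne_zero.mpr hz₁a
  have hc0 : p₁ • b₁ - q₁ • a₁ ≠ 0 := by
    intro h
    have := hind (-q₁) p₁ (by rw [← h]; module)
    exact hp₁0 this.2
  obtain ⟨z₂, hz₂, hz₂c⟩ := exists_dual (F₀ := F₀) hc0
  set p₂ := sympForm m F z₂ a₁ with hp₂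
  set q₂ := sympForm m F z₂ b₁ with hq₂
  set Δ := p₁ * q₂ - p₂ * q₁ with hΔ
  have hΔ0 : Δ ≠ 0 := by
    have : sympForm m F (p₁ • b₁ - q₁ • a₁) z₂ = -Δ := by
      rw [sf_sub_left, sf_smul_left, sf_smul_left, sf_swap b₁ z₂, sf_swap a₁ z₂, ← hp₂, ← hq₂,
        hΔ]
      ring
    rw [this] at hz₂c
    exact neg_ne_zero.mp hz₂c
  set a' := p₁ • b₁ + q₁ • a₁ with ha'
  set b' := p₂ • b₁ + q₂ • a₁ with hb'
  have ha'r : IsRat F₀ a' := hN z₁ hz₁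
  have hb'r : IsRat F₀ b' := hN z₂ hz₂
  have ha'0 : a' ≠ 0 := by
    intro h
    have := hind q₁ p₁ (by rw [← h, ha']; module)
    exact hp₁0 this.2
  have ha₁e : a₁ = Δ⁻¹ • (p₁ • b' - p₂ • a') := by
    rw [ha', hb', eq_comm, inv_smul_eq_iff₀ hΔ0, hΔ]; module
  have hb'a' : sympForm m F b' a' = 0 := by
    rw [ha', hb']
    simp only [sf_add_left, sf_add_right, sf_smul_left, sf_smul_right, sf_self, hab, hba]
    ring
  obtain ⟨h₁, hh₁, hh₁a⟩ := exists_trans ha'r (isRat_Ev (F₀ := F₀) I.k₀) ha'0 (Ev_ne_zero _)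
  set b'' := (h₁ : Matrix (Fin m ⊕ Fin m) (Fin m ⊕ Fin m) F) *ᵥ b' with hb''
  have hh₁rat := rat_of_map hh₁.1 ha'r (isRat_Ev (F₀ := F₀) I.k₀) (Ev_ne_zero _) hh₁a
  have hb''r : IsRat F₀ b'' := rat_mulVec hh₁rat hb'r
  set c := b'' (Sum.inl I.k₀) with hcdef
  set y₁ := b'' - c • Ev F I.k₀ with hy₁
  have hy₁r : IsRat F₀ y₁ := hb''r.sub ((isRat_Ev _).smul (hb''r _))
  have hb''E : sympForm m F b'' (Ev F I.k₀) = 0 := by
    rw [hb'', ← hh₁a, sp_apply hh₁.2, hb'a']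
  have hy₁E : sympForm m F y₁ (Ev F I.k₀) = 0 := by
    rw [hy₁, sf_sub_left, hb''E, sf_smul_left, sf_self, mul_zero, sub_zero]
  have hy₁' : y₁ (Sum.inl I.k₀) = 0 := by
    rw [hy₁, Pi.sub_apply, Pi.smul_apply, smul_eq_mul, Ev_apply, if_pos rfl, mul_one, sub_self]
  have hy₁0 : y₁ ≠ 0 := by
    intro h0
    have h1 : b'' = c • Ev F I.k₀ := sub_eq_zero.1 h0
    have h2 : b' = c • a' := by
      have := gl_inv_mulVec h₁ b'
      rw [← hb'', h1, ← hh₁a, ← mulVec_smul, gl_inv_mulVec] at this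
      exact this.symm
    have h3 := hind (q₂ - c * q₁) (p₂ - c * p₁) (by
      have : b' - c • a' = 0 := sub_eq_zero.2 h2
      rw [← this, ha', hb']; module)
    apply hΔ0
    rw [hΔ]
    have e1 : q₂ = c * q₁ := sub_eq_zero.1 h3.1
    have e2 : p₂ = c * p₁ := sub_eq_zero.1 h3.2
    rw [e1, e2]; ring
  obtain ⟨h₂, hh₂, hh₂E, hh₂y⟩ := exists_fix_move I.k₀ I.i₁ I.h1k.symm hy₁r hy₁0 hy₁E hy₁'
  set k := h₂ * h₁ * g⁻¹ with hk
  have hkM : k ∈ M := M.mul_mem (M.mul_mem (hc.le hh₂) (hc.le hh₁)) (M.inv_mem hg)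
  set α := Δ⁻¹ * (p₁ * c - p₂) with hα
  set β := Δ⁻¹ * p₁ with hβ
  have hkE : (k : Matrix (Fin m ⊕ Fin m) (Fin m ⊕ Fin m) F) *ᵥ Ev F I.k₀
      = α • Ev F I.k₀ + β • Ev F I.i₁ := by
    have e : b'' = y₁ + c • Ev F I.k₀ := by rw [hy₁]; abel
    rw [hk, gl_mul_mulVec, gl_mul_mulVec, ← hE, ← ha₁, ha₁e, mulVec_smul, mulVec_smul, mulVec_sub,
      mulVec_smul, mulVec_smul, ← hb'', hh₁a, mulVec_sub, mulVec_smul, mulVec_smul, hh₂E,
      e, mulVec_add, mulVec_smul, hh₂E, hh₂y, hα, hβ]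
    module
  have hβ0 : β ≠ 0 := mul_ne_zero (inv_ne_zero hΔ0) hp₁0
  have hT : stGL (α • Ev F I.k₀ + β • Ev F I.i₁) 1 ∈ M := by
    have h1 := M.mul_mem (M.mul_mem hkM (hc.le (stGL_rat (isRat_Ev (F₀ := F₀) I.k₀)
      (one_mem _)))) (M.inv_mem hkM)
    rwa [stGL_conj (hc.sp hkM), hkE] at h1
  obtain ⟨hP1, hP2⟩ := lemP hc (i := I.k₀) (j := I.i₁) (k := I.i₂) (l := I.i₃) I.h1k.symm
    I.h2k.symm I.h3k.symm I.h12 I.h13 I.h23 α β 1 hT
  set w₁ := (β * α) • Ev F I.k₀ + (β * β) • Ev F I.i₁ with hw₁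
  have hw₁r : IsRat F₀ w₁ :=
    ((isRat_Ev _).smul (by convert hP1 using 1; ring)).add
      ((isRat_Ev _).smul (by convert hP2 using 1; ring))
  have hw₁0 : w₁ ≠ 0 := by
    intro h
    have := congrFun h (Sum.inl I.i₁)
    simp [hw₁, I.h1k] at this
    exact hβ0 this
  have hkE' : (k : Matrix (Fin m ⊕ Fin m) (Fin m ⊕ Fin m) F) *ᵥ Ev F I.k₀ = β⁻¹ • w₁ := by
    rw [hkE, hw₁, eq_comm, inv_smul_eq_iff₀ hβ0]; module
  obtain ⟨h₃, hh₃, hh₃w⟩ := exists_trans hw₁r (isRat_Ev (F₀ := F₀) I.k₀) hw₁0 (Ev_ne_zero _)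
  have hfin : ((h₃ * k : GL (Fin m ⊕ Fin m) F) : Matrix (Fin m ⊕ Fin m) (Fin m ⊕ Fin m) F)
      *ᵥ Ev F I.k₀ = β⁻¹ • Ev F I.k₀ := by
    rw [gl_mul_mulVec, hkE', mulVec_smul, hh₃w]
  have h4 := lemPL hc I.k₀ (M.mul_mem (hc.le hh₃) hkM) β⁻¹ hfin
  have h5 : g⁻¹ ∈ spH F₀ m := by
    have e : g⁻¹ = h₁⁻¹ * h₂⁻¹ * h₃⁻¹ * (h₃ * k) := by rw [hk]; group
    rw [e]
    exact (spH F₀ m).mul_mem ((spH F₀ m).mul_mem ((spH F₀ m).mul_mem ((spH F₀ m).inv_mem hh₁)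
      ((spH F₀ m).inv_mem hh₂)) ((spH F₀ m).inv_mem hh₃)) h4
  have := (spH F₀ m).inv_mem h5
  rwa [inv_inv] at this

end Cfsg.Agent.Helper97.SpSF
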