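-- helper97 library: subfield subgroups of Sp_2m: the averaging argument (step 2).
import Cfsg.Agent.Helper97.SpSFFree

set_option autoImplicit false
set_option linter.unusedSimpArgs false
set_option linter.unusedVariables false
open Cfsg Cfsg.Geo Matrix Cfsg.Agent.Helper94

namespace Cfsg.Agent.Helper97.SpSF

universe u

variable {F : Type u} [Field F] {m : ℕ} {F₀ : Subfield F}
  {M : Subgroup (GL (Fin m ⊕ Fin m) F)}

theorem mat_ext {A B : Matrix (Fin m ⊕ Fin m) (Fin m ⊕ Fin m) F}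
    (h : ∀ x, A *ᵥ x = B *ᵥ x) : A = B := by
  ext i j
  have h1 := congrFun (h (Pi.single j 1)) i
  simpa [Matrix.mulVec_single_one] using h1

/-- The rank-one matrix `x ↦ θ f(x,u) u`. -/
noncomputable def Nm (u : Fin m ⊕ Fin m → F) (θ : F) :
    Matrix (Fin m ⊕ Fin m) (Fin m ⊕ Fin m) F :=
  (stGL u θ : Matrix (Fin m ⊕ Fin m) (Fin m ⊕ Fin m) F) - 1

theorem Nm_mulVec (u : Fin m ⊕ Fin m → F) (θ : F) (x : Fin m ⊕ Fin m → F) :
    Nm u θ *ᵥ x = (θ * sympForm m F x u) • u := by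
  rw [Nm, sub_mulVec, stGL_mulVec, one_mulVec, add_sub_cancel_left]

theorem Nm_conj {g : GL (Fin m ⊕ Fin m) F} (hg : g ∈ spGL m F) (u : Fin m ⊕ Fin m → F) (θ : F) :
    (g : Matrix (Fin m ⊕ Fin m) (Fin m ⊕ Fin m) F) * Nm u θ
        * ((g⁻¹ : GL (Fin m ⊕ Fin m) F) : Matrix (Fin m ⊕ Fin m) (Fin m ⊕ Fin m) F)
      = Nm ((g : Matrix (Fin m ⊕ Fin m) (Fin m ⊕ Fin m) F) *ᵥ u) θ := by
  rw [Nm, Nm, mul_sub, sub_mul, mul_one, Units.mul_inv, ← stGL_conj hg, Units.val_mul,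
    Units.val_mul]

theorem Nm_smul (c : F) (v : Fin m ⊕ Fin m → F) (θ : F) : Nm (c • v) θ = Nm v (c * c * θ) := by
  rw [Nm, Nm, stGL_smul]

theorem Nm_zero (θ : F) : Nm (0 : Fin m ⊕ Fin m → F) θ = 0 := by
  apply mat_ext
  intro x
  rw [Nm_mulVec, smul_zero, zero_mulVec]

/-- The polarisation of `Nm`. -/
noncomputable def Tm (a b : Fin m ⊕ Fin m → F) (θ : F) :
    Matrix (Fin m ⊕ Fin m) (Fin m ⊕ Fin m) F :=
  Nm (a + b) θ - Nm a θ - Nm b θ

theorem Nm_add (a b : Fin m ⊕ Fin m → F) (θ : F) :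
    Nm (a + b) θ = Nm a θ + Nm b θ + Tm a b θ := by
  rw [Tm]; abel

theorem Tm_mulVec (a b : Fin m ⊕ Fin m → F) (θ : F) (x : Fin m ⊕ Fin m → F) :
    Tm a b θ *ᵥ x = (θ * sympForm m F x a) • b + (θ * sympForm m F x b) • a := by
  rw [Tm, sub_mulVec, sub_mulVec, Nm_mulVec, Nm_mulVec, Nm_mulVec, sf_add_right]
  module

theorem Tm_add_right (a b b' : Fin m ⊕ Fin m → F) (θ : F) :
    Tm a (b + b') θ = Tm a b θ + Tm a b' θ := by
  apply mat_ext
  intro x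
  rw [add_mulVec, Tm_mulVec, Tm_mulVec, Tm_mulVec, sf_add_right]
  module

theorem Tm_smul_right (c : F) (a b : Fin m ⊕ Fin m → F) (θ : F) :
    Tm a (c • b) θ = Tm a b (θ * c) := by
  apply mat_ext
  intro x
  rw [Tm_mulVec, Tm_mulVec, sf_smul_right]
  module

theorem Tm_smul_left (c : F) (a b : Fin m ⊕ Fin m → F) (θ : F) :
    Tm (c • a) b θ = Tm a b (θ * c) := by
  apply mat_ext
  intro x
  rw [Tm_mulVec, Tm_mulVec, sf_smul_right]
  module

theorem Tm_zero_right (a : Fin m ⊕ Fin m → F) (θ : F) : Tm a 0 θ = 0 := by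
  apply mat_ext
  intro x
  rw [Tm_mulVec, sf_zero_right, zero_mulVec]
  module

theorem stGL_ratMat {u : Fin m ⊕ Fin m → F} (hu : IsRat F₀ u) {c : F} (hc : c ∈ F₀) :
    (stGL u c : Matrix (Fin m ⊕ Fin m) (Fin m ⊕ Fin m) F) ∈ SG.ratMat F₀ (Fin m ⊕ Fin m) := by
  intro i j
  have h1 : IsRat F₀ ((stGL u c : Matrix (Fin m ⊕ Fin m) (Fin m ⊕ Fin m) F) *ᵥ Pi.single j 1) := by
    rw [stGL_mulVec]
    exact (isRat_single j).add (hu.smul (mul_mem hc ((isRat_single j).symp hu)))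
  have h2 := h1 i
  rwa [Matrix.mulVec_single_one] at h2

/-- The matrices `E_k` with `rho I t = 1 + Σ t_k E_k`. -/
noncomputable def Rk (I : SF.Idx4 m) (i : Fin m) : Matrix (Fin m ⊕ Fin m) (Fin m ⊕ Fin m) F :=
  (eichGL (Ev F I.k₀) (Ev F i) : Matrix (Fin m ⊕ Fin m) (Fin m ⊕ Fin m) F) - 1

theorem Rk_mulVec (I : SF.Idx4 m) (i : Fin m) (x : Fin m ⊕ Fin m → F) :
    Rk (F := F) I i *ᵥ x
      = sympForm m F x (Ev F I.k₀) • Ev F i + sympForm m F x (Ev F i) • Ev F I.k₀ := by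
  rw [Rk, sub_mulVec, eichGL_mulVec _ _ (sf_EE _ _), one_mulVec]
  abel

theorem rho_val (I : SF.Idx4 m) (t : F₀ × F₀ × F₀) :
    (rho I t : Matrix (Fin m ⊕ Fin m) (Fin m ⊕ Fin m) F)
      = 1 + ((t.1 : F) • Rk I I.i₁ + (t.2.1 : F) • Rk I I.i₂ + (t.2.2 : F) • Rk I I.i₃) := by
  apply mat_ext
  intro x
  rw [rho, eichGL_mulVec _ _ (yVec_E I t _)]
  simp only [add_mulVec, smul_mulVec, one_mulVec, Rk_mulVec, yVec, sf_add_right, sf_smul_right]
  module

theorem rho_inv_val (I : SF.Idx4 m) (t : F₀ × F₀ × F₀) :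
    (((rho I t)⁻¹ : GL (Fin m ⊕ Fin m) F) : Matrix (Fin m ⊕ Fin m) (Fin m ⊕ Fin m) F)
      = 1 - ((t.1 : F) • Rk I I.i₁ + (t.2.1 : F) • Rk I I.i₂ + (t.2.2 : F) • Rk I I.i₃) := by
  rw [rho_inv, rho_val]
  simp [neg_smul]
  abel

theorem rho_E (I : SF.Idx4 m) (t : F₀ × F₀ × F₀) :
    (rho I t : Matrix (Fin m ⊕ Fin m) (Fin m ⊕ Fin m) F) *ᵥ Ev F I.k₀ = Ev F I.k₀ := by
  have h : sympForm m F (Ev F I.k₀) (yVec I t) = 0 := by rw [sf_swap, yVec_E, neg_zero]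
  rw [rho, eichGL_mulVec _ _ (yVec_E I t _), sf_self, h]
  module

theorem rho_conj_Nm (I : SF.Idx4 m) (t : F₀ × F₀ × F₀) (θ : F) :
    (rho I t : Matrix (Fin m ⊕ Fin m) (Fin m ⊕ Fin m) F) * Nm (Ev F I.k₀) θ
        * (((rho I t)⁻¹ : GL (Fin m ⊕ Fin m) F) : Matrix (Fin m ⊕ Fin m) (Fin m ⊕ Fin m) F)
      = Nm (Ev F I.k₀) θ := by
  rw [Nm_conj (rho_mem I t).2, rho_E]

section Avg

open Classical

variable [Fintype (GL (Fin m ⊕ Fin m) F ⧸ subfieldSubgroup F₀ (1 : GL (Fin m ⊕ Fin m) F))]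

/-- The averaging operator agrees with the retraction on the root elements `θ N_E`. -/
theorem sfE_root [Finite F] [Fintype F₀] (hc : Ctx F₀ M) (I : SF.Idx4 m) (θ : F) :
    SG.sfE F₀ M (Sum.inl I.k₀) (Nm (Ev F I.k₀) θ)
      = SG.sfPi F₀ (Fin m ⊕ Fin m) (Nm (Ev F I.k₀) θ) := by
  set X : Matrix (Fin m ⊕ Fin m) (Fin m ⊕ Fin m) F := Nm (Ev F I.k₀) θ with hX
  set i₀ : Fin m ⊕ Fin m := Sum.inl I.k₀ with hi₀
  have h1mem : (QuotientGroup.mk 1 : GL (Fin m ⊕ Fin m) F ⧸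
      subfieldSubgroup F₀ (1 : GL (Fin m ⊕ Fin m) F)) ∈ SG.sfQ F₀ M :=
    SG.mem_sfQ.mpr ⟨1, M.one_mem, rfl⟩
  rw [SG.sfE_apply, ← Finset.add_sum_erase _ _ h1mem, SG.sfF_mk, SG.sfPiAt_one]
  have hrest : ∑ q ∈ (SG.sfQ F₀ M).erase (QuotientGroup.mk 1), SG.sfF F₀ i₀ X q = 0 := by
    refine SG.orbit_sum_zero (A := F₀ × F₀ × F₀) (fun t q => rho I t • q) ?_ ?_
      (SG.sfF F₀ i₀ X) ?_ _ _ rfl ?_ ?_
    · intro q
      show rho I (0 : F₀ × F₀ × F₀) • q = q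
      rw [rho_zero, one_smul]
    · intro a b q
      show rho I (a + b) • q = rho I a • (rho I b • q)
      rw [rho_add, mul_smul]
    · intro q
      induction q using QuotientGroup.induction_on with
      | H g =>
        have hterm : ∀ t : F₀ × F₀ × F₀,
            SG.sfF F₀ i₀ X (rho I t • (QuotientGroup.mk g : GL (Fin m ⊕ Fin m) F ⧸
                subfieldSubgroup F₀ (1 : GL (Fin m ⊕ Fin m) F)))
              = (rho I t : Matrix (Fin m ⊕ Fin m) (Fin m ⊕ Fin m) F) * SG.sfPiAt F₀ g X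
                * (((rho I t)⁻¹ : GL (Fin m ⊕ Fin m) F) :
                  Matrix (Fin m ⊕ Fin m) (Fin m ⊕ Fin m) F) := by
          intro t
          have h1 := SG.sfF_conj i₀ (rho I t) X
            (rho I t • (QuotientGroup.mk g : GL (Fin m ⊕ Fin m) F ⧸
              subfieldSubgroup F₀ (1 : GL (Fin m ⊕ Fin m) F)))
          rw [inv_smul_smul, SG.sfF_mk, hX, rho_conj_Nm] at h1
          exact h1
        simp only [hterm, rho_val, rho_inv_val]
        exact SG.lemN F₀ _ _ _ _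
    · intro t q hq
      rw [Finset.mem_erase] at hq ⊢
      refine ⟨fun h => hq.1 ?_, (SG.smul_mem_sfQ (hc.le (rho_mem I t)) q).mp hq.2⟩
      have h2 : q = (rho I t)⁻¹ • (QuotientGroup.mk 1 : GL (Fin m ⊕ Fin m) F ⧸
          subfieldSubgroup F₀ (1 : GL (Fin m ⊕ Fin m) F)) := by
        rw [← h, inv_smul_smul]
      rw [h2, MulAction.Quotient.smul_mk, smul_eq_mul, mul_one]
      exact QuotientGroup.eq.mpr (by simpa using (rho_mem I t).1)
    · intro t q hq hfix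
      by_contra ht
      rw [Finset.mem_erase] at hq
      obtain ⟨g, hg, rfl⟩ := SG.mem_sfQ.mp hq.2
      apply hq.1
      have hfix' : (QuotientGroup.mk (rho I t * g) : GL (Fin m ⊕ Fin m) F ⧸
          subfieldSubgroup F₀ (1 : GL (Fin m ⊕ Fin m) F)) = QuotientGroup.mk g := hfix
      have h1 : (rho I t * g)⁻¹ * g ∈ subfieldSubgroup F₀ (1 : GL (Fin m ⊕ Fin m) F) :=
        QuotientGroup.eq.mp hfix'
      have h2 : g⁻¹ * rho I t * g ∈ spH F₀ m := by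
        refine ⟨?_, (spGL m F).mul_mem ((spGL m F).mul_mem ((spGL m F).inv_mem (hc.sp hg))
          (rho_mem I t).2) (hc.sp hg)⟩
        have h3 := (subfieldSubgroup F₀ (1 : GL (Fin m ⊕ Fin m) F)).inv_mem h1
        have e : ((rho I t * g)⁻¹ * g)⁻¹ = g⁻¹ * rho I t * g := by group
        rwa [e] at h3
      have h3 := lemFree hc I hg ht h2
      exact QuotientGroup.eq.mpr (by simpa using h3.1)
  rw [hrest, add_zero]

end Avg

/-- Step 2: an overgroup of the subfield group inside `Sp_2m` all of whose transvections with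
rational centre are rational is the subfield group. -/
theorem sp_step2 [Fintype F] (hc : Ctx F₀ M) : M ≤ spH F₀ m := by
  classical
  haveI : Fintype F₀ := Fintype.ofFinite _
  haveI : Fintype (GL (Fin m ⊕ Fin m) F ⧸ subfieldSubgroup F₀ (1 : GL (Fin m ⊕ Fin m) F)) :=
    Fintype.ofFinite _
  set I := SF.idx4 hc.four with hI
  set i₀ : Fin m ⊕ Fin m := Sum.inl I.k₀ with hi₀
  have hb : ∀ u : Fin m ⊕ Fin m → F, IsRat F₀ u → ∀ θ : F, Nm u θ ∈ SG.sfP F₀ M i₀ := by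
    intro u hu θ
    by_cases hu0 : u = 0
    · rw [hu0, Nm_zero]; exact zero_mem _
    obtain ⟨h, hh, hhE⟩ := exists_trans (isRat_Ev (F₀ := F₀) I.k₀) hu (Ev_ne_zero _) hu0
    refine SG.sfP_conj i₀ (hc.le hh) hh.1 (SG.mem_sfP.mpr (sfE_root hc I θ)) ?_
    rw [← hhE, ← Nm_conj hh.2, Matrix.mul_assoc, Matrix.mul_assoc, Units.inv_mul, Matrix.mul_one]
  have hT : ∀ a b : Fin m ⊕ Fin m → F, IsRat F₀ a → IsRat F₀ b → ∀ θ : F,
      Tm a b θ ∈ SG.sfP F₀ M i₀ := fun a b ha hb' θ =>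
    sub_mem (sub_mem (hb _ (ha.add hb') θ) (hb _ ha θ)) (hb _ hb' θ)
  have hT2 : ∀ (v : Fin m ⊕ Fin m → F) (s : Finset (Fin m ⊕ Fin m)) (a : Fin m ⊕ Fin m → F),
      IsRat F₀ a → ∀ θ : F,
      Tm a (∑ j ∈ s, v j • (Pi.single j 1 : Fin m ⊕ Fin m → F)) θ ∈ SG.sfP F₀ M i₀ := by
    intro v s
    induction s using Finset.induction_on with
    | empty =>
      intro a ha θ
      rw [Finset.sum_empty, Tm_zero_right]; exact zero_mem _
    | insert j s hj ih =>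
      intro a ha θ
      rw [Finset.sum_insert hj, Tm_add_right, Tm_smul_right]
      exact add_mem (hT _ _ ha (isRat_single j) _) (ih a ha θ)
  have hN2 : ∀ (v : Fin m ⊕ Fin m → F) (s : Finset (Fin m ⊕ Fin m)) (θ : F),
      Nm (∑ j ∈ s, v j • (Pi.single j 1 : Fin m ⊕ Fin m → F)) θ ∈ SG.sfP F₀ M i₀ := by
    intro v s
    induction s using Finset.induction_on with
    | empty =>
      intro θ
      rw [Finset.sum_empty, Nm_zero]; exact zero_mem _
    | insert j s hj ih =>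
      intro θ
      rw [Finset.sum_insert hj, Nm_add, Nm_smul, Tm_smul_left]
      exact add_mem (add_mem (hb _ (isRat_single j) _) (ih θ)) (hT2 v s _ (isRat_single j) _)
  have hNall : ∀ (v : Fin m ⊕ Fin m → F) (θ : F), Nm v θ ∈ SG.sfP F₀ M i₀ := by
    intro v θ
    have := hN2 v Finset.univ θ
    rwa [← pi_eq_sum_univ' v] at this
  intro m' hm'
  set v := (m' : Matrix (Fin m ⊕ Fin m) (Fin m ⊕ Fin m) F) *ᵥ Ev F I.k₀ with hv
  have hY : Nm v 1 = (m' : Matrix (Fin m ⊕ Fin m) (Fin m ⊕ Fin m) F) * Nm (Ev F I.k₀) 1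
      * ((m'⁻¹ : GL (Fin m ⊕ Fin m) F) : Matrix (Fin m ⊕ Fin m) (Fin m ⊕ Fin m) F) :=
    (Nm_conj (hc.sp hm') _ _).symm
  have hrat1 : Nm (Ev F I.k₀) (1 : F) ∈ SG.ratMat F₀ (Fin m ⊕ Fin m) :=
    sub_mem (stGL_ratMat (isRat_Ev _) (one_mem _)) (one_mem _)
  have hEY : SG.sfE F₀ M i₀ (Nm v 1) = Nm v 1 := by
    rw [hY, SG.sfE_conj i₀ hm', SG.mem_sfP.mp (hb _ (isRat_Ev _) 1), SG.sfPi_rat hrat1]
  have hYrat : Nm v 1 ∈ SG.ratMat F₀ (Fin m ⊕ Fin m) :=
    SG.mem_ratMat_of_sfPi_eq (by rw [← SG.mem_sfP.mp (hNall v 1)]; exact hEY)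
  have hent : ∀ i j, v i * v j ∈ F₀ := by
    intro i j
    rcases j with a | a
    · have h1 := hYrat i (Sum.inr a)
      have h2 : Nm v 1 i (Sum.inr a) = v (Sum.inl a) * v i := by
        have := congrFun (Nm_mulVec v 1 (Pi.single (Sum.inr a) 1)) i
        rw [Matrix.mulVec_single_one,
          show (Pi.single (Sum.inr a) 1 : Fin m ⊕ Fin m → F) = Fv F a from rfl, sf_Fv_left,
          one_mul] at this
        exact this
      rw [h2] at h1
      rwa [mul_comm]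
    · have h1 := hYrat i (Sum.inl a)
      have h2 : Nm v 1 i (Sum.inl a) = - (v (Sum.inr a) * v i) := by
        have := congrFun (Nm_mulVec v 1 (Pi.single (Sum.inl a) 1)) i
        rw [Matrix.mulVec_single_one,
          show (Pi.single (Sum.inl a) 1 : Fin m ⊕ Fin m → F) = Ev F a from rfl, sf_Ev_left,
          one_mul] at this
        rw [← neg_mul]
        exact this
      rw [h2] at h1
      have h3 := neg_mem h1
      rw [neg_neg] at h3
      rwa [mul_comm]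
  have hv0 : v ≠ 0 := by
    intro h
    have := gl_inv_mulVec m' (Ev F I.k₀)
    rw [← hv, h, mulVec_zero] at this
    exact Ev_ne_zero _ this.symm
  obtain ⟨i, hi⟩ : ∃ i, v i ≠ 0 := by
    by_contra hcon
    push Not at hcon
    exact hv0 (funext hcon)
  set r := v i • v with hr
  have hrr : IsRat F₀ r := fun j => by
    rw [hr, Pi.smul_apply, smul_eq_mul]; exact hent i j
  have hr0 : r ≠ 0 := by
    intro h
    have := congrFun h i
    rw [hr, Pi.smul_apply, smul_eq_mul, Pi.zero_apply] at this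
    exact hi (mul_self_eq_zero.mp this)
  obtain ⟨h, hh, hhr⟩ := exists_trans hrr (isRat_Ev (F₀ := F₀) I.k₀) hr0 (Ev_ne_zero _)
  have hfin : ((h * m' : GL (Fin m ⊕ Fin m) F) : Matrix (Fin m ⊕ Fin m) (Fin m ⊕ Fin m) F)
      *ᵥ Ev F I.k₀ = (v i)⁻¹ • Ev F I.k₀ := by
    rw [gl_mul_mulVec, ← hv, ← hhr, hr, mulVec_smul, smul_smul, inv_mul_cancel₀ hi, one_smul]
  have h4 := lemPL hc I.k₀ (M.mul_mem (hc.le hh) hm') _ hfin
  have e : m' = h⁻¹ * (h * m') := by group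
  rw [e]
  exact (spH F₀ m).mul_mem ((spH F₀ m).inv_mem hh) h4

end Cfsg.Agent.Helper97.SpSF
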