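-- helper97 library: subfield subgroups of Sp_2m: a non-rational transvection with rational centre generates Sp (step 1).
import Cfsg.Agent.Helper97.SpSFRoot
import Cfsg.Agent.Helper97.SFStep1

set_option autoImplicit false
set_option linter.unusedSimpArgs false
set_option linter.unusedVariables false
set_option linter.style.haveILetI false
open Cfsg Cfsg.Geo Matrix Cfsg.Agent.Helper94

namespace Cfsg.Agent.Helper97.SpSF

universe u

variable {F : Type u} [Field F] {m : ℕ} {F₀ : Subfield F}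
  {M : Subgroup (GL (Fin m ⊕ Fin m) F)}

theorem eichGL_neg_mem {a y : Fin m ⊕ Fin m → F} (hya : sympForm m F y a = 0)
    (h : eichGL a y ∈ M) : eichGL a (-y) ∈ M := by
  have e : eichGL a (-y) = (eichGL a y)⁻¹ := by
    rw [eq_inv_iff_mul_eq_one, eichGL_mul _ _ _ (by rw [sf_neg_left, hya, neg_zero]) hya
      (by rw [sf_neg_left, sf_self, neg_zero]), neg_add_cancel, eichGL_zero]
  rw [e]; exact M.inv_mem h

/-- The short-root parameter algebra. -/
def lamSp (hm : 3 ≤ m) (F₀ : Subfield F) (M : Subgroup (GL (Fin m ⊕ Fin m) F))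
    (hle : spH F₀ m ≤ M) : Subalgebra F₀ F where
  carrier := {ν | ∀ i j : Fin m, i ≠ j → eichGL (Ev F i) (ν • Fv F j) ∈ M}
  mul_mem' := by
    intro ν μ hν hμ i j hij
    obtain ⟨k, hki, hkj⟩ := exists_third hm i j
    have hFki : sympForm m F ((-ν) • Fv F k) (Ev F i) = 0 := by
      rw [sf_smul_left, sf_FE, if_neg hki, mul_zero]
    have hA : eichGL (Ev F i) ((-ν) • Fv F k) ∈ M := by
      have := eichGL_neg_mem (by rw [sf_smul_left, sf_FE, if_neg hki, mul_zero])
        (hν i k (Ne.symm hki))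
      rwa [← neg_smul] at this
    have hB := hμ k j hkj
    have hAsp : eichGL (Ev F i) ((-ν) • Fv F k) ∈ spGL m F := eichGL_mem _ _
    have e1 : (eichGL (Ev F i) ((-ν) • Fv F k) : Matrix (Fin m ⊕ Fin m) (Fin m ⊕ Fin m) F)
        *ᵥ Ev F k = Ev F k + ν • Ev F i := by
      rw [eichGL_mulVec _ _ hFki, sf_EE, sf_smul_right, sf_EF, if_pos rfl]
      module
    have e2 : (eichGL (Ev F i) ((-ν) • Fv F k) : Matrix (Fin m ⊕ Fin m) (Fin m ⊕ Fin m) F)
        *ᵥ (μ • Fv F j) = μ • Fv F j := by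
      rw [eichGL_mulVec _ _ hFki, sf_smul_left, sf_FE, if_neg (Ne.symm hij), sf_smul_left,
        sf_smul_right, sf_FF]
      module
    have e3 : eichGL (Ev F k + ν • Ev F i) (μ • Fv F j)
        = eichGL (Ev F k) (μ • Fv F j) * eichGL (Ev F i) ((ν * μ) • Fv F j) := by
      have h1 : sympForm m F (Ev F k) (μ • Fv F j) = 0 := by
        rw [sf_smul_right, sf_EF, if_neg hkj, mul_zero]
      have h2 : sympForm m F (ν • Ev F i) (μ • Fv F j) = 0 := by
        rw [sf_smul_left, sf_smul_right, sf_EF, if_neg hij, mul_zero, mul_zero]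
      have h3 : sympForm m F (Ev F k) (ν • Ev F i) = 0 := by rw [sf_smul_right, sf_EE, mul_zero]
      have h1' : sympForm m F (μ • Fv F j) (Ev F k) = 0 := by rw [sf_swap, h1, neg_zero]
      have h2' : sympForm m F (μ • Fv F j) (ν • Ev F i) = 0 := by rw [sf_swap, h2, neg_zero]
      rw [eichGL_symm _ _ (show sympForm m F (μ • Fv F j) (Ev F k + ν • Ev F i) = 0 by
          rw [sf_add_right, h1', h2', add_zero]),
        ← eichGL_mul _ _ _ h1 h2 h3, ← eichGL_symm _ _ h1', ← eichGL_symm _ _ h2',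
        eichGL_smul_left _ _ _ (by rw [sf_smul_left, sf_FE, if_neg (Ne.symm hij), mul_zero]),
        smul_smul]
    have h4 := M.mul_mem (M.mul_mem hA hB) (M.inv_mem hA)
    rw [eichGL_conj hAsp, e1, e2, e3] at h4
    have h5 := M.mul_mem (M.inv_mem hB) h4
    rwa [inv_mul_cancel_left] at h5
  add_mem' := by
    intro ν μ hν hμ i j hij
    have h0 : ∀ θ : F, sympForm m F (θ • Fv F j) (Ev F i) = 0 := fun θ => by
      rw [sf_smul_left, sf_FE, if_neg (Ne.symm hij), mul_zero]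
    show eichGL (Ev F i) ((ν + μ) • Fv F j) ∈ M
    rw [add_smul, ← eichGL_mul _ _ _ (h0 ν) (h0 μ)
      (by rw [sf_smul_left, sf_smul_right, sf_FF, mul_zero, mul_zero])]
    exact M.mul_mem (hν i j hij) (hμ i j hij)
  algebraMap_mem' := by
    intro c i j hij
    exact hle (eichGL_rat (isRat_Ev i) ((isRat_Fv j).smul c.2))

theorem mem_lamSp (hm : 3 ≤ m) (hle : spH F₀ m ≤ M) (ν : F) :
    ν ∈ lamSp hm F₀ M hle ↔ ∀ i j : Fin m, i ≠ j → eichGL (Ev F i) (ν • Fv F j) ∈ M := Iff.rfl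

theorem stGL_spread (hle : spH F₀ m ≤ M) {u : Fin m ⊕ Fin m → F} (hu : IsRat F₀ u)
    (hu0 : u ≠ 0) {c : F} (h : stGL u c ∈ M) {v : Fin m ⊕ Fin m → F} (hv : IsRat F₀ v) :
    stGL v c ∈ M := by
  by_cases hv0 : v = 0
  · rw [hv0]; exact zero_mem_tvCentres M c
  obtain ⟨g, hg, hgu⟩ := exists_trans hu hv hu0 hv0
  have := M.mul_mem (M.mul_mem (hle hg) h) (M.inv_mem (hle hg))
  rwa [stGL_conj hg.2, hgu] at this

theorem lamSp_of_stGL (hm : 3 ≤ m) (hle : spH F₀ m ≤ M) {c : F}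
    (h : ∀ v : Fin m ⊕ Fin m → F, IsRat F₀ v → stGL v c ∈ M) : c ∈ lamSp hm F₀ M hle := by
  intro i j hij
  rw [eichGL_param _ _ (by rw [sf_FE, if_neg (Ne.symm hij)])]
  have hneg : ∀ v : Fin m ⊕ Fin m → F, IsRat F₀ v → stGL v (-c) ∈ M := fun v hv => by
    rw [← SpSF.stGL_inv]; exact M.inv_mem (h v hv)
  exact M.mul_mem (M.mul_mem (h _ ((isRat_Ev i).add (isRat_Fv j))) (hneg _ (isRat_Ev i)))
    (hneg _ (isRat_Fv j))

theorem stGL_sq_of_lamSp (hm : 3 ≤ m) (hle : spH F₀ m ≤ M) {ν : F}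
    (h : ν ∈ lamSp hm F₀ M hle) {v : Fin m ⊕ Fin m → F} (hv : IsRat F₀ v) :
    stGL v (ν ^ 2) ∈ M := by
  set i : Fin m := ⟨0, by omega⟩ with hi
  set j : Fin m := ⟨1, by omega⟩ with hj
  have hij : i ≠ j := by simp [hi, hj, Fin.ext_iff]
  have hg := h i j hij
  have hνF : sympForm m F (ν • Fv F j) (Ev F i) = 0 := by
    rw [sf_smul_left, sf_FE, if_neg (Ne.symm hij), mul_zero]
  have hgE : (eichGL (Ev F i) (ν • Fv F j) : Matrix (Fin m ⊕ Fin m) (Fin m ⊕ Fin m) F) *ᵥ Ev F j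
      = (-ν) • Ev F i + (1 : F) • Ev F j := by
    rw [eichGL_mulVec _ _ hνF, sf_EE, sf_smul_right, sf_EF, if_pos rfl]
    module
  have h1 : stGL ((-ν) • Ev F i + (1 : F) • Ev F j) 1 ∈ M := by
    rw [← hgE, ← stGL_conj (eichGL_mem _ _)]
    exact M.mul_mem (M.mul_mem hg (hle (stGL_rat (isRat_Ev j) (one_mem _)))) (M.inv_mem hg)
  rw [stGL_decomp _ _ (sf_EE j i)] at h1
  have hX : stGL (Ev F i) (1 * (-ν) ^ 2) * eichGL (Ev F i) ((1 * (-ν) * 1) • Ev F j) ∈ M := by
    have h2 := M.mul_mem h1 (M.inv_mem (hle (stGL_rat (isRat_Ev (F₀ := F₀) j)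
      (show (1 * 1 ^ 2 : F) ∈ F₀ by simp [one_mem]))))
    rwa [mul_inv_cancel_right] at h2
  have hwa : (weyl F j : Matrix (Fin m ⊕ Fin m) (Fin m ⊕ Fin m) F) *ᵥ Ev F i = Ev F i :=
    weyl_fix j _ (by rw [Ev_inl, if_neg (Ne.symm hij)]) (Ev_inr i j)
  have hY : eichGL (Ev F i) (ν • Ev F j) ∈ M := by
    have h2 := M.mul_mem (M.mul_mem (hle (weyl_mem (F₀ := F₀) j)) hg)
      (M.inv_mem (hle (weyl_mem (F₀ := F₀) j)))
    rwa [eichGL_conj (weyl_mem (F₀ := F₀) j).2, hwa, mulVec_smul, weyl_Fv] at h2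
  have hXY := M.mul_mem hX hY
  rw [mul_assoc, eichGL_mul _ _ _ (by rw [sf_smul_left, sf_EE, mul_zero])
    (by rw [sf_smul_left, sf_EE, mul_zero])
    (by rw [sf_smul_left, sf_smul_right, sf_self, mul_zero, mul_zero])] at hXY
  have e0 : (1 * (-ν) * 1) • Ev F j + ν • Ev F j = 0 := by module
  rw [e0, eichGL_zero, mul_one] at hXY
  have e1 : (1 * (-ν) ^ 2 : F) = ν ^ 2 := by ring
  rw [e1] at hXY
  exact stGL_spread hle (isRat_Ev i) (Ev_ne_zero i) hXY hv

theorem plane_step (M : Subgroup (GL (Fin m ⊕ Fin m) F)) (k : Fin m)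
    (hE : Ev F k ∈ tvCentres M) (hF : Fv F k ∈ tvCentres M)
    (x y₀ : Fin m ⊕ Fin m → F) (a₀ b₀ : F) (hy₀ : y₀ = a₀ • Ev F k + b₀ • Fv F k)
    (hne : sympForm m F x y₀ ≠ 0)
    (hy : x - (x (Sum.inl k) • Ev F k + x (Sum.inr k) • Fv F k) + y₀ ∈ tvCentres M) :
    x ∈ tvCentres M := by
  set a := x (Sum.inl k) with ha
  set b := x (Sum.inr k) with hb
  set u : Fin m ⊕ Fin m → F := (a - a₀) • Ev F k + (b - b₀) • Fv F k with hu
  have huT : u ∈ tvCentres M :=
    tvCentres_line M hE hF (by rw [sf_EF, if_pos rfl]; exact neg_ne_zero.mpr one_ne_zero) _ _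
  set y := x - (a • Ev F k + b • Fv F k) + y₀ with hyd
  have hxy : y + u = x := by rw [hyd, hu, hy₀]; module
  have hyu : sympForm m F y u = - sympForm m F x y₀ := by
    have h1 : y = x - u := eq_sub_of_add_eq hxy
    rw [h1, sf_sub_left, sf_self, sub_zero, hu, hy₀]
    simp only [sf_add_right, sf_smul_right, sf_Ev_right, sf_Fv_right, ← ha, ← hb]
    ring
  have hγ : sympForm m F y u ≠ 0 := by rw [hyu]; exact neg_ne_zero.mpr hne
  have := tvCentres_map M (huT (sympForm m F y u)⁻¹) (stGL_mem u _) hy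
  rw [stGL_mulVec, inv_mul_cancel₀ hγ, one_smul, hxy] at this
  exact this

theorem plane_coord {k : Fin m} {x y₀ : Fin m ⊕ Fin m → F} (hy₀ : IsRat F₀ y₀) (i : Fin m)
    (hi : i ≠ k → x (Sum.inl i) ∈ F₀ ∧ x (Sum.inr i) ∈ F₀) :
    (x - (x (Sum.inl k) • Ev F k + x (Sum.inr k) • Fv F k) + y₀) (Sum.inl i) ∈ F₀ ∧
      (x - (x (Sum.inl k) • Ev F k + x (Sum.inr k) • Fv F k) + y₀) (Sum.inr i) ∈ F₀ := by
  by_cases hik : i = k
  · subst hik
    simp
    exact ⟨hy₀ _, hy₀ _⟩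
  · obtain ⟨h1, h2⟩ := hi hik
    simp [hik]
    exact ⟨add_mem h1 (hy₀ _), add_mem h2 (hy₀ _)⟩

/-- Step 1: an overgroup of the subfield group containing a non-rational transvection with
rational centre contains `Sp_2m`. -/
theorem sp_step1 [Fintype F] (hm : 3 ≤ m) (F₀ : Subfield F) (r : ℕ) (hr : r.Prime)
    (hcard : Fintype.card F = Nat.card F₀ ^ r) (M : Subgroup (GL (Fin m ⊕ Fin m) F))
    (hle : spH F₀ m ≤ M) (u : Fin m ⊕ Fin m → F) (hu : IsRat F₀ u) (hu0 : u ≠ 0) (c : F)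
    (hcF : c ∉ F₀) (hcM : stGL u c ∈ M) : spGL m F ≤ M := by
  have hc : c ∈ lamSp hm F₀ M hle :=
    lamSp_of_stGL hm hle (fun v hv => stGL_spread hle hu hu0 hcM hv)
  have htop : lamSp hm F₀ M hle = ⊤ := by
    have hfr : (Module.finrank F₀ F).Prime := by rw [SF.sf_finrank F₀ r hcard]; exact hr
    haveI := Subalgebra.isSimpleOrder_of_finrank_prime F₀ F hfr
    rcases eq_bot_or_eq_top (lamSp hm F₀ M hle) with h | h
    · exfalso
      rw [h] at hc
      obtain ⟨y, hy⟩ := Algebra.mem_bot.mp hc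
      apply hcF
      rw [← hy]
      exact y.2
    · exact h
  have hsq : ∀ (ν : F) (v : Fin m ⊕ Fin m → F), IsRat F₀ v → stGL v (ν ^ 2) ∈ M :=
    fun ν v hv => stGL_sq_of_lamSp hm hle (by rw [htop]; exact Algebra.mem_top) hv
  have hall : ∀ (d : F) (v : Fin m ⊕ Fin m → F), IsRat F₀ v → stGL v d ∈ M := by
    intro d v hv
    by_cases h2 : (2 : F) = 0
    · haveI : CharP F 2 := CharTwo.of_one_ne_zero_of_two_eq_zero one_ne_zero h2
      obtain ⟨e, he⟩ := FiniteField.isSquare_of_char_two (ringChar.eq F 2) d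
      rw [he, ← pow_two]; exact hsq e v hv
    · have e : d = ((d + 1) / 2) ^ 2 + (-(((d - 1) / 2) ^ 2)) := by field_simp; ring
      rw [e, SpSF.stGL_add, ← SpSF.stGL_inv]
      exact M.mul_mem (hsq _ v hv) (M.inv_mem (hsq _ v hv))
  have hrat : ∀ v : Fin m ⊕ Fin m → F, IsRat F₀ v → v ∈ tvCentres M := fun v hv d => hall d v hv
  have hP : ∀ k : ℕ, ∀ x : Fin m ⊕ Fin m → F,
      (∀ i : Fin m, k ≤ i.val → x (Sum.inl i) ∈ F₀ ∧ x (Sum.inr i) ∈ F₀) → x ∈ tvCentres M := by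
    intro k
    induction k with
    | zero =>
      intro x hx
      refine hrat x (fun j => ?_)
      rcases j with i | i
      · exact (hx i (Nat.zero_le _)).1
      · exact (hx i (Nat.zero_le _)).2
    | succ k ih =>
      intro x hx
      by_cases hk : k < m
      · set ik : Fin m := ⟨k, hk⟩ with hik
        have hx' : ∀ i : Fin m, k ≤ i.val → i ≠ ik → x (Sum.inl i) ∈ F₀ ∧ x (Sum.inr i) ∈ F₀ := by
          intro i hi hne
          have : i.val ≠ k := fun h => hne (Fin.ext h)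
          exact hx i (by omega)
        by_cases hb : x (Sum.inr ik) = 0
        · by_cases ha : x (Sum.inl ik) = 0
          · apply ih
            intro i hi
            by_cases hiik : i = ik
            · rw [hiik, ha, hb]; exact ⟨zero_mem _, zero_mem _⟩
            · exact hx' i hi hiik
          · refine plane_step M ik (hrat _ (isRat_Ev ik)) (hrat _ (isRat_Fv ik)) x (Fv F ik) 0 1
              (by module) ?_ ?_
            · rw [sf_Fv_right]; exact neg_ne_zero.mpr ha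
            · apply ih
              intro i hi
              exact plane_coord (isRat_Fv ik) i (hx' i hi)
        · refine plane_step M ik (hrat _ (isRat_Ev ik)) (hrat _ (isRat_Fv ik)) x (Ev F ik) 1 0
            (by module) ?_ ?_
          · rw [sf_Ev_right]; exact hb
          · apply ih
            intro i hi
            exact plane_coord (isRat_Ev ik) i (hx' i hi)
      · apply ih
        intro i hi
        exact absurd i.isLt (by omega)
  apply spGL_le_of_tvCentres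
  intro x
  exact hP m x (fun i hi => absurd i.isLt (by omega))

end Cfsg.Agent.Helper97.SpSF
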