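-- helper97 library: subfield subgroups of Sp_2m are maximal (m ≥ 4, prime index): final assembly and
-- reduction of a form-rational structure to standard position by a rational Darboux basis.
import Cfsg.Agent.Helper97.SpSFAvg
import Cfsg.Agent.Helper97.SpSFStep1
import Cfsg.Agent.Helper97.GSubfield
import Cfsg.Agent.Helper13.SympBasis

set_option autoImplicit false
set_option linter.unusedSimpArgs false
set_option linter.unusedVariables false
set_option linter.style.haveILetI false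
open Cfsg Cfsg.Geo Matrix Cfsg.Agent.Helper94

namespace Cfsg.Agent.Helper97.SpSF

universe u

variable {F : Type u} [Field F] {m : ℕ}

theorem spH_lt (hm : 1 ≤ m) (F₀ : Subfield F) (hne : F₀ ≠ ⊤) : spH F₀ m < spGL m F := by
  refine lt_of_le_of_ne inf_le_right (fun h => ?_)
  obtain ⟨c, hc⟩ : ∃ c : F, c ∉ F₀ := by
    by_contra hcon
    push Not at hcon
    exact hne (eq_top_iff.mpr (fun x _ => hcon x))
  set i : Fin m := ⟨0, by omega⟩ with hi
  have h1 : stGL (Ev F i) c ∈ spH F₀ m := by rw [h]; exact stGL_mem _ _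
  have hE : (stGL (Ev F i) c : Matrix (Fin m ⊕ Fin m) (Fin m ⊕ Fin m) F) *ᵥ Ev F i = Ev F i := by
    rw [stGL_mulVec, sf_self, mul_zero, zero_smul, add_zero]
  have hrat := rat_of_map h1.1 (isRat_Ev (F₀ := F₀) i) (isRat_Ev i) (Ev_ne_zero i) hE
  have h2 := rat_mulVec hrat (isRat_Fv (F₀ := F₀) i)
  rw [stGL_mulVec, sf_FE, if_pos rfl, mul_one] at h2
  have h3 := h2 (Sum.inl i)
  simp at h3
  exact hc h3

/-- The subfield subgroup of `Sp_2m` in standard position is maximal, for a subfield of prime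
index and `m ≥ 4`. -/
theorem sp_maximal_one [Fintype F] (hm : 4 ≤ m) (F₀ : Subfield F) (r : ℕ) (hr : r.Prime)
    (hcard : Fintype.card F = Nat.card F₀ ^ r) : IsMaximalIn (spGL m F) (spH F₀ m) := by
  constructor
  · exact spH_lt (by omega) F₀ (Gen.subfield_ne_top_of_card F₀ r hr hcard)
  · intro M hHM hMS
    by_cases hex : ∃ (u : Fin m ⊕ Fin m → F) (c : F), IsRat F₀ u ∧ u ≠ 0 ∧ stGL u c ∈ M ∧ c ∉ F₀
    · obtain ⟨u, c, hu, hu0, hcM, hcF⟩ := hex
      right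
      exact le_antisymm hMS (sp_step1 (by omega) F₀ r hr hcard M hHM u hu hu0 c hcF hcM)
    · left
      have hrat : ∀ u : Fin m ⊕ Fin m → F, IsRat F₀ u → u ≠ 0 → ∀ c : F, stGL u c ∈ M →
          c ∈ F₀ := by
        intro u hu hu0 c hcM
        by_contra hcF
        exact hex ⟨u, c, hu, hu0, hcM, hcF⟩
      exact le_antisymm (sp_step2 ⟨hm, hHM, hMS, hrat⟩) hHM

theorem conj_map_self {G : Type*} [Group G] (K : Subgroup G) {a : G} (ha : a ∈ K) :
    K.map (MulAut.conj a).toMonoidHom = K := by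
  ext x
  constructor
  · rintro ⟨y, hy, rfl⟩
    simp only [MulEquiv.coe_toMonoidHom, MulAut.conj_apply]
    exact K.mul_mem (K.mul_mem ha hy) (K.inv_mem ha)
  · intro hx
    refine ⟨a⁻¹ * x * a, K.mul_mem (K.mul_mem (K.inv_mem ha) hx) ha, ?_⟩
    simp only [MulEquiv.coe_toMonoidHom, MulAut.conj_apply]
    group

theorem subfieldSubgroup_mul_rat (F₀ : Subfield F) (P A : GL (Fin m ⊕ Fin m) F)
    (hA : A ∈ (Matrix.GeneralLinearGroup.map (F₀.subtype : F₀ →+* F)).range) :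
    subfieldSubgroup F₀ (P * A) = subfieldSubgroup F₀ P := by
  rw [subfieldSubgroup, subfieldSubgroup]
  have e : (MulAut.conj (P * A)).toMonoidHom
      = (MulAut.conj P).toMonoidHom.comp (MulAut.conj A).toMonoidHom := by
    ext1 x
    simp only [MulEquiv.coe_toMonoidHom, MulAut.conj_apply, MonoidHom.comp_apply]
    group
  rw [e, ← Subgroup.map_map, conj_map_self _ (Subgroup.mem_sup_left hA)]

theorem subfieldSubgroup_eq_map (F₀ : Subfield F) (Q : GL (Fin m ⊕ Fin m) F) :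
    subfieldSubgroup F₀ Q
      = (subfieldSubgroup F₀ (1 : GL (Fin m ⊕ Fin m) F)).map (MulAut.conj Q).toMonoidHom := by
  have h2 : subfieldSubgroup F₀ (1 : GL (Fin m ⊕ Fin m) F)
      = (Matrix.GeneralLinearGroup.map (F₀.subtype : F₀ →+* F)).range
        ⊔ scalars (Fin m ⊕ Fin m) F := by
    rw [subfieldSubgroup, map_one]
    exact Subgroup.map_id _
  rw [h2]
  rfl

theorem spGL_map_conj {Q : GL (Fin m ⊕ Fin m) F} {c : F} (hc : c ≠ 0)
    (hQ : ∀ x y : Fin m ⊕ Fin m → F,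
      sympForm m F ((Q : Matrix (Fin m ⊕ Fin m) (Fin m ⊕ Fin m) F) *ᵥ x)
        ((Q : Matrix (Fin m ⊕ Fin m) (Fin m ⊕ Fin m) F) *ᵥ y) = c * sympForm m F x y) :
    (spGL m F).map (MulAut.conj Q).toMonoidHom = spGL m F := by
  have hQi : ∀ x y : Fin m ⊕ Fin m → F,
      sympForm m F (((Q⁻¹ : GL (Fin m ⊕ Fin m) F) : Matrix (Fin m ⊕ Fin m) (Fin m ⊕ Fin m) F) *ᵥ x)
        (((Q⁻¹ : GL (Fin m ⊕ Fin m) F) : Matrix (Fin m ⊕ Fin m) (Fin m ⊕ Fin m) F) *ᵥ y)
        = c⁻¹ * sympForm m F x y := by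
    intro x y
    have := hQ (((Q⁻¹ : GL (Fin m ⊕ Fin m) F) : Matrix (Fin m ⊕ Fin m) (Fin m ⊕ Fin m) F) *ᵥ x)
      (((Q⁻¹ : GL (Fin m ⊕ Fin m) F) : Matrix (Fin m ⊕ Fin m) (Fin m ⊕ Fin m) F) *ᵥ y)
    rw [gl_mulVec_inv, gl_mulVec_inv] at this
    rw [this, ← mul_assoc, inv_mul_cancel₀ hc, one_mul]
  ext g
  constructor
  · rintro ⟨y, hy, rfl⟩
    simp only [MulEquiv.coe_toMonoidHom, MulAut.conj_apply]
    intro x x'
    show sympForm m F (((Q * y * Q⁻¹ : GL (Fin m ⊕ Fin m) F) :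
      Matrix (Fin m ⊕ Fin m) (Fin m ⊕ Fin m) F) *ᵥ x) (((Q * y * Q⁻¹ : GL (Fin m ⊕ Fin m) F) :
      Matrix (Fin m ⊕ Fin m) (Fin m ⊕ Fin m) F) *ᵥ x') = sympForm m F x x'
    rw [gl_mul_mulVec, gl_mul_mulVec, gl_mul_mulVec, gl_mul_mulVec, hQ, sp_apply hy, hQi,
      ← mul_assoc, mul_inv_cancel₀ hc, one_mul]
  · intro hg
    refine ⟨Q⁻¹ * g * Q, ?_, ?_⟩
    · intro x x'
      show sympForm m F (((Q⁻¹ * g * Q : GL (Fin m ⊕ Fin m) F) :
        Matrix (Fin m ⊕ Fin m) (Fin m ⊕ Fin m) F) *ᵥ x) (((Q⁻¹ * g * Q : GL (Fin m ⊕ Fin m) F) :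
        Matrix (Fin m ⊕ Fin m) (Fin m ⊕ Fin m) F) *ᵥ x') = sympForm m F x x'
      rw [gl_mul_mulVec, gl_mul_mulVec, gl_mul_mulVec, gl_mul_mulVec, hQi, sp_apply hg, hQ,
        ← mul_assoc, inv_mul_cancel₀ hc, one_mul]
    · simp only [MulEquiv.coe_toMonoidHom, MulAut.conj_apply]
      group

theorem sp_maximal_of_sim [Fintype F] (hm : 4 ≤ m) (F₀ : Subfield F) (r : ℕ) (hr : r.Prime)
    (hcard : Fintype.card F = Nat.card F₀ ^ r) (Q : GL (Fin m ⊕ Fin m) F) (c : F) (hc : c ≠ 0)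
    (hQ : ∀ x y : Fin m ⊕ Fin m → F,
      sympForm m F ((Q : Matrix (Fin m ⊕ Fin m) (Fin m ⊕ Fin m) F) *ᵥ x)
        ((Q : Matrix (Fin m ⊕ Fin m) (Fin m ⊕ Fin m) F) *ᵥ y) = c * sympForm m F x y) :
    IsMaximalIn (spGL m F) (subfieldSubgroup F₀ Q ⊓ spGL m F) := by
  have h1 := SF.sf_isMaximalIn_map (MulAut.conj Q) (sp_maximal_one hm F₀ r hr hcard)
  rw [spGL_map_conj hc hQ] at h1
  have hsub : (spH F₀ m).map (MulAut.conj Q).toMonoidHom = subfieldSubgroup F₀ Q ⊓ spGL m F := by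
    rw [spH, Subgroup.map_inf _ _ _ (MulAut.conj Q).injective, spGL_map_conj hc hQ,
      ← subfieldSubgroup_eq_map]
  rwa [hsub] at h1

theorem gram_apply (Q : Matrix (Fin m ⊕ Fin m) (Fin m ⊕ Fin m) F) (x y : Fin m ⊕ Fin m → F) :
    sympForm m F (Q *ᵥ x) (Q *ᵥ y) = x ⬝ᵥ ((Qᵀ * Matrix.J (Fin m) F * Q) *ᵥ y) := by
  rw [sympForm, ← Matrix.mulVec_mulVec, ← Matrix.mulVec_mulVec, Matrix.dotProduct_mulVec x Qᵀ,
    Matrix.vecMul_transpose]

theorem single_dot_mulVec (A : Matrix (Fin m ⊕ Fin m) (Fin m ⊕ Fin m) F) (a b : Fin m ⊕ Fin m) :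
    (Pi.single a 1 : Fin m ⊕ Fin m → F) ⬝ᵥ (A *ᵥ Pi.single b 1) = A a b := by
  rw [single_one_dotProduct, Matrix.mulVec_single_one]
  rfl

theorem sf_gram_ext (Q : Matrix (Fin m ⊕ Fin m) (Fin m ⊕ Fin m) F) (c : F)
    (h : ∀ a b : Fin m ⊕ Fin m, sympForm m F (Q *ᵥ Pi.single a 1) (Q *ᵥ Pi.single b 1)
      = c * sympForm m F (Pi.single a 1) (Pi.single b 1)) (x y : Fin m ⊕ Fin m → F) :
    sympForm m F (Q *ᵥ x) (Q *ᵥ y) = c * sympForm m F x y := by
  have hmat : Qᵀ * Matrix.J (Fin m) F * Q = c • Matrix.J (Fin m) F := by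
    ext a b
    have h1 := h a b
    rw [gram_apply, single_dot_mulVec] at h1
    rw [h1, sympForm, single_dot_mulVec]
    rfl
  rw [gram_apply, hmat, Matrix.smul_mulVec, dotProduct_smul]
  rfl

/-- A rational Darboux basis for a form-rational structure. -/
theorem exists_rat_darboux (F₀ : Subfield F) (P : GL (Fin m ⊕ Fin m) F) (ζ : F) (hζ : ζ ≠ 0)
    (hP : IsFormRationalStructure (sympForm m F) F₀ ζ P) :
    ∃ A : GL (Fin m ⊕ Fin m) F,
      A ∈ (Matrix.GeneralLinearGroup.map (F₀.subtype : F₀ →+* F)).range ∧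
      ∀ x y : Fin m ⊕ Fin m → F,
        sympForm m F (((P * A : GL (Fin m ⊕ Fin m) F) :
            Matrix (Fin m ⊕ Fin m) (Fin m ⊕ Fin m) F) *ᵥ x)
          (((P * A : GL (Fin m ⊕ Fin m) F) : Matrix (Fin m ⊕ Fin m) (Fin m ⊕ Fin m) F) *ᵥ y)
          = ζ⁻¹ * sympForm m F x y := by
  classical
  set G : Matrix (Fin m ⊕ Fin m) (Fin m ⊕ Fin m) F :=
    ζ • ((P : Matrix (Fin m ⊕ Fin m) (Fin m ⊕ Fin m) F)ᵀ * Matrix.J (Fin m) F
      * (P : Matrix (Fin m ⊕ Fin m) (Fin m ⊕ Fin m) F)) with hG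
  have hGxy : ∀ x y : Fin m ⊕ Fin m → F, x ⬝ᵥ (G *ᵥ y)
      = ζ * sympForm m F ((P : Matrix (Fin m ⊕ Fin m) (Fin m ⊕ Fin m) F) *ᵥ x)
        ((P : Matrix (Fin m ⊕ Fin m) (Fin m ⊕ Fin m) F) *ᵥ y) := by
    intro x y
    rw [gram_apply, hG, Matrix.smul_mulVec, dotProduct_smul]
    rfl
  have hGrat : ∀ a b, G a b ∈ F₀ := by
    intro a b
    have := hP (Pi.single a 1) (Pi.single b 1) (isRat_single a) (isRat_single b)
    rwa [← hGxy, single_dot_mulVec] at this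
  set G₀ : Matrix (Fin m ⊕ Fin m) (Fin m ⊕ Fin m) F₀ := fun a b => ⟨G a b, hGrat a b⟩ with hG₀
  have hG₀map : G₀.map F₀.subtype = G := by ext a b; rfl
  set B₀ : LinearMap.BilinForm F₀ (Fin m ⊕ Fin m → F₀) := Matrix.toBilin' G₀ with hB₀
  have hB : ∀ u v : Fin m ⊕ Fin m → F₀, ((B₀ u v : F₀) : F)
      = ζ * sympForm m F ((P : Matrix (Fin m ⊕ Fin m) (Fin m ⊕ Fin m) F) *ᵥ (fun i => (u i : F)))
        ((P : Matrix (Fin m ⊕ Fin m) (Fin m ⊕ Fin m) F) *ᵥ (fun i => (v i : F))) := by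
    intro u v
    rw [hB₀, Matrix.toBilin'_apply', ← hGxy, ← hG₀map]
    show F₀.subtype (u ⬝ᵥ G₀ *ᵥ v) = _
    rw [RingHom.map_dotProduct]
    have h2 : (F₀.subtype : F₀ →+* F) ∘ (G₀ *ᵥ v)
        = G₀.map F₀.subtype *ᵥ ((F₀.subtype : F₀ →+* F) ∘ v) := by
      funext i
      exact RingHom.map_mulVec _ _ _ i
    rw [h2]
    rfl
  have hA : B₀.IsAlt := by
    intro u
    apply Subtype.ext
    rw [hB, sf_self, mul_zero]
    rfl
  obtain ⟨m', k, b, h1, h2, h3, h4⟩ := Helper13.exists_symplectic_basis B₀ hA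
  have hk : k = 0 := by
    by_contra hne
    have j : Fin k := ⟨0, Nat.pos_of_ne_zero hne⟩
    set u := b (Sum.inr j) with hu
    set w : Fin m ⊕ Fin m → F :=
      (P : Matrix (Fin m ⊕ Fin m) (Fin m ⊕ Fin m) F) *ᵥ (fun i => (u i : F)) with hw
    have hw0 : ∀ a : Fin m ⊕ Fin m,
        sympForm m F w ((P : Matrix (Fin m ⊕ Fin m) (Fin m ⊕ Fin m) F) *ᵥ Pi.single a 1) = 0 := by
      intro a
      have h5 := h4 j (Pi.single a 1)
      have h6 := hB u (Pi.single a 1)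
      rw [h5] at h6
      have e : (fun i => (((Pi.single a 1 : Fin m ⊕ Fin m → F₀) i : F₀) : F))
          = (Pi.single a 1 : Fin m ⊕ Fin m → F) := by
        funext i
        by_cases hi : i = a
        · subst hi; simp
        · simp [Pi.single_apply, hi]
      rw [e] at h6
      have h7 : ζ * sympForm m F w
          ((P : Matrix (Fin m ⊕ Fin m) (Fin m ⊕ Fin m) F) *ᵥ Pi.single a 1) = 0 := h6.symm
      exact (mul_eq_zero.mp h7).resolve_left hζ
    have e1 : ∀ x : Fin m ⊕ Fin m → F,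
        sympForm m F w ((P : Matrix (Fin m ⊕ Fin m) (Fin m ⊕ Fin m) F) *ᵥ x)
          = (w ᵥ* (Matrix.J (Fin m) F * (P : Matrix (Fin m ⊕ Fin m) (Fin m ⊕ Fin m) F))) ⬝ᵥ x := by
      intro x
      rw [sympForm, Matrix.mulVec_mulVec, Matrix.dotProduct_mulVec]
    have e2 : w ᵥ* (Matrix.J (Fin m) F * (P : Matrix (Fin m ⊕ Fin m) (Fin m ⊕ Fin m) F)) = 0 := by
      funext a
      have := hw0 a
      rw [e1, dotProduct_single_one] at this
      exact this
    have hw1 : ∀ y : Fin m ⊕ Fin m → F, sympForm m F w y = 0 := by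
      intro y
      have := e1 (((P⁻¹ : GL (Fin m ⊕ Fin m) F) : Matrix (Fin m ⊕ Fin m) (Fin m ⊕ Fin m) F) *ᵥ y)
      rw [gl_mulVec_inv, e2, zero_dotProduct] at this
      exact this
    have hw2 : w = 0 := by
      by_contra hne'
      obtain ⟨z, -, hz⟩ := exists_dual (F₀ := F₀) hne'
      exact hz (hw1 z)
    have hu0 : (fun i => (u i : F)) = 0 := by
      have := gl_inv_mulVec P (fun i => (u i : F))
      rw [← hw, hw2, mulVec_zero] at this
      exact this.symm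
    have hu00 : u = 0 := by
      funext i
      have := congrFun hu0 i
      exact Subtype.ext this
    exact b.ne_zero (Sum.inr j) hu00
  subst hk
  have hm' : m' = m := by
    have h5 := Module.finrank_eq_card_basis b
    rw [Module.finrank_fintype_fun_eq_card] at h5
    simp only [Fintype.card_sum, Fintype.card_fin] at h5
    omega
  subst hm'
  let e : ((Fin m' ⊕ Fin m') ⊕ Fin 0) ≃ (Fin m' ⊕ Fin m') :=
    (Equiv.sumEmpty (Fin m' ⊕ Fin m') (Fin 0)).trans (Equiv.sumComm (Fin m') (Fin m'))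
  set b' : Module.Basis (Fin m' ⊕ Fin m') F₀ (Fin m' ⊕ Fin m' → F₀) := b.reindex e with hb'
  have hb'a : ∀ a : Fin m' ⊕ Fin m', b' a = b (Sum.inl (Sum.swap a)) := by
    intro a
    rw [hb', Module.Basis.reindex_apply]
    rcases a with i | i <;> rfl
  set A₀ : Matrix (Fin m' ⊕ Fin m') (Fin m' ⊕ Fin m') F₀ :=
    (Pi.basisFun F₀ (Fin m' ⊕ Fin m')).toMatrix b' with hA₀
  haveI : Invertible A₀ := (Pi.basisFun F₀ (Fin m' ⊕ Fin m')).invertibleToMatrix b'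
  have hA₀e : ∀ i a, A₀ i a = (b' a) i := by
    intro i a
    rw [hA₀, Module.Basis.toMatrix_apply, Pi.basisFun_repr]
  set A' : GL (Fin m' ⊕ Fin m') F₀ := unitOfInvertible A₀ with hA'
  refine ⟨Matrix.GeneralLinearGroup.map (F₀.subtype : F₀ →+* F) A', ⟨A', rfl⟩, ?_⟩
  have hAcol : ∀ a, ((Matrix.GeneralLinearGroup.map (F₀.subtype : F₀ →+* F) A' :
      GL (Fin m' ⊕ Fin m') F) : Matrix (Fin m' ⊕ Fin m') (Fin m' ⊕ Fin m') F) *ᵥ Pi.single a 1
      = fun i => ((b' a) i : F) := by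
    intro a
    rw [Matrix.mulVec_single_one]
    funext i
    show F₀.subtype (A₀ i a) = _
    rw [hA₀e]
    rfl
  intro x y
  rw [Units.val_mul]
  refine sf_gram_ext _ ζ⁻¹ ?_ x y
  intro a c
  rw [← Matrix.mulVec_mulVec, ← Matrix.mulVec_mulVec, hAcol, hAcol]
  have h5 := hB (b' a) (b' c)
  have h6 : sympForm m' F ((P : Matrix (Fin m' ⊕ Fin m') (Fin m' ⊕ Fin m') F)
        *ᵥ fun i => ((b' a) i : F))
      ((P : Matrix (Fin m' ⊕ Fin m') (Fin m' ⊕ Fin m') F) *ᵥ fun i => ((b' c) i : F))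
      = ζ⁻¹ * ((B₀ (b' a) (b' c) : F₀) : F) := by
    rw [h5, ← mul_assoc, inv_mul_cancel₀ hζ, one_mul]
  rw [h6]
  congr 1
  rw [hb'a, hb'a]
  rcases a with i | i <;> rcases c with j | j
  · simp only [Sum.swap_inl]
    rw [h3 i j]
    show ((0 : F₀) : F) = sympForm m' F (Ev F i) (Ev F j)
    rw [sf_EE]
    rfl
  · simp only [Sum.swap_inl, Sum.swap_inr]
    rw [← hA.neg_eq (b (Sum.inl (Sum.inl j))) (b (Sum.inl (Sum.inr i))), h1 j i]
    show ((-(if j = i then 1 else 0) : F₀) : F) = sympForm m' F (Ev F i) (Fv F j)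
    rw [sf_EF]
    by_cases hij : i = j
    · subst hij; simp
    · simp [hij, Ne.symm hij]
  · simp only [Sum.swap_inl, Sum.swap_inr]
    rw [h1 i j]
    show (((if i = j then 1 else 0) : F₀) : F) = sympForm m' F (Fv F i) (Ev F j)
    rw [sf_FE]
    by_cases hij : i = j
    · subst hij; simp
    · simp [hij]
  · simp only [Sum.swap_inr]
    rw [h2 i j]
    show ((0 : F₀) : F) = sympForm m' F (Fv F i) (Fv F j)
    rw [sf_FF]
    rfl

/-- **Maximality of the subfield subgroups of `Sp_2m`** (`m ≥ 4`, subfield of prime index). -/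
theorem sp_maximal [Fintype F] (hm : 4 ≤ m) (F₀ : Subfield F) (r : ℕ) (hr : r.Prime)
    (hcard : Fintype.card F = Nat.card F₀ ^ r) (P : GL (Fin m ⊕ Fin m) F) (ζ : F) (hζ : ζ ≠ 0)
    (hP : IsFormRationalStructure (sympForm m F) F₀ ζ P) :
    IsMaximalIn (spGL m F) (subfieldSubgroup F₀ P ⊓ spGL m F) := by
  obtain ⟨A, hA, hAf⟩ := exists_rat_darboux F₀ P ζ hζ hP
  have h1 := sp_maximal_of_sim hm F₀ r hr hcard (P * A) ζ⁻¹ (inv_ne_zero hζ) hAf
  rwa [subfieldSubgroup_mul_rat F₀ P A hA] at h1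

end Cfsg.Agent.Helper97.SpSF
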