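import Mathlib
import Cfsg.Agent.Helper97.GSylDefs

/-!
# Helper97: piece G1S of CALL S4627 (the monomial 2-group is Sylow in `GL_2(F)`, `q ≡ 1 (mod 4)`)
-/

set_option autoImplicit false

namespace Cfsg.Agent.Helper97.GSylG1S

open Matrix Cfsg.Agent.Helper97.GSyl

variable {F : Type*} [Field F]

/-- PIECE G1S -/
theorem g1_sylow [Fintype F] (hq : 4 ∣ Fintype.card F - 1) (μ : Sylow 2 Fˣ)
    (S : Subgroup (GL (Fin 2) F))
    (hcard : Nat.card S = 2 * Nat.card (μ : Subgroup Fˣ) ^ 2) :
    ∃ S' : Sylow 2 (GL (Fin 2) F), (S' : Subgroup (GL (Fin 2) F)) = S := by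
  have : Fact (Nat.Prime 2) := ⟨Nat.prime_two⟩
  have hq1 : 1 < Fintype.card F := Fintype.one_lt_card
  have hμc : Nat.card μ = 2 ^ (Nat.card Fˣ).factorization 2 := Sylow.card_eq_multiplicity μ
  have hFc : Nat.card F = Fintype.card F := Nat.card_eq_fintype_card
  rw [Nat.card_units, hFc] at hμc
  have hGL : Nat.card (GL (Fin 2) F)
      = (Fintype.card F ^ 2 - 1) * (Fintype.card F ^ 2 - Fintype.card F) := by
    rw [Matrix.card_GL_field, Fin.prod_univ_two]
    simp
  generalize Fintype.card F = q at hq hq1 hGL hμc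
  obtain ⟨k, hk⟩ := hq
  have hk0 : k ≠ 0 := by
    rintro rfl
    omega
  have hqe : q = 4 * k + 1 := by omega
  have h1 : q ^ 2 - 1 = (q - 1) * (q + 1) := by
    rw [hqe]
    have : (4 * k + 1) ^ 2 = (4 * k + 1 - 1) * (4 * k + 1 + 1) + 1 := by
      simp only [Nat.add_sub_cancel]
      ring
    rw [this, Nat.add_sub_cancel]
  have h2 : q ^ 2 - q = q * (q - 1) := by
    rw [Nat.mul_sub, mul_one, pow_two]
  have hodd : ¬ 2 ∣ q := by omega
  have hvq : q.factorization 2 = 0 := Nat.factorization_eq_zero_of_not_dvd hodd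
  have hvp : (q + 1).factorization 2 = 1 := by
    have hk1 : q + 1 = 2 * (2 * k + 1) := by omega
    rw [hk1, Nat.factorization_mul (by norm_num) (by omega)]
    have : (2 * k + 1).factorization 2 = 0 := by
      apply Nat.factorization_eq_zero_of_not_dvd
      omega
    simp [this, Nat.Prime.factorization_self Nat.prime_two]
  have hv : (Nat.card (GL (Fin 2) F)).factorization 2 = 2 * (q - 1).factorization 2 + 1 := by
    rw [hGL, h1, h2, Nat.factorization_mul (by apply Nat.mul_ne_zero <;> omega)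
        (by apply Nat.mul_ne_zero <;> omega),
      Nat.factorization_mul (by omega) (by omega),
      Nat.factorization_mul (by omega) (by omega)]
    simp only [Finsupp.coe_add, Pi.add_apply]
    rw [hvq, hvp]
    ring
  have h4 : Nat.card S = 2 ^ (Nat.card (GL (Fin 2) F)).factorization 2 := by
    rw [hcard, hμc, hv]
    ring
  exact ⟨Sylow.ofCard S h4, rfl⟩

end Cfsg.Agent.Helper97.GSylG1S
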