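import Mathlib
import Cfsg.Agent.Helper97.GSylDefs

/-!
# Helper97: pieces GM, GMC, G3C of CALL S4627 (the similitude group of `x² + y²` in `GL_2(F)`)
-/

set_option autoImplicit false

namespace Cfsg.Agent.Helper97.GSylGM

open Matrix Cfsg.Agent.Helper97.GSyl

variable {F : Type*} [Field F]

theorem gm_det_ne (g : GL (Fin 2) F) : (g : Matrix (Fin 2) (Fin 2) F).det ≠ 0 :=
  ((Matrix.isUnit_iff_isUnit_det _).mp g.isUnit).ne_zero

theorem gm_RR (a b c d : F) : !![a, -b; b, a] * !![c, -d; d, c]
    = !![a * c - b * d, -(a * d + b * c); a * d + b * c, a * c - b * d] := by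
  ext i j; fin_cases i <;> fin_cases j <;> simp [Matrix.mul_apply, Fin.sum_univ_two] <;> ring

theorem gm_RS (a b c d : F) : !![a, -b; b, a] * !![c, d; d, -c]
    = !![a * c - b * d, a * d + b * c; a * d + b * c, -(a * c - b * d)] := by
  ext i j; fin_cases i <;> fin_cases j <;> simp [Matrix.mul_apply, Fin.sum_univ_two] <;> ring

theorem gm_SR (a b c d : F) : !![a, b; b, -a] * !![c, -d; d, c]
    = !![a * c + b * d, b * c - a * d; b * c - a * d, -(a * c + b * d)] := by
  ext i j; fin_cases i <;> fin_cases j <;> simp [Matrix.mul_apply, Fin.sum_univ_two] <;> ring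

theorem gm_SS (a b c d : F) : !![a, b; b, -a] * !![c, d; d, -c]
    = !![a * c + b * d, -(b * c - a * d); b * c - a * d, a * c + b * d] := by
  ext i j; fin_cases i <;> fin_cases j <;> simp [Matrix.mul_apply, Fin.sum_univ_two] <;> ring

/-- PIECE GM -/
theorem exists_gM (F : Type*) [Field F] :
    ∃ M : Subgroup (GL (Fin 2) F), ∀ g : GL (Fin 2) F,
      g ∈ M ↔ ∃ a b : F, (g : Matrix (Fin 2) (Fin 2) F) = !![a, -b; b, a] ∨
        (g : Matrix (Fin 2) (Fin 2) F) = !![a, b; b, -a] := by
  refine ⟨{ carrier := {g | ∃ a b : F, (g : Matrix (Fin 2) (Fin 2) F) = !![a, -b; b, a] ∨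
        (g : Matrix (Fin 2) (Fin 2) F) = !![a, b; b, -a]}
            one_mem' := ?_
            mul_mem' := ?_
            inv_mem' := ?_ }, fun g => Iff.rfl⟩
  · rintro g h ⟨a, b, hg | hg⟩ ⟨c, d, hh | hh⟩
    · exact ⟨a * c - b * d, a * d + b * c, Or.inl (by rw [Units.val_mul, hg, hh, gm_RR])⟩
    · exact ⟨a * c - b * d, a * d + b * c, Or.inr (by rw [Units.val_mul, hg, hh, gm_RS])⟩
    · exact ⟨a * c + b * d, b * c - a * d, Or.inr (by rw [Units.val_mul, hg, hh, gm_SR])⟩
    · exact ⟨a * c + b * d, b * c - a * d, Or.inl (by rw [Units.val_mul, hg, hh, gm_SS])⟩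
  · refine ⟨1, 0, Or.inl ?_⟩
    ext i j; fin_cases i <;> fin_cases j <;> simp
  · rintro g ⟨a, b, hg | hg⟩
    · have hN : a ^ 2 + b ^ 2 ≠ 0 := by
        have hd := gm_det_ne g
        rw [hg, Matrix.det_fin_two_of] at hd
        intro e
        apply hd
        linear_combination e
      refine ⟨a / (a ^ 2 + b ^ 2), -b / (a ^ 2 + b ^ 2), Or.inl ?_⟩
      rw [Matrix.coe_units_inv, hg]
      apply Matrix.inv_eq_right_inv
      rw [gm_RR]
      ext i j; fin_cases i <;> fin_cases j <;> simp <;> field_simp <;> ring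
    · have hN : a ^ 2 + b ^ 2 ≠ 0 := by
        have hd := gm_det_ne g
        rw [hg, Matrix.det_fin_two_of] at hd
        intro e
        apply hd
        linear_combination -e
      refine ⟨a / (a ^ 2 + b ^ 2), b / (a ^ 2 + b ^ 2), Or.inr ?_⟩
      rw [Matrix.coe_units_inv, hg]
      apply Matrix.inv_eq_right_inv
      rw [gm_SS]
      ext i j; fin_cases i <;> fin_cases j <;> simp <;> field_simp <;> ring

/-- for `q ≡ 3 (mod 4)`, `a² + b² ≠ 0` unless `a = b = 0` -/
theorem gm_sq_add_sq_ne [Fintype F] (hq : 4 ∣ Fintype.card F + 1) (a b : F)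
    (h : a ^ 2 + b ^ 2 = 0) : a = 0 ∧ b = 0 := by
  have hns : ¬ IsSquare (-1 : F) := by
    rw [FiniteField.isSquare_neg_one_iff]
    omega
  by_cases hb : b = 0
  · subst hb
    refine ⟨?_, rfl⟩
    have : a ^ 2 = 0 := by linear_combination h
    exact pow_eq_zero_iff (two_ne_zero) |>.mp this
  · exfalso
    apply hns
    refine ⟨a / b, ?_⟩
    field_simp
    linear_combination -h

theorem gm_two_ne_zero [Fintype F] (hq : 4 ∣ Fintype.card F + 1) : (2 : F) ≠ 0 := by
  apply Ring.two_ne_zero
  intro hc
  have h1 := FiniteField.even_card_of_char_two hc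
  omega

/-- PIECE GMC -/
theorem gM_card [Fintype F] (hq : 4 ∣ Fintype.card F + 1) (M : Subgroup (GL (Fin 2) F))
    (hM : ∀ g : GL (Fin 2) F, g ∈ M ↔ ∃ a b : F,
      (g : Matrix (Fin 2) (Fin 2) F) = !![a, -b; b, a] ∨
        (g : Matrix (Fin 2) (Fin 2) F) = !![a, b; b, -a]) :
    Nat.card M = 2 * (Fintype.card F ^ 2 - 1) := by
  classical
  have h2 := gm_two_ne_zero hq
  have hN : ∀ v : {v : F × F // v ≠ 0}, v.1.1 ^ 2 + v.1.2 ^ 2 ≠ 0 := by
    rintro ⟨⟨a, b⟩, hv⟩ e
    apply hv
    obtain ⟨ha, hb⟩ := gm_sq_add_sq_ne hq a b e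
    rw [ha, hb]
    rfl
  let f : Bool × {v : F × F // v ≠ 0} → M := fun x =>
    if x.1 then
      ⟨Matrix.GeneralLinearGroup.mkOfDetNeZero !![x.2.1.1, x.2.1.2; x.2.1.2, -x.2.1.1] (by
          rw [Matrix.det_fin_two_of]
          intro e
          apply hN x.2
          linear_combination -e),
        (hM _).mpr ⟨x.2.1.1, x.2.1.2, Or.inr rfl⟩⟩
    else
      ⟨Matrix.GeneralLinearGroup.mkOfDetNeZero !![x.2.1.1, -x.2.1.2; x.2.1.2, x.2.1.1] (by
          rw [Matrix.det_fin_two_of]
          intro e
          apply hN x.2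
          linear_combination e),
        (hM _).mpr ⟨x.2.1.1, x.2.1.2, Or.inl rfl⟩⟩
  have hfT : ∀ v : {v : F × F // v ≠ 0}, ((f (true, v) : M) : GL (Fin 2) F).1
      = !![v.1.1, v.1.2; v.1.2, -v.1.1] := fun v => rfl
  have hfF : ∀ v : {v : F × F // v ≠ 0}, ((f (false, v) : M) : GL (Fin 2) F).1
      = !![v.1.1, -v.1.2; v.1.2, v.1.1] := fun v => rfl
  have hinj : Function.Injective f := by
    rintro ⟨s, v⟩ ⟨s', v'⟩ h
    have hval : ((f (s, v) : M) : GL (Fin 2) F).1 = ((f (s', v') : M) : GL (Fin 2) F).1 := by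
      rw [h]
    cases s <;> cases s'
    · rw [hfF, hfF] at hval
      have e1 := congrFun (congrFun hval 0) 0
      have e2 := congrFun (congrFun hval 1) 0
      simp at e1 e2
      have : v = v' := Subtype.ext (Prod.ext e1 e2)
      rw [this]
    · exfalso
      rw [hfF, hfT] at hval
      have e1 := congrFun (congrFun hval 0) 0
      have e2 := congrFun (congrFun hval 1) 0
      have e3 := congrFun (congrFun hval 0) 1
      have e4 := congrFun (congrFun hval 1) 1
      simp at e1 e2 e3 e4
      apply v.2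
      have ha : v.1.1 = 0 := by
        have : (2 : F) * v.1.1 = 0 := by linear_combination e1 + e4
        rcases mul_eq_zero.mp this with h | h
        · exact absurd h h2
        · exact h
      have hb : v.1.2 = 0 := by
        have : (2 : F) * v.1.2 = 0 := by linear_combination e2 - e3
        rcases mul_eq_zero.mp this with h | h
        · exact absurd h h2
        · exact h
      exact Prod.ext ha hb
    · exfalso
      rw [hfT, hfF] at hval
      have e1 := congrFun (congrFun hval 0) 0
      have e2 := congrFun (congrFun hval 1) 0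
      have e3 := congrFun (congrFun hval 0) 1
      have e4 := congrFun (congrFun hval 1) 1
      simp at e1 e2 e3 e4
      apply v'.2
      have ha : v'.1.1 = 0 := by
        have : (2 : F) * v'.1.1 = 0 := by linear_combination -e1 - e4
        rcases mul_eq_zero.mp this with h | h
        · exact absurd h h2
        · exact h
      have hb : v'.1.2 = 0 := by
        have : (2 : F) * v'.1.2 = 0 := by linear_combination e3 - e2
        rcases mul_eq_zero.mp this with h | h
        · exact absurd h h2
        · exact h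
      exact Prod.ext ha hb
    · rw [hfT, hfT] at hval
      have e1 := congrFun (congrFun hval 0) 0
      have e2 := congrFun (congrFun hval 1) 0
      simp at e1 e2
      have : v = v' := Subtype.ext (Prod.ext e1 e2)
      rw [this]
  have hsurj : Function.Surjective f := by
    rintro ⟨g, hg⟩
    obtain ⟨a, b, h | h⟩ := (hM g).mp hg
    · have hv : ((a, b) : F × F) ≠ 0 := by
        intro e
        have ha : a = 0 := congrArg Prod.fst e
        have hb : b = 0 := congrArg Prod.snd e
        have hd := gm_det_ne g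
        rw [h, Matrix.det_fin_two_of, ha, hb] at hd
        simp at hd
      refine ⟨(false, ⟨(a, b), hv⟩), ?_⟩
      apply Subtype.ext
      apply Units.ext
      rw [hfF, h]
    · have hv : ((a, b) : F × F) ≠ 0 := by
        intro e
        have ha : a = 0 := congrArg Prod.fst e
        have hb : b = 0 := congrArg Prod.snd e
        have hd := gm_det_ne g
        rw [h, Matrix.det_fin_two_of, ha, hb] at hd
        simp at hd
      refine ⟨(true, ⟨(a, b), hv⟩), ?_⟩
      apply Subtype.ext
      apply Units.ext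
      rw [hfT, h]
  rw [← Nat.card_congr (Equiv.ofBijective f ⟨hinj, hsurj⟩), Nat.card_prod, Nat.card_eq_fintype_card,
    Fintype.card_bool, Nat.card_eq_fintype_card, Fintype.card_subtype_compl, Fintype.card_prod]
  simp [pow_two]

/-- PIECE G3C -/
theorem g3_sylow [Fintype F] (hq : 4 ∣ Fintype.card F + 1) (M : Subgroup (GL (Fin 2) F))
    (hcard : Nat.card M = 2 * (Fintype.card F ^ 2 - 1)) (P : Sylow 2 M) :
    ∃ S : Sylow 2 (GL (Fin 2) F),
      (S : Subgroup (GL (Fin 2) F)) = (P : Subgroup M).map M.subtype := by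
  have : Fact (Nat.Prime 2) := ⟨Nat.prime_two⟩
  have hq1 : 1 < Fintype.card F := Fintype.one_lt_card
  have hPc : Nat.card P = 2 ^ (Nat.card M).factorization 2 := Sylow.card_eq_multiplicity P
  have hmapc : Nat.card ((P : Subgroup M).map M.subtype) = Nat.card P :=
    Nat.card_congr ((P : Subgroup M).equivMapOfInjective M.subtype M.subtype_injective).symm.toEquiv
  have hGL : Nat.card (GL (Fin 2) F)
      = (Fintype.card F ^ 2 - 1) * (Fintype.card F ^ 2 - Fintype.card F) := by
    rw [Matrix.card_GL_field, Fin.prod_univ_two]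
    simp
  generalize Fintype.card F = q at hq hcard hq1 hGL
  have hpos1 : q ^ 2 - 1 ≠ 0 := by
    have : 1 < q ^ 2 := Nat.one_lt_pow (by norm_num) hq1
    omega
  have hqq : q ^ 2 - q = q * (q - 1) := by
    rw [Nat.mul_sub, mul_one, pow_two]
  have hodd : ¬ 2 ∣ q := by
    obtain ⟨k, hk⟩ := hq
    omega
  have hv1 : (q - 1).factorization 2 = 1 := by
    obtain ⟨k, hk⟩ := hq
    have hk1 : q - 1 = 2 * (2 * k - 1) := by omega
    have hkpos : 2 * k - 1 ≠ 0 := by omega
    rw [hk1, Nat.factorization_mul (by norm_num) hkpos]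
    have : (2 * k - 1).factorization 2 = 0 := by
      apply Nat.factorization_eq_zero_of_not_dvd
      omega
    simp [this, Nat.Prime.factorization_self Nat.prime_two]
  have hvq : q.factorization 2 = 0 := Nat.factorization_eq_zero_of_not_dvd hodd
  have hv : (Nat.card (GL (Fin 2) F)).factorization 2 = (Nat.card M).factorization 2 := by
    rw [hGL, hcard, hqq, Nat.factorization_mul hpos1 (by
        apply Nat.mul_ne_zero <;> omega),
      Nat.factorization_mul (by omega) (by omega),
      Nat.factorization_mul (by norm_num) hpos1]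
    simp only [Finsupp.coe_add, Pi.add_apply]
    rw [hv1, hvq, Nat.Prime.factorization_self Nat.prime_two]
    ring
  have h4 : Nat.card ((P : Subgroup M).map M.subtype)
      = 2 ^ (Nat.card (GL (Fin 2) F)).factorization 2 := by
    rw [hmapc, hPc, hv]
  exact ⟨Sylow.ofCard _ h4, rfl⟩

end Cfsg.Agent.Helper97.GSylGM
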