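import Mathlib
import Cfsg.Agent.Helper97.GSylDefs
import Cfsg.Agent.Helper97.GSylGM

/-!
# Helper97: piece G3B of CALL S4627 (`S ∩ SL_2` has squares in its commutator subgroup, `q ≡ 3 (4)`)

Also a small library about the similitude group `M` of `x² + y²`:
`R a b = !![a, -b; b, a]`, `Sg a b = !![a, b; b, -a]`.
-/

set_option autoImplicit false

namespace Cfsg.Agent.Helper97.GSylG3B

open Matrix Cfsg.Agent.Helper97.GSyl Cfsg.Agent.Helper97.GSylGM

open scoped commutatorElement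

variable {F : Type*} [Field F]

/-- a `2`-element is conjugate into a given Sylow `2`-subgroup -/
theorem g3b_conj_mem {G : Type*} [Group G] [Finite G] (P : Sylow 2 G) (x : G) (k : ℕ)
    (hx : x ^ 2 ^ k = 1) : ∃ g : G, g * x * g⁻¹ ∈ (P : Subgroup G) := by
  have : Fact (Nat.Prime 2) := ⟨Nat.prime_two⟩
  have hz : IsPGroup 2 (Subgroup.zpowers x) := by
    have hdvd : orderOf x ∣ 2 ^ k := orderOf_dvd_of_pow_eq_one hx
    obtain ⟨j, -, hj⟩ := (Nat.dvd_prime_pow Nat.prime_two).mp hdvd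
    apply IsPGroup.of_card (n := j)
    rw [Nat.card_zpowers, hj]
  obtain ⟨P', hP'⟩ := hz.exists_le_sylow
  obtain ⟨g, hg⟩ := MulAction.exists_smul_eq G P' P
  refine ⟨g, ?_⟩
  have hx' : x ∈ (P' : Subgroup G) := hP' (Subgroup.mem_zpowers x)
  have h1 := Subgroup.smul_mem_pointwise_smul x (MulAut.conj g) (P' : Subgroup G) hx'
  rw [← Sylow.coe_subgroup_smul, hg] at h1
  simpa [MulAut.smul_def] using h1

/-- conjugating a rotation by a rotation -/
theorem g3b_conj_RR (g x : GL (Fin 2) F) (c d a b : F)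
    (hg : (g : Matrix (Fin 2) (Fin 2) F) = !![c, -d; d, c])
    (hx : (x : Matrix (Fin 2) (Fin 2) F) = !![a, -b; b, a]) :
    ((g * x * g⁻¹ : GL (Fin 2) F) : Matrix (Fin 2) (Fin 2) F) = !![a, -b; b, a] := by
  have hcomm : (g : Matrix (Fin 2) (Fin 2) F) * (x : Matrix (Fin 2) (Fin 2) F)
      = (x : Matrix (Fin 2) (Fin 2) F) * (g : Matrix (Fin 2) (Fin 2) F) := by
    rw [hg, hx, gm_RR, gm_RR]
    ext i j; fin_cases i <;> fin_cases j <;> simp <;> ring
  rw [Units.val_mul, Units.val_mul, hcomm, Matrix.mul_assoc, ← Units.val_mul, mul_inv_cancel,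
    Units.val_one, Matrix.mul_one, hx]

/-- conjugating a rotation by a reflection -/
theorem g3b_conj_SR (g x : GL (Fin 2) F) (c d a b : F)
    (hg : (g : Matrix (Fin 2) (Fin 2) F) = !![c, d; d, -c])
    (hx : (x : Matrix (Fin 2) (Fin 2) F) = !![a, -b; b, a]) :
    ((g * x * g⁻¹ : GL (Fin 2) F) : Matrix (Fin 2) (Fin 2) F) = !![a, -(-b); -b, a] := by
  have hcomm : (g : Matrix (Fin 2) (Fin 2) F) * (x : Matrix (Fin 2) (Fin 2) F)
      = !![a, -(-b); -b, a] * (g : Matrix (Fin 2) (Fin 2) F) := by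
    rw [hg, hx, gm_SR, gm_RS]
    ext i j; fin_cases i <;> fin_cases j <;> simp <;> ring
  rw [Units.val_mul, Units.val_mul, hcomm, Matrix.mul_assoc, ← Units.val_mul, mul_inv_cancel,
    Units.val_one, Matrix.mul_one]

/-- powers of a rotation -/
theorem g3b_pow_R (x : GL (Fin 2) F) (a b : F)
    (hx : (x : Matrix (Fin 2) (Fin 2) F) = !![a, -b; b, a]) (n : ℕ) :
    ∃ a' b' : F, ((x ^ n : GL (Fin 2) F) : Matrix (Fin 2) (Fin 2) F) = !![a', -b'; b', a'] ∧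
      a' ^ 2 + b' ^ 2 = (a ^ 2 + b ^ 2) ^ n := by
  induction n with
  | zero =>
    refine ⟨1, 0, ?_, by simp⟩
    rw [pow_zero]
    ext i j; fin_cases i <;> fin_cases j <;> simp
  | succ n ih =>
    obtain ⟨a', b', h1, h2⟩ := ih
    refine ⟨a' * a - b' * b, a' * b + b' * a, ?_, ?_⟩
    · rw [pow_succ, Units.val_mul, h1, hx, gm_RR]
    · rw [pow_succ (a ^ 2 + b ^ 2) n, ← h2]
      ring

variable [Fintype F]

/-- conjugating a `2`-element of `M` of rotation shape into a Sylow `2`-subgroup -/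
theorem g3b_conjR (M : Subgroup (GL (Fin 2) F))
    (hM : ∀ g : GL (Fin 2) F, g ∈ M ↔ ∃ a b : F,
      (g : Matrix (Fin 2) (Fin 2) F) = !![a, -b; b, a] ∨
        (g : Matrix (Fin 2) (Fin 2) F) = !![a, b; b, -a])
    (P : Sylow 2 M) (x : GL (Fin 2) F) (a b : F) (hxM : x ∈ M)
    (hx : (x : Matrix (Fin 2) (Fin 2) F) = !![a, -b; b, a]) (k : ℕ) (hk : x ^ 2 ^ k = 1) :
    ∃ x' ∈ (P : Subgroup M).map M.subtype, ∃ b' : F,
      (x' : Matrix (Fin 2) (Fin 2) F) = !![a, -b'; b', a] ∧ b' ^ 2 = b ^ 2 := by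
  have hk' : (⟨x, hxM⟩ : M) ^ 2 ^ k = 1 := Subtype.ext hk
  obtain ⟨g, hg⟩ := g3b_conj_mem P ⟨x, hxM⟩ k hk'
  refine ⟨(g : GL (Fin 2) F) * x * (g : GL (Fin 2) F)⁻¹, ⟨_, hg, rfl⟩, ?_⟩
  obtain ⟨c, d, hgs | hgs⟩ := (hM g).mp g.2
  · exact ⟨b, g3b_conj_RR (g : GL (Fin 2) F) x c d a b hgs hx, rfl⟩
  · exact ⟨-b, g3b_conj_SR (g : GL (Fin 2) F) x c d a b hgs hx, by ring⟩

/-- an element of reflection shape and norm `1` in the Sylow `2`-subgroup -/
theorem g3b_refl (hq : 4 ∣ Fintype.card F + 1) (M : Subgroup (GL (Fin 2) F))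
    (hM : ∀ g : GL (Fin 2) F, g ∈ M ↔ ∃ a b : F,
      (g : Matrix (Fin 2) (Fin 2) F) = !![a, -b; b, a] ∨
        (g : Matrix (Fin 2) (Fin 2) F) = !![a, b; b, -a])
    (P : Sylow 2 M) :
    ∃ s0 ∈ (P : Subgroup M).map M.subtype, ∃ c d : F,
      (s0 : Matrix (Fin 2) (Fin 2) F) = !![c, d; d, -c] ∧ c ^ 2 + d ^ 2 = 1 := by
  have h2 : (2 : F) ≠ 0 := gm_two_ne_zero hq
  have hns : ¬ IsSquare (-1 : F) := by
    rw [FiniteField.isSquare_neg_one_iff]
    omega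
  have hne1 : (1 : F) ≠ -1 := by
    intro e
    apply h2
    linear_combination e
  have hd0 : (!![(1 : F), 0; 0, -1]).det ≠ 0 := by
    rw [Matrix.det_fin_two_of]; simp
  obtain ⟨σ, hσ⟩ : ∃ σ : GL (Fin 2) F, (σ : Matrix (Fin 2) (Fin 2) F) = !![(1 : F), 0; 0, -1] :=
    ⟨Matrix.GeneralLinearGroup.mkOfDetNeZero _ hd0, rfl⟩
  have hσM : σ ∈ M := (hM σ).mpr ⟨1, 0, Or.inr hσ⟩
  have hσ2 : σ ^ 2 = 1 := by
    apply Units.ext
    rw [pow_two, Units.val_mul, hσ, gm_SS]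
    ext i j; fin_cases i <;> fin_cases j <;> simp
  have hσ2' : (⟨σ, hσM⟩ : M) ^ 2 ^ 1 = 1 := Subtype.ext (by rw [pow_one]; exact hσ2)
  obtain ⟨g, hg⟩ := g3b_conj_mem P ⟨σ, hσM⟩ 1 hσ2'
  obtain ⟨s0, hs0e⟩ : ∃ s0 : GL (Fin 2) F, s0 = (g : GL (Fin 2) F) * σ * (g : GL (Fin 2) F)⁻¹ :=
    ⟨_, rfl⟩
  have hs0P : s0 ∈ (P : Subgroup M).map M.subtype := by
    rw [hs0e]; exact ⟨_, hg, rfl⟩
  have hs0sq : s0 ^ 2 = 1 := by
    rw [hs0e, conj_pow, hσ2, mul_one, mul_inv_cancel]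
  have hs0det : (s0 : Matrix (Fin 2) (Fin 2) F).det = -1 := by
    rw [hs0e, Units.val_mul, Units.val_mul, Matrix.det_mul, Matrix.det_mul, mul_right_comm,
      ← Matrix.det_mul, ← Units.val_mul, mul_inv_cancel, Units.val_one, Matrix.det_one, one_mul,
      hσ, Matrix.det_fin_two_of]
    ring
  have hs0M : s0 ∈ M := by
    obtain ⟨y, -, rfl⟩ := hs0P
    exact y.2
  refine ⟨s0, hs0P, ?_⟩
  obtain ⟨c, d, h | h⟩ := (hM s0).mp hs0M
  · -- rotation shape is impossible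
    exfalso
    have hdet : c ^ 2 + d ^ 2 = -1 := by
      rw [h, Matrix.det_fin_two_of] at hs0det
      linear_combination hs0det
    have hsq : (s0 : Matrix (Fin 2) (Fin 2) F) * (s0 : Matrix (Fin 2) (Fin 2) F) = 1 := by
      rw [← Units.val_mul, ← pow_two, hs0sq, Units.val_one]
    rw [h, gm_RR] at hsq
    have e1 := congrFun (congrFun hsq 0) 0
    have e2 := congrFun (congrFun hsq 1) 0
    simp at e1 e2
    have hcd : c * d = 0 := by
      have : (2 : F) * (c * d) = 0 := by linear_combination e2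
      rcases mul_eq_zero.mp this with h | h
      · exact absurd h h2
      · exact h
    rcases mul_eq_zero.mp hcd with hc | hd
    · apply hns
      refine ⟨d, ?_⟩
      rw [hc] at hdet
      linear_combination -hdet
    · apply hne1
      rw [hd] at hdet e1
      linear_combination hdet - e1
  · refine ⟨c, d, h, ?_⟩
    rw [h, Matrix.det_fin_two_of] at hs0det
    linear_combination -hs0det

/-- an element of rotation shape and norm `-1` in the Sylow `2`-subgroup -/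
theorem g3b_rotm (hq : 4 ∣ Fintype.card F + 1) (M : Subgroup (GL (Fin 2) F))
    (hM : ∀ g : GL (Fin 2) F, g ∈ M ↔ ∃ a b : F,
      (g : Matrix (Fin 2) (Fin 2) F) = !![a, -b; b, a] ∨
        (g : Matrix (Fin 2) (Fin 2) F) = !![a, b; b, -a])
    (P : Sylow 2 M) :
    ∃ c1 ∈ (P : Subgroup M).map M.subtype, ∃ a b : F,
      (c1 : Matrix (Fin 2) (Fin 2) F) = !![a, -b; b, a] ∧ a ^ 2 + b ^ 2 = -1 := by
  have hodd : Odd (Fintype.card F) := by
    obtain ⟨k, hk⟩ := hq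
    exact ⟨2 * k - 1, by omega⟩
  obtain ⟨a, b, hab⟩ : ∃ a b : F, a ^ 2 + b ^ 2 = -1 := by
    classical
    obtain ⟨a, b, hab⟩ := FiniteField.exists_root_sum_quadratic (R := F)
      (f := Polynomial.X ^ 2) (g := Polynomial.X ^ 2 - Polynomial.C (-1))
      (Polynomial.degree_X_pow 2) (Polynomial.degree_X_pow_sub_C (by decide) _)
      (Nat.odd_iff.mp hodd)
    refine ⟨a, b, ?_⟩
    simp only [Polynomial.eval_C, Polynomial.eval_X, Polynomial.eval_pow,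
      Polynomial.eval_sub] at hab
    linear_combination hab
  have hd0 : (!![a, -b; b, a]).det ≠ 0 := by
    rw [Matrix.det_fin_two_of]
    intro e
    have : a ^ 2 + b ^ 2 = 0 := by linear_combination e
    rw [hab] at this
    simp at this
  obtain ⟨w, hw⟩ : ∃ w : GL (Fin 2) F, (w : Matrix (Fin 2) (Fin 2) F) = !![a, -b; b, a] :=
    ⟨Matrix.GeneralLinearGroup.mkOfDetNeZero _ hd0, rfl⟩
  have hwM : w ∈ M := (hM w).mpr ⟨a, b, Or.inl hw⟩
  have hMpos : Nat.card M ≠ 0 := Nat.card_pos.ne'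
  obtain ⟨e, r, hr, hMe⟩ := Nat.exists_eq_two_pow_mul_odd hMpos
  obtain ⟨a', b', hwr, hwrN⟩ := g3b_pow_R w a b hw r
  have hwrM : w ^ r ∈ M := M.pow_mem hwM r
  have hwr2 : (w ^ r) ^ 2 ^ e = 1 := by
    rw [← pow_mul, mul_comm, ← hMe]
    have h1 : (⟨w, hwM⟩ : M) ^ Nat.card M = 1 := pow_card_eq_one'
    exact congrArg Subtype.val h1
  rw [hab, Odd.neg_one_pow hr] at hwrN
  obtain ⟨x', hx'P, b'', hx', hb''⟩ := g3b_conjR M hM P (w ^ r) a' b' hwrM hwr e hwr2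
  exact ⟨x', hx'P, a', b'', hx', by rw [hb'']; exact hwrN⟩

/-- an element `R 0 (±1)` in the Sylow `2`-subgroup -/
theorem g3b_j (M : Subgroup (GL (Fin 2) F))
    (hM : ∀ g : GL (Fin 2) F, g ∈ M ↔ ∃ a b : F,
      (g : Matrix (Fin 2) (Fin 2) F) = !![a, -b; b, a] ∨
        (g : Matrix (Fin 2) (Fin 2) F) = !![a, b; b, -a])
    (P : Sylow 2 M) :
    ∃ j ∈ (P : Subgroup M).map M.subtype, ∃ b : F,
      (j : Matrix (Fin 2) (Fin 2) F) = !![0, -b; b, 0] ∧ b ^ 2 = 1 := by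
  have hd0 : (!![(0 : F), -1; 1, 0]).det ≠ 0 := by
    rw [Matrix.det_fin_two_of]; simp
  obtain ⟨j0, hj0⟩ : ∃ j0 : GL (Fin 2) F, (j0 : Matrix (Fin 2) (Fin 2) F) = !![(0 : F), -1; 1, 0] :=
    ⟨Matrix.GeneralLinearGroup.mkOfDetNeZero _ hd0, rfl⟩
  have hj0M : j0 ∈ M := (hM j0).mpr ⟨0, 1, Or.inl hj0⟩
  have hj04 : j0 ^ 2 ^ 2 = 1 := by
    apply Units.ext
    have : (2 : ℕ) ^ 2 = 2 + 2 := by norm_num
    rw [this, pow_add, pow_two, Units.val_mul, Units.val_mul, hj0, gm_RR, gm_RR]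
    ext i j; fin_cases i <;> fin_cases j <;> simp
  obtain ⟨x', hx'P, b', hx', hb'⟩ := g3b_conjR M hM P j0 0 1 hj0M hj0 2 hj04
  exact ⟨x', hx'P, b', hx', by rw [hb']; ring⟩

/-- PIECE G3B -/
theorem g3_q (hq : 4 ∣ Fintype.card F + 1) (M : Subgroup (GL (Fin 2) F))
    (hM : ∀ g : GL (Fin 2) F, g ∈ M ↔ ∃ a b : F,
      (g : Matrix (Fin 2) (Fin 2) F) = !![a, -b; b, a] ∨
        (g : Matrix (Fin 2) (Fin 2) F) = !![a, b; b, -a])
    (hcard : Nat.card M = 2 * (Fintype.card F ^ 2 - 1)) (P : Sylow 2 M) :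
    ∀ s ∈ gQ ((P : Subgroup M).map M.subtype),
      s ^ 2 ∈ ⁅gQ ((P : Subgroup M).map M.subtype), gQ ((P : Subgroup M).map M.subtype)⁆ := by
  obtain ⟨s0, hs0P, c0, d0, hs0, hs0N⟩ := g3b_refl hq M hM P
  obtain ⟨c1, hc1P, a1, b1, hc1, hc1N⟩ := g3b_rotm hq M hM P
  obtain ⟨j, hjP, bj, hj, hbj⟩ := g3b_j M hM P
  have hPbM : ∀ x ∈ (P : Subgroup M).map M.subtype, x ∈ M := by
    rintro x ⟨y, -, rfl⟩
    exact y.2
  generalize (P : Subgroup M).map M.subtype = Pb at *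
  -- `τ = c1 * s0`
  have hτ : ((c1 * s0 : GL (Fin 2) F) : Matrix (Fin 2) (Fin 2) F)
      = !![a1 * c0 - b1 * d0, a1 * d0 + b1 * c0; a1 * d0 + b1 * c0, -(a1 * c0 - b1 * d0)] := by
    rw [Units.val_mul, hc1, hs0, gm_RS]
  have hτQ : c1 * s0 ∈ gQ Pb := by
    rw [mem_gQ]
    refine ⟨Pb.mul_mem hc1P hs0P, ?_⟩
    rw [hτ, Matrix.det_fin_two_of]
    linear_combination (-(c0 ^ 2 + d0 ^ 2)) * hc1N + hs0N
  -- rotations of determinant one
  have hrot : ∀ s : GL (Fin 2) F, ∀ a b : F, (s : Matrix (Fin 2) (Fin 2) F) = !![a, -b; b, a] →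
      a ^ 2 + b ^ 2 = 1 → ⁅c1 * s0, s⁆ = (s ^ 2)⁻¹ := by
    intro s a b hsm hN
    have hconj := g3b_conj_SR (c1 * s0) s _ _ a b hτ hsm
    have hinv : c1 * s0 * s * (c1 * s0)⁻¹ = s⁻¹ := by
      apply eq_inv_of_mul_eq_one_left
      apply Units.ext
      rw [Units.val_mul, hconj, hsm, gm_RR]
      ext i j; fin_cases i <;> fin_cases j <;> simp <;> first | ring1 | linear_combination hN
    rw [commutatorElement_def, hinv, pow_two, _root_.mul_inv_rev]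
  intro s hs
  have hsPb : s ∈ Pb := ((mem_gQ Pb s).mp hs).1
  have hsdet : (s : Matrix (Fin 2) (Fin 2) F).det = 1 := ((mem_gQ Pb s).mp hs).2
  obtain ⟨a, b, h | h⟩ := (hM s).mp (hPbM s hsPb)
  · -- rotation
    have hN : a ^ 2 + b ^ 2 = 1 := by
      rw [h, Matrix.det_fin_two_of] at hsdet
      linear_combination hsdet
    have h1 := hrot s a b h hN
    have h2 : s ^ 2 = (⁅c1 * s0, s⁆)⁻¹ := by rw [h1, inv_inv]
    rw [h2]
    exact inv_mem (Subgroup.commutator_mem_commutator hτQ hs)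
  · -- reflection of determinant one: `s ^ 2 = -1 = (j ^ 2)⁻¹`
    have hN : a ^ 2 + b ^ 2 = -1 := by
      rw [h, Matrix.det_fin_two_of] at hsdet
      linear_combination -hsdet
    have hjQ : j ∈ gQ Pb := by
      rw [mem_gQ]
      refine ⟨hjP, ?_⟩
      rw [hj, Matrix.det_fin_two_of]
      linear_combination hbj
    have h1 := hrot j 0 bj hj (by rw [hbj]; ring)
    have h2 : s ^ 2 = (j ^ 2)⁻¹ := by
      apply eq_inv_of_mul_eq_one_left
      apply Units.ext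
      rw [pow_two, pow_two, Units.val_mul, Units.val_mul, Units.val_mul, h, hj, gm_SS, gm_RR, gm_RR]
      ext i j; fin_cases i <;> fin_cases j <;> simp <;>
        first | (left; ring1) | linear_combination (-bj ^ 2) * hN + hbj
    rw [h2, ← h1]
    exact Subgroup.commutator_mem_commutator hτQ hjQ

end Cfsg.Agent.Helper97.GSylG3B
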