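import Mathlib
import Cfsg.Agent.Helper97.GSylDefs

/-!
# Helper97: pieces WP, WC, WS of CALL S4627 (the wreath-type subgroup `gW S T`)
-/

set_option autoImplicit false

namespace Cfsg.Agent.Helper97.GSylW

open Matrix Cfsg.Agent.Helper97.GSyl

open scoped commutatorElement

variable {F : Type*} [Field F] {m : ℕ}

/-- PIECE WP -/
theorem gW_isPGroup [Finite F] (S : Subgroup (GL (Fin 2) F)) (T : Subgroup (Equiv.Perm (Fin m)))
    (hS : IsPGroup 2 S) (hT : IsPGroup 2 T) : IsPGroup 2 (gW S T) := by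
  have hpi : IsPGroup 2 (Subgroup.pi Set.univ (fun _ : Fin m => S)) := by
    obtain ⟨k, hk⟩ := hS.exists_card_eq
    rintro ⟨g, hg⟩
    refine ⟨k, ?_⟩
    apply Subtype.ext
    funext j
    have h1 : (⟨g j, hg j (Set.mem_univ j)⟩ : S) ^ Nat.card S = 1 := pow_card_eq_one'
    rw [hk] at h1
    have h2 := congrArg Subtype.val h1
    simpa using h2
  have hA := hpi.map (gPhi F m)
  have hB := hT.map (gPsi F m)
  refine IsPGroup.to_sup_of_normal_left' hA hB ?_
  rintro x ⟨σ, hσ, rfl⟩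
  apply Subgroup.mem_normalizer_fintype
  rintro y ⟨g, hg, rfl⟩
  rw [gPsi_conj]
  exact ⟨g ∘ ⇑σ⁻¹, fun j _ => hg (σ⁻¹ j) (Set.mem_univ _), rfl⟩

/-- PIECE WC -/
theorem gW_card [Finite F] (S : Subgroup (GL (Fin 2) F)) (T : Subgroup (Equiv.Perm (Fin m))) :
    Nat.card S ^ m * Nat.card T ≤ Nat.card (gW S T) := by
  let f : (Fin m → S) × T → gW S T := fun x =>
    ⟨gPhi F m (fun j => (x.1 j : GL (Fin 2) F)) * gPsi F m x.2.1,
      mul_mem (Subgroup.mem_sup_left (Subgroup.mem_map_of_mem _ (fun j _ => (x.1 j).2)))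
        (Subgroup.mem_sup_right (Subgroup.mem_map_of_mem _ x.2.2))⟩
  have hf : Function.Injective f := by
    rintro ⟨g, σ⟩ ⟨g', σ'⟩ h
    have h1 : gPhi F m (fun j => (g j : GL (Fin 2) F)) * gPsi F m σ.1
        = gPhi F m (fun j => (g' j : GL (Fin 2) F)) * gPsi F m σ'.1 :=
      congrArg Subtype.val h
    have h2 : gPhi F m ((fun j => (g' j : GL (Fin 2) F))⁻¹ *
        (fun j => (g j : GL (Fin 2) F))) = gPsi F m (σ'.1 * σ.1⁻¹) := by
      rw [map_mul, map_mul, map_inv, map_inv]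
      rw [inv_mul_eq_iff_eq_mul, ← mul_assoc, ← h1]
      group
    have h3 := gPhi_eq_gPsi _ _ h2
    have h4 : σ'.1 = σ.1 := by
      rw [mul_inv_eq_one] at h3
      exact h3
    rw [h4] at h1
    have h5 := gPhi_injective (mul_right_cancel h1)
    have h6 : g = g' := by
      funext j
      exact Subtype.ext (congrFun h5 j)
    rw [h6, Subtype.ext h4.symm]
  have h1 := Nat.card_le_card_of_injective f hf
  rw [Nat.card_prod, Nat.card_fun, Nat.card_fin] at h1
  exact h1

/-- squares lie in the commutator subgroup as soon as the squares of generators do -/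
theorem gs_sq_of_closure {G : Type*} [Group G] (U : Subgroup G) (S : Set G)
    (hS : U = Subgroup.closure S) (h : ∀ s ∈ S, s ^ 2 ∈ ⁅U, U⁆) : ∀ x ∈ U, x ^ 2 ∈ ⁅U, U⁆ := by
  intro x hx
  have hx' : x ∈ Subgroup.closure S := hS ▸ hx
  induction hx' using Subgroup.closure_induction with
  | mem s hs => exact h s hs
  | one => rw [one_pow]; exact one_mem _
  | mul a b ha hb iha ihb =>
    have ha' : a ∈ U := hS ▸ ha
    have hb' : b ∈ U := hS ▸ hb
    have e : (a * b) ^ 2 = a ^ 2 * ⁅a⁻¹, b⁆ * b ^ 2 := by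
      rw [commutatorElement_def, pow_two, pow_two, pow_two]; group
    rw [e]
    exact mul_mem (mul_mem (iha ha') (Subgroup.commutator_mem_commutator (inv_mem ha') hb'))
      (ihb hb')
  | inv a ha iha =>
    have ha' : a ∈ U := hS ▸ ha
    rw [inv_pow]
    exact inv_mem (iha ha')

/-- PIECE WS -/
theorem gW_sq (S : Subgroup (GL (Fin 2) F)) (T : Subgroup (Equiv.Perm (Fin m)))
    (hS : ∀ s ∈ S, s ^ 2 ∈ ⁅S, S⁆) (hT : ∀ t ∈ T, t ^ 2 ∈ ⁅T, T⁆) :
    ∀ x ∈ gW S T, x ^ 2 ∈ ⁅gW S T, gW S T⁆ := by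
  apply gs_sq_of_closure (gW S T)
    (((Subgroup.pi Set.univ (fun _ : Fin m => S)).map (gPhi F m) : Set _) ∪
      ((T.map (gPsi F m) : Subgroup _) : Set _))
  · unfold gW
    rw [Subgroup.closure_union, Subgroup.closure_eq, Subgroup.closure_eq]
  · rintro s (hs | hs)
    · obtain ⟨g, hg, rfl⟩ := hs
      rw [← map_pow]
      have h1 : g ^ 2 ∈ ⁅Subgroup.pi Set.univ (fun _ : Fin m => S),
          Subgroup.pi Set.univ (fun _ : Fin m => S)⁆ := by
        rw [Subgroup.commutator_pi_pi_of_finite]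
        intro i _
        exact hS (g i) (hg i (Set.mem_univ i))
      have h2 := Subgroup.mem_map_of_mem (gPhi F m) h1
      rw [Subgroup.map_commutator] at h2
      exact Subgroup.commutator_mono le_sup_left le_sup_left h2
    · obtain ⟨σ, hσ, rfl⟩ := hs
      rw [← map_pow]
      have h2 := Subgroup.mem_map_of_mem (gPsi F m) (hT σ hσ)
      rw [Subgroup.map_commutator] at h2
      exact Subgroup.commutator_mono le_sup_right le_sup_right h2

end Cfsg.Agent.Helper97.GSylW
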