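import Mathlib
import Cfsg.Agent.S4623
import Cfsg.Agent.Helper97.GSylDefs
import Cfsg.Agent.Helper97.GSylWN
import Cfsg.Agent.Helper97.GSylW
import Cfsg.Agent.Helper97.GSylGM
import Cfsg.Agent.Helper97.GSylG1S
import Cfsg.Agent.Helper97.GSylG3B
import Cfsg.Agent.Helper41.GSylRE
import Cfsg.Agent.Helper41.GSylTR
import Cfsg.Agent.Helper41.GSylV2N
import Cfsg.Agent.Helper41.GSylV2O
import Cfsg.Agent.Helper41.GSylV2S
import Cfsg.Agent.Helper41.GSylV2W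
import Cfsg.Agent.Helper46.GSylW1B
import Cfsg.Agent.Helper64.GSylG3A
import Cfsg.Agent.Helper78.GSylW1A
import Cfsg.Agent.Helper80.GSylIOTA
import Cfsg.Agent.Helper80.GSylW1C
import Cfsg.Agent.Helper80.GSylW1G
import Cfsg.Agent.Helper80.GSylW1P
import Cfsg.Agent.Helper93.GSylG1M
import Cfsg.Agent.Helper93.GSylG1Q

/-!
# Helper97: assembly of rows S4627 / S4628 (Sylow 2-subgroups of `SL_n(q)`, `q` odd, have
elementary abelian abelianization in the stated cases) from the pieces of CALL S4627.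
-/

set_option autoImplicit false

namespace Cfsg.Agent.Helper97.GSylMain

open Matrix Cfsg.Agent.Helper97.GSyl

open Cfsg.Agent.Helper97.GSylWN Cfsg.Agent.Helper97.GSylW Cfsg.Agent.Helper97.GSylGM Cfsg.Agent.Helper97.GSylG1S Cfsg.Agent.Helper97.GSylG3B Cfsg.Agent.Helper41.GSylRE Cfsg.Agent.Helper41.GSylTR Cfsg.Agent.Helper41.GSylV2N Cfsg.Agent.Helper41.GSylV2O Cfsg.Agent.Helper41.GSylV2S Cfsg.Agent.Helper41.GSylV2W Cfsg.Agent.Helper46.GSylW1B Cfsg.Agent.Helper64.GSylG3A Cfsg.Agent.Helper78.GSylW1A Cfsg.Agent.Helper80.GSylIOTA Cfsg.Agent.Helper80.GSylW1C Cfsg.Agent.Helper80.GSylW1G Cfsg.Agent.Helper80.GSylW1P Cfsg.Agent.Helper93.GSylG1M Cfsg.Agent.Helper93.GSylG1Q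

variable {F : Type*} [Field F]

theorem gs_sq_iff {G : Type*} [Group G] (H : Subgroup G) :
    (∀ t : H, t ^ 2 ∈ commutator H) ↔ ∀ t ∈ H, t ^ 2 ∈ ⁅H, H⁆ := by
  have hmap : (commutator H).map H.subtype = ⁅H, H⁆ := by
    rw [commutator_def, Subgroup.map_commutator, ← MonoidHom.range_eq_map, Subgroup.range_subtype]
  constructor
  · intro h t ht
    rw [← hmap]
    exact ⟨⟨t, ht⟩ ^ 2, h ⟨t, ht⟩, rfl⟩
  · intro h t
    have h1 := h t.1 t.2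
    rw [← hmap] at h1
    obtain ⟨w, hw, e⟩ := h1
    have : w = t ^ 2 := Subtype.ext e
    rw [← this]
    exact hw

/-- the symmetric-group input (S4623) -/
theorem gs_perm_sq (m : ℕ) (T : Sylow 2 (Equiv.Perm (Fin m))) :
    ∀ t ∈ (T : Subgroup (Equiv.Perm (Fin m))),
      t ^ 2 ∈ ⁅(T : Subgroup (Equiv.Perm (Fin m))), (T : Subgroup (Equiv.Perm (Fin m)))⁆ := by
  have : Fact (Nat.Prime 2) := ⟨Nat.prime_two⟩
  obtain Q : Sylow 2 (alternatingGroup (Fin m)) := default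
  exact (gs_sq_iff _).mp (Cfsg.Agent.S4623.result 2 m T Q).1

/-- the order of `gW S T` for Sylow `S`, `T` -/
theorem gs_card_ge [Fintype F] (hF : Odd (Fintype.card F)) (m : ℕ)
    (S : Sylow 2 (GL (Fin 2) F)) (T : Sylow 2 (Equiv.Perm (Fin m))) :
    2 ^ (Nat.card (GL (Fin 2 × Fin m) F)).factorization 2
      ≤ Nat.card (gW (S : Subgroup (GL (Fin 2) F)) (T : Subgroup (Equiv.Perm (Fin m)))) := by
  have : Fact (Nat.Prime 2) := ⟨Nat.prime_two⟩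
  have hc := gW_card (S : Subgroup (GL (Fin 2) F)) (T : Subgroup (Equiv.Perm (Fin m)))
  have hSc : Nat.card S = 2 ^ (Nat.card (GL (Fin 2) F)).factorization 2 :=
    Sylow.card_eq_multiplicity S
  have hTc : Nat.card T = 2 ^ (Nat.card (Equiv.Perm (Fin m))).factorization 2 :=
    Sylow.card_eq_multiplicity T
  rw [Nat.card_perm, Nat.card_fin] at hTc
  rw [v2_card_GL_blocks hF m, pow_add, pow_mul']
  calc _ = Nat.card S ^ m * Nat.card T := by rw [hSc, hTc]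
    _ ≤ _ := hc

/-- the data for `q ≡ 3 (mod 4)` -/
theorem gs_three [Fintype F] (hq : 4 ∣ Fintype.card F + 1) :
    ∃ S : Sylow 2 (GL (Fin 2) F),
      (∀ s ∈ (S : Subgroup (GL (Fin 2) F)),
        s ^ 2 ∈ ⁅(S : Subgroup (GL (Fin 2) F)), (S : Subgroup (GL (Fin 2) F))⁆) ∧
      (∀ s ∈ (S : Subgroup (GL (Fin 2) F)), (s : Matrix (Fin 2) (Fin 2) F).det = 1 ∨
        (s : Matrix (Fin 2) (Fin 2) F).det = -1) ∧
      (∃ s₀ ∈ (S : Subgroup (GL (Fin 2) F)),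
        (s₀ : Matrix (Fin 2) (Fin 2) F).det = -1 ∧ s₀ ^ 2 = 1) ∧
      (∀ s ∈ gQ (S : Subgroup (GL (Fin 2) F)),
        s ^ 2 ∈ ⁅gQ (S : Subgroup (GL (Fin 2) F)), gQ (S : Subgroup (GL (Fin 2) F))⁆) := by
  have : Fact (Nat.Prime 2) := ⟨Nat.prime_two⟩
  obtain ⟨M, hM⟩ := exists_gM F
  have hMc := gM_card hq M hM
  obtain P0 : Sylow 2 M := default
  obtain ⟨S, hS⟩ := g3_sylow hq M hMc P0
  obtain ⟨h1, h2, h3⟩ := g3_props hq M hM hMc P0
  have h4 := g3_q hq M hM hMc P0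
  rw [← hS] at h1 h2 h3 h4
  exact ⟨S, h1, h2, h3, h4⟩

/-- the data for `q ≡ 1 (mod 4)` -/
theorem gs_one [Fintype F] (hq : 4 ∣ Fintype.card F - 1) :
    ∃ S : Sylow 2 (GL (Fin 2) F),
      ∀ s ∈ gQ (S : Subgroup (GL (Fin 2) F)),
        s ^ 2 ∈ ⁅gQ (S : Subgroup (GL (Fin 2) F)), gQ (S : Subgroup (GL (Fin 2) F))⁆ := by
  have : Fact (Nat.Prime 2) := ⟨Nat.prime_two⟩
  obtain μ : Sylow 2 Fˣ := default
  obtain ⟨S0, hS0, hS0c⟩ := exists_g1 (μ : Subgroup Fˣ)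
  obtain ⟨S, hS⟩ := g1_sylow hq μ S0 hS0c
  have hQ := g1_q hq μ S0 hS0
  rw [← hS] at hQ
  exact ⟨S, hQ⟩

/-- Row S4628. -/
theorem row_odd [Fintype F] (hF : Odd (Fintype.card F)) (hq : 4 ∣ Fintype.card F + 1) (m : ℕ)
    (P : Sylow 2 (Matrix.SpecialLinearGroup (Fin (2 * m + 1)) F)) :
    ∀ x : (P : Subgroup (Matrix.SpecialLinearGroup (Fin (2 * m + 1)) F)),
      x ^ 2 ∈ commutator (P : Subgroup (Matrix.SpecialLinearGroup (Fin (2 * m + 1)) F)) := by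
  have : Fact (Nat.Prime 2) := ⟨Nat.prime_two⟩
  obtain ⟨S, h1, -, -, -⟩ := gs_three hq
  obtain T : Sylow 2 (Equiv.Perm (Fin m)) := default
  obtain ⟨f, hf⟩ := exists_iota F m
  refine sylow_transfer f hf (gW (S : Subgroup (GL (Fin 2) F)) (T : Subgroup (Equiv.Perm (Fin m))))
    (gW_isPGroup _ _ S.isPGroup' T.isPGroup') ?_ (gW_sq _ _ h1 (gs_perm_sq m T)) P
  rw [v2_card_SL_odd hF m]
  exact gs_card_ge hF m S T

/-- Row S4627. -/
theorem row_even [Fintype F] (hF : Odd (Fintype.card F)) (m : ℕ) (hm : 1 ≤ m)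
    (hq : 4 ∣ Fintype.card F + 1 ∨ (4 ∣ Fintype.card F - 1 ∧ ∃ j : ℕ, m = 2 ^ j))
    (P : Sylow 2 (Matrix.SpecialLinearGroup (Fin (2 * m)) F)) :
    ∀ x : (P : Subgroup (Matrix.SpecialLinearGroup (Fin (2 * m)) F)),
      x ^ 2 ∈ commutator (P : Subgroup (Matrix.SpecialLinearGroup (Fin (2 * m)) F)) := by
  have : Fact (Nat.Prime 2) := ⟨Nat.prime_two⟩
  obtain ⟨e⟩ := exists_re F m
  obtain ⟨S, T, hsq⟩ : ∃ (S : Sylow 2 (GL (Fin 2) F)) (T : Sylow 2 (Equiv.Perm (Fin m))),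
      ∀ x ∈ gWk (S : Subgroup (GL (Fin 2) F)) (T : Subgroup (Equiv.Perm (Fin m))),
        x ^ 2 ∈ ⁅gWk (S : Subgroup (GL (Fin 2) F)) (T : Subgroup (Equiv.Perm (Fin m))),
          gWk (S : Subgroup (GL (Fin 2) F)) (T : Subgroup (Equiv.Perm (Fin m)))⁆ := by
    rcases hq with hq | ⟨hq, j, rfl⟩
    · obtain ⟨S, -, h2, h3, h4⟩ := gs_three hq
      obtain T : Sylow 2 (Equiv.Perm (Fin m)) := default
      exact ⟨S, T, gWk_sq_inv _ _ h2 h3 h4 (gs_perm_sq m T)⟩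
    · obtain ⟨S, hQ⟩ := gs_one hq
      obtain T : Sylow 2 (Equiv.Perm (Fin (2 ^ j))) := default
      exact ⟨S, T, gWk_sq_trans _ _ hQ (gs_perm_sq _ T) (sylow_two_pow_trans j T)⟩
  have hWp : IsPGroup 2 (gW (S : Subgroup (GL (Fin 2) F)) (T : Subgroup (Equiv.Perm (Fin m)))) :=
    gW_isPGroup _ _ S.isPGroup' T.isPGroup'
  refine sylow_transfer e.toMonoidHom e.injective
    (gW1 (S : Subgroup (GL (Fin 2) F)) (T : Subgroup (Equiv.Perm (Fin m))))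
    (gW1_isPGroup _ _ hWp) ?_ (gW1_sq_of_gWk _ _ hsq) P
  have hc1 := gW1_card (S : Subgroup (GL (Fin 2) F)) (T : Subgroup (Equiv.Perm (Fin m))) hWp
  have hc := gs_card_ge hF m S T
  rw [← v2_card_SL_even hF m hm, pow_add] at hc
  have hpos : 0 < 2 ^ padicValNat 2 (Fintype.card F - 1) := by positivity
  exact Nat.le_of_mul_le_mul_right (le_trans hc hc1) hpos

end Cfsg.Agent.Helper97.GSylMain
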