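import Mathlib

set_option autoImplicit false

namespace Cfsg.Agent.Helper97.S1906P

variable {F : Type*} [Field F] {V : Type*} [AddCommGroup V] [Module F V] {P : Type*} [Group P]

/-- A finite set of pairwise commuting involutions (char `≠ 2`): the common `±1`-eigenvectors
span the whole space. -/
theorem diag_span (h2 : (2 : F) ≠ 0) (ρ : Representation F P V) (E : Subgroup P)
    (hab : ∀ a ∈ E, ∀ a' ∈ E, a * a' = a' * a) (hsq : ∀ a ∈ E, a * a = 1)
    (T : Finset P) (hT : ∀ a ∈ T, a ∈ E) (v : V) :
    v ∈ Submodule.span F {w : V | ∀ a ∈ T, ρ a w = w ∨ ρ a w = -w} := by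
  classical
  have hinv : ∀ a ∈ E, ∀ v, ρ a (ρ a v) = v := by
    intro a ha v
    have h1 : ρ (a * a) v = ρ a (ρ a v) := by rw [map_mul]; rfl
    rw [← h1, hsq a ha, map_one]; rfl
  have hcomm : ∀ a ∈ E, ∀ a' ∈ E, ∀ v, ρ a (ρ a' v) = ρ a' (ρ a v) := by
    intro a ha a' ha' v
    have h1 : ρ (a * a') v = ρ (a' * a) v := by rw [hab a ha a' ha']
    rw [map_mul, map_mul] at h1
    exact h1
  induction T using Finset.induction_on generalizing v with
  | empty => exact Submodule.subset_span (by simp)
  | insert a T' haT' ih =>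
    have hT' : ∀ a ∈ T', a ∈ E := fun x hx => hT x (Finset.mem_insert_of_mem hx)
    have haE : a ∈ E := hT a (Finset.mem_insert_self _ _)
    have hle : Submodule.span F {w : V | ∀ a ∈ T', ρ a w = w ∨ ρ a w = -w} ≤
        Submodule.span F {w : V | ∀ x ∈ insert a T', ρ x w = w ∨ ρ x w = -w} := by
      rw [Submodule.span_le]
      intro w hw
      have hdec : w = (2 : F)⁻¹ • (w + ρ a w) + (2 : F)⁻¹ • (w - ρ a w) := by
        rw [← smul_add]
        have : w + ρ a w + (w - ρ a w) = (2 : F) • w := by rw [two_smul]; abel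
        rw [this, smul_smul, inv_mul_cancel₀ h2, one_smul]
      rw [SetLike.mem_coe, hdec]
      refine Submodule.add_mem _ (Submodule.smul_mem _ _ (Submodule.subset_span ?_))
        (Submodule.smul_mem _ _ (Submodule.subset_span ?_))
      · intro x hx
        rcases Finset.mem_insert.mp hx with rfl | hx
        · left; rw [map_add, hinv x haE, add_comm]
        · rcases hw x hx with h | h
          · left; rw [map_add, hcomm x (hT' x hx) a haE, h]
          · right; rw [map_add, hcomm x (hT' x hx) a haE, h, map_neg, neg_add]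
      · intro x hx
        rcases Finset.mem_insert.mp hx with rfl | hx
        · right; rw [map_sub, hinv x haE, neg_sub]
        · rcases hw x hx with h | h
          · left; rw [map_sub, hcomm x (hT' x hx) a haE, h]
          · right; rw [map_sub, hcomm x (hT' x hx) a haE, h, map_neg, neg_sub, sub_neg_eq_add,
              neg_add_eq_sub]
    exact hle (ih hT' v)

/-- DIAG. Simultaneous diagonalization of `E` (abelian of exponent `2`, finite) on the
`3`-space `V`. -/
theorem s1906_diag (h2 : (2 : F) ≠ 0) (hV : Module.finrank F V = 3)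
    (ρ : Representation F P V) (E : Subgroup P)
    (hab : ∀ a ∈ E, ∀ a' ∈ E, a * a' = a' * a) (hsq : ∀ a ∈ E, a * a = 1)
    (hfaith : ∀ a ∈ E, (∀ v : V, ρ a v = v) → a = 1) (hcard : Nat.card E = 8) :
    ∃ b : Module.Basis (Fin 3) F V, ∀ a ∈ E, ∀ j, ρ a (b j) = b j ∨ ρ a (b j) = -b j := by
  classical
  have hfin : Finite E := Nat.finite_of_card_ne_zero (by rw [hcard]; norm_num)
  have hEfin : (E : Set P).Finite := hfin
  set S : Set V := {w : V | ∀ a ∈ E, ρ a w = w ∨ ρ a w = -w} with hS
  have hspan : Submodule.span F S = ⊤ := by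
    rw [eq_top_iff]
    intro v _
    have := diag_span h2 ρ E hab hsq hEfin.toFinset (fun a ha => by simpa using ha) v
    refine Submodule.span_mono ?_ this
    intro w hw a ha
    exact hw a (by simpa using ha)
  obtain ⟨b, hbS, hbspan, hbli⟩ := exists_linearIndependent F S
  have hb_top : ⊤ ≤ Submodule.span F (Set.range (Subtype.val : b → V)) := by
    rw [Subtype.range_coe, hbspan, hspan]
  let B := Module.Basis.mk hbli hb_top
  have hcardb : Nat.card b = 3 := by
    rw [← hV, Module.finrank_eq_nat_card_basis B]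
  have : Finite b := Nat.finite_of_card_ne_zero (by rw [hcardb]; norm_num)
  let e : b ≃ Fin 3 := Finite.equivFinOfCardEq hcardb
  refine ⟨B.reindex e, ?_⟩
  intro a ha j
  have hj : (B.reindex e) j = ((e.symm j : b) : V) := by
    simp [B, Module.Basis.reindex_apply]
  rw [hj]
  exact hbS (e.symm j).2 a ha

end Cfsg.Agent.Helper97.S1906P
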