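import Mathlib

set_option autoImplicit false

namespace Cfsg.Agent.Helper97.S1906P

variable {F : Type*} [Field F] {V : Type*} [AddCommGroup V] [Module F V] {P : Type*} [Group P]

/-- SPLIT. Position of `L`, `W` with respect to the sign basis. -/
theorem s1906_split (h2 : (2 : F) ≠ 0) (hV : Module.finrank F V = 3) (ρ : Representation F P V)
    (E : Subgroup P) (b : Module.Basis (Fin 3) F V)
    (hfull : ∀ i : Fin 3, ∃ a ∈ E, ∀ j, ρ a (b j) = if j = i then -b j else b j)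
    (L W : Submodule F V) (hL1 : Module.finrank F L = 1) (hLW : IsCompl L W)
    (hL : ∀ a ∈ E, ∀ v ∈ L, ρ a v ∈ L) (hW : ∀ a ∈ E, ∀ v ∈ W, ρ a v ∈ W) :
    ∃ u ∈ E, ∃ d ∈ E, (∀ v ∈ L, ρ u v = -v) ∧ (∀ v ∈ W, ρ u v = v) ∧
      ∃ v₁ ∈ W, ∃ v₂ ∈ W, v₁ ≠ 0 ∧ v₂ ≠ 0 ∧ ρ d v₁ = -v₁ ∧ ρ d v₂ = v₂ ∧
        ∀ v ∈ W, ∃ c₁ c₂ : F, v = c₁ • v₁ + c₂ • v₂ := by
  classical
  choose e heE he using hfull
  have hcoord : ∀ (i : Fin 3) (v : V) (j : Fin 3),
      b.repr (ρ (e i) v) j = if j = i then -(b.repr v j) else b.repr v j := by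
    intro i v j
    have h1 : ρ (e i) v = ∑ x, (if x = i then -(b.repr v x) else b.repr v x) • b x := by
      conv_lhs => rw [← b.sum_repr v]
      rw [map_sum]
      refine Finset.sum_congr rfl fun x _ => ?_
      rw [map_smul, he i x]
      split_ifs <;> simp
    rw [h1, b.repr_sum_self]
  obtain ⟨ℓ, hℓ0, hℓ⟩ := finrank_eq_one_iff'.mp hL1
  have hℓ0' : (ℓ : V) ≠ 0 := fun h => hℓ0 (Subtype.ext h)
  have hLmem : ∀ v ∈ L, ∃ t : F, v = t • (ℓ : V) := by
    intro v hv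
    obtain ⟨t, ht⟩ := hℓ ⟨v, hv⟩
    exact ⟨t, by rw [← L.coe_smul, ht]⟩
  obtain ⟨i0, hi0⟩ : ∃ i0, b.repr (ℓ : V) i0 ≠ 0 := by
    by_contra hcon
    push_neg at hcon
    apply hℓ0'
    apply b.repr.injective
    ext x
    simp [hcon x]
  obtain ⟨μ, hμ⟩ := hLmem _ (hL (e i0) (heE i0) ℓ ℓ.2)
  have hμ1 : μ = -1 := by
    have h1 := hcoord i0 (ℓ : V) i0
    rw [hμ, if_pos rfl] at h1
    simp only [map_smul, Finsupp.smul_apply, smul_eq_mul] at h1
    have : (μ + 1) * b.repr (ℓ : V) i0 = 0 := by rw [add_mul, h1]; ring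
    rcases mul_eq_zero.mp this with h | h
    · exact eq_neg_of_add_eq_zero_left h
    · exact absurd h hi0
  have hℓj : ∀ j, j ≠ i0 → b.repr (ℓ : V) j = 0 := by
    intro j hj
    have h1 := hcoord i0 (ℓ : V) j
    rw [hμ, if_neg hj, hμ1] at h1
    simp only [map_smul, Finsupp.smul_apply, smul_eq_mul] at h1
    have : (2 : F) * b.repr (ℓ : V) j = 0 := by linear_combination -h1
    exact (mul_eq_zero.mp this).resolve_left h2
  have hLj : ∀ v ∈ L, ∀ j, j ≠ i0 → b.repr v j = 0 := by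
    intro v hv j hj
    obtain ⟨t, rfl⟩ := hLmem v hv
    simp [hℓj j hj]
  have huL : ∀ v ∈ L, ρ (e i0) v = -v := by
    intro v hv
    apply b.repr.injective
    ext j
    rw [hcoord]
    by_cases hj : j = i0
    · rw [if_pos hj]; simp
    · rw [if_neg hj]; simp [hLj v hv j hj]
  have hbi0L : b i0 ∈ L := by
    have : b i0 = (b.repr (ℓ : V) i0)⁻¹ • (ℓ : V) := by
      apply b.repr.injective
      ext j
      by_cases hj : j = i0
      · subst hj; simp [hi0]
      · simp [hℓj j hj, Finsupp.single_apply, Ne.symm hj]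
    rw [this]
    exact L.smul_mem _ ℓ.2
  have hWi0 : ∀ w ∈ W, b.repr w i0 = 0 := by
    intro w hw
    have hx : w - ρ (e i0) w = ((2 : F) * b.repr w i0) • b i0 := by
      apply b.repr.injective
      ext j
      rw [map_sub, Finsupp.sub_apply, hcoord]
      by_cases hj : j = i0
      · subst hj; simp; ring
      · simp [hj, Finsupp.single_apply, Ne.symm hj]
    have hxW : w - ρ (e i0) w ∈ W := W.sub_mem hw (hW _ (heE i0) w hw)
    have hxL : w - ρ (e i0) w ∈ L := by rw [hx]; exact L.smul_mem _ hbi0L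
    have hx0 : w - ρ (e i0) w = 0 := by
      have := hLW.disjoint.le_bot (Submodule.mem_inf.mpr ⟨hxL, hxW⟩)
      simpa using this
    rw [hx0] at hx
    have h3 := (smul_eq_zero.mp hx.symm).resolve_right (b.ne_zero i0)
    exact (mul_eq_zero.mp h3).resolve_left h2
  have huW : ∀ w ∈ W, ρ (e i0) w = w := by
    intro w hw
    apply b.repr.injective
    ext j
    rw [hcoord]
    by_cases hj : j = i0
    · rw [if_pos hj, hj, hWi0 w hw, neg_zero]
    · rw [if_neg hj]
  have hbW : ∀ j, j ≠ i0 → b j ∈ W := by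
    intro j hj
    have hmem : b j ∈ L ⊔ W := by rw [hLW.sup_eq_top]; trivial
    obtain ⟨l, hl, w, hw, hlw⟩ := Submodule.mem_sup.mp hmem
    have hl0 : l = 0 := by
      apply b.repr.injective
      ext x
      by_cases hx : x = i0
      · subst hx
        have h1 : b.repr (l + w) x = b.repr (b j) x := by rw [hlw]
        rw [map_add, Finsupp.add_apply, hWi0 w hw, add_zero] at h1
        rw [h1]; simp [Finsupp.single_apply, hj]
      · simp [hLj l hl x hx]
    rw [hl0, zero_add] at hlw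
    rw [← hlw]; exact hw
  have hfin3 : ∀ i : Fin 3, i + 1 ≠ i ∧ i + 2 ≠ i ∧ i + 2 ≠ i + 1 ∧
      ∀ x, x = i ∨ x = i + 1 ∨ x = i + 2 := by
    decide
  obtain ⟨hj, hk, hkj, hall⟩ := hfin3 i0
  refine ⟨e i0, heE i0, e (i0 + 1), heE (i0 + 1), huL, huW, b (i0 + 1), hbW _ hj, b (i0 + 2),
    hbW _ hk, b.ne_zero _, b.ne_zero _, ?_, ?_, ?_⟩
  · rw [he, if_pos rfl]
  · rw [he, if_neg hkj]
  · intro v hv
    refine ⟨b.repr v (i0 + 1), b.repr v (i0 + 2), ?_⟩
    apply b.repr.injective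
    ext x
    rcases hall x with rfl | rfl | rfl
    · simp [hWi0 v hv, Finsupp.single_apply, hj, hk]
    · simp [Finsupp.single_apply, hkj]
    · simp [Finsupp.single_apply, hkj, Ne.symm hkj]

end Cfsg.Agent.Helper97.S1906P
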